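import Cfsg.Agent.H758.NormMain
import Cfsg.Agent.H756.TCen
import Cfsg.Agent.H753.CentStrong
import Cfsg.Agent.H754.MpSat
import Cfsg.Agent.H770.NSys
import Cfsg.Agent.H759.CentNormal
import Cfsg.Agent.H792.CentFinal
import Cfsg.Agent.H793.FixMax
import Cfsg.Agent.S0557
import Cfsg.Agent.H793.ZCenterOdd
import Cfsg.Agent.H757.Central
set_option linter.all false

-- part: H769/NsTriv
section
/-!
# Automorphisms of `N C_S(N)` trivial on `N` and modulo `N` (helper769)
-/

set_option autoImplicit false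

namespace Cfsg.Agent.H769

open Cfsg Cfsg.FusionSystem Cfsg.Agent.H752

variable {Ω : Type*} [Group Ω] {S T : Subgroup Ω} {F : FusionSystem S} {p : ℕ}

/-- A map of the system on `N C_S(N)`, for `N` fully centralized, which is trivial on `N` and modulo `N`, is
conjugation by an element of `C_S(N)`. -/
theorem conj_of_triv [Finite S] [Fact p.Prime] (hS : IsPGroup p S) (hF : F.IsSaturated p)
    {N : Subgroup Ω} (hN : F.IsFullyCentralized N) {k : Ω → Ω}
    (hk : Mp F (N ⊔ centralizerIn S N) k) (h1 : ∀ x ∈ N, k x = x)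
    (h2 : ∀ c ∈ centralizerIn S N, c⁻¹ * k c ∈ N) :
    ∃ s ∈ centralizerIn S N, ∀ x ∈ N ⊔ centralizerIn S N, k x = s * x * s⁻¹ := by
  obtain ⟨C, hC⟩ := H802.exists_centralizerSystem F hN.1
  have hCs := H802.centralizerSystem_isSaturated hS hF hN hC
  have hVS : centralizerIn S N ≤ S := inf_le_left
  have hNm : N ≤ N ⊔ centralizerIn S N := le_sup_left
  have hVm : centralizerIn S N ≤ N ⊔ centralizerIn S N := le_sup_right
  have hkV : ∀ c ∈ centralizerIn S N, k c ∈ centralizerIn S N := by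
    intro c hc
    refine ⟨hk.mem (hVm hc), Subgroup.mem_centralizer_iff.2 fun x hx => ?_⟩
    have h3 := Subgroup.mem_centralizer_iff.1 hc.2 x hx
    calc x * k c = k x * k c := by rw [h1 x hx]
      _ = k (x * c) := (hk.mul (hNm hx) (hVm hc)).symm
      _ = k (c * x) := by rw [h3]
      _ = k c * x := by rw [hk.mul (hVm hc) (hNm hx), h1 x hx]
  have hkC : Mp C (centralizerIn S N) k := by
    rw [H759.mp_centralizer_iff hC]
    refine ⟨le_rfl, hkV, k, ?_, fun _ _ => rfl, h1⟩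
    rw [sup_comm]
    exact hk
  have hfin : Finite (centralizerIn S N) := H802.finite_of_le hVS
  obtain ⟨κ, hκ, hκe⟩ := hkC.exists_aut hkV
  have hTc : C.StronglyClosed (N ⊓ centralizerIn S N) := by
    refine stronglyClosed_of_mp inf_le_right fun P f hf hP x hx => ?_
    obtain ⟨-, -, g, -, h3, h4⟩ := (H759.mp_centralizer_iff hC).1 hf
    rw [← h3 x hx, h4 x (hP hx).1]
    exact hP hx
  have hVa : C.IsFullyAutomized p (centralizerIn S N) :=
    (automized_receptive_of_stronglyClosed hCs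
      (stronglyClosed_of_mp le_rfl fun P f hf _ x hx => hf.mem hx)).1
  obtain ⟨s, hs, hs1⟩ := H753.exists_conj_of_trivial (hS.to_le hVS) hTc hVa hκ
    (fun v hv => Subtype.ext (by rw [← hκe v v.2]; exact h1 v hv.1))
    (fun v => by
      rw [← hκe v v.2]
      exact ⟨h2 v v.2, (centralizerIn S N).mul_mem ((centralizerIn S N).inv_mem v.2) (hkV v v.2)⟩)
  refine ⟨s, hs, ?_⟩
  refine H754.mp_sup_eq hk (mp_conj F (sup_le hN.1 hVS) (hVS hs)) (fun x hx => ?_) (fun x hx => ?_)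
  · rw [h1 x hx, ← Subgroup.mem_centralizer_iff.1 hs.2 x hx]
    group
  · have h3 := hs1 ⟨x, hx⟩
    rw [hκe x hx]
    exact h3

end Cfsg.Agent.H769
end

-- part: H769/NsLift
section
/-!
# The automorphisms of centric subgroups of a normal subsystem are liftable (helper769)

`E` normal in the saturated system `F`, over `T`. For an `E`-centric subgroup `P` all elements of `Aut_E(P)` are
liftable: for `P` fully normalized in `F` they extend to maps of `F` on `P C_S(P)` trivial modulo `P`.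
-/

set_option autoImplicit false

namespace Cfsg.Agent.H769

open Cfsg Cfsg.FusionSystem Cfsg.Agent.H752

variable {Ω : Type*} [Group Ω] {S T : Subgroup Ω} {F : FusionSystem S} {E : FusionSystem T} {p : ℕ}

theorem centralizerIn_mono {P N : Subgroup Ω} (h : P ≤ N) : centralizerIn S N ≤ centralizerIn S P :=
  inf_le_inf_left S (Subgroup.centralizer_le h)

theorem conj_mem_centralizerIn {N : Subgroup Ω} {c x : Ω} (hc : c ∈ S)
    (hcN : c ∈ Subgroup.normalizer (N : Set Ω)) (hx : x ∈ centralizerIn S N) :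
    c * x * c⁻¹ ∈ centralizerIn S N := by
  refine ⟨S.mul_mem (S.mul_mem hc hx.1) (S.inv_mem hc),
    Subgroup.mem_centralizer_iff.2 fun y hy => ?_⟩
  have h1 : c⁻¹ * y * c ∈ N := by
    have := (Subgroup.mem_normalizer_iff.1 (inv_mem hcN) y).1 hy
    rwa [inv_inv] at this
  have h2 := Subgroup.mem_centralizer_iff.1 hx.2 _ h1
  calc y * (c * x * c⁻¹) = c * ((c⁻¹ * y * c) * x) * c⁻¹ := by group
    _ = c * (x * (c⁻¹ * y * c)) * c⁻¹ := by rw [h2]
    _ = c * x * c⁻¹ * y := by group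

/-- Conjugation by an element `c ∈ S` normalizing `N` maps `N C_S(N)` to itself. -/
theorem conj_mem_sup_centralizerIn {N : Subgroup Ω} {c x : Ω} (hc : c ∈ S)
    (hcN : c ∈ Subgroup.normalizer (N : Set Ω)) (hx : x ∈ N ⊔ centralizerIn S N) :
    c * x * c⁻¹ ∈ N ⊔ centralizerIn S N := by
  have h1 : N ⊔ centralizerIn S N ≤ (N ⊔ centralizerIn S N).comap (MulAut.conj c).toMonoidHom := by
    refine sup_le (fun y hy => ?_) (fun y hy => ?_)
    · exact (le_sup_left : N ≤ _) ((Subgroup.mem_normalizer_iff.1 hcN y).1 hy)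
    · exact (le_sup_right : centralizerIn S N ≤ _) (conj_mem_centralizerIn hc hcN hy)
  exact h1 hx

theorem mem_normalizer_normalizerIn {P : Subgroup Ω} {c : Ω}
    (hT : c ∈ Subgroup.normalizer (T : Set Ω)) (hc : c ∈ Subgroup.normalizer (P : Set Ω)) :
    c ∈ Subgroup.normalizer ((normalizerIn T P : Subgroup Ω) : Set Ω) := by
  have hn : c ∈ Subgroup.normalizer ((Subgroup.normalizer (P : Set Ω) : Subgroup Ω) : Set Ω) :=
    Subgroup.le_normalizer hc
  rw [Subgroup.mem_normalizer_iff] at hT hn ⊢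
  intro x
  exact and_congr (hT x) (hn x)

theorem mem_normalizer_of_stronglyClosed [Finite S] (hT : F.StronglyClosed T) {c : Ω} (hc : c ∈ S) :
    c ∈ Subgroup.normalizer (T : Set Ω) :=
  H802.mem_normalizer_of_conj_mem hT.1 fun _ hx =>
    mp_mem_of_stronglyClosed hT (mp_conj F hT.1 hc) hx hx

/-- The key computation: the extension condition for the elements of `C_S(P)`. -/
theorem conj_cond [Finite S] [Fact p.Prime] (hS : IsPGroup p S)
    (hE : E.IsNormalIn F p) {P : Subgroup Ω} (hPn : F.IsFullyNormalized P)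
    (hNc : F.IsFullyCentralized (normalizerIn T P)) (hPc : E.IsCentric P) {f : Ω → Ω}
    (hf : Mp F (normalizerIn T P ⊔ centralizerIn S (normalizerIn T P)) f)
    (hfE : Mp E (normalizerIn T P) f) (hfN : ∀ x ∈ normalizerIn T P, f x ∈ normalizerIn T P)
    (hfP : ∀ x ∈ P, f x ∈ P)
    (hft : ∀ x ∈ centralizerIn S (normalizerIn T P), x⁻¹ * f x ∈ normalizerIn T P)
    {c : Ω} (hc : c ∈ centralizerIn S P) :
    ∃ t ∈ P, t ∈ centralizerIn S P ∧ ∃ s ∈ centralizerIn S (normalizerIn T P),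
      ∀ x ∈ normalizerIn T P ⊔ centralizerIn S (normalizerIn T P),
        f (c * x * c⁻¹) = (t * s * c) * f x * (t * s * c)⁻¹ := by
  have hF : F.IsSaturated p := hE.1.2.1
  have hEs : E.IsSaturated p := hE.1.1
  have hinv : E.IsInvariantIn F := hE.1.2.2
  have hEF : E.IsSubsystemOf F := hinv.1
  have hT : F.StronglyClosed T := hinv.2.1
  have hTS : T ≤ S := hT.1
  have hfinT : Finite T := H802.finite_of_le hTS
  have hTp : IsPGroup p T := hS.to_le hTS
  have hsi : StrongInvC E F := H758.strongInvC_of_isInvariantIn hinv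
  have hPT : P ≤ T := hPc.1
  have hPS : P ≤ S := hPT.trans hTS
  have hTC : H756.TC F T P := (H756.isCentric_iff_tc hinv).1 hPc
  obtain ⟨N, hN⟩ : ∃ N, N = normalizerIn T P := ⟨_, rfl⟩
  rw [← hN] at hNc hf hfE hfN hft ⊢
  have hPN : P ≤ N := by rw [hN]; exact H802.le_normalizerIn hPT
  have hNT : N ≤ T := by rw [hN]; exact inf_le_left
  have hNS : N ≤ S := hNT.trans hTS
  have hNm : N ≤ N ⊔ centralizerIn S N := le_sup_left
  have hCm : centralizerIn S N ≤ N ⊔ centralizerIn S N := le_sup_right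
  have hWS : N ⊔ centralizerIn S N ≤ S := sup_le hNS inf_le_left
  have hfinW : Finite ↥(N ⊔ centralizerIn S N) := H802.finite_of_le hWS
  have hfinN : Finite N := H802.finite_of_le hNS
  have hfinP : Finite P := H802.finite_of_le hPS
  have hcS : c ∈ S := hc.1
  have hcP : c ∈ Subgroup.normalizer (P : Set Ω) := Subgroup.centralizer_le_normalizer _ hc.2
  have hcN : c ∈ Subgroup.normalizer (N : Set Ω) := by
    rw [hN]
    exact mem_normalizer_normalizerIn (mem_normalizer_of_stronglyClosed hT hcS) hcP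
  have hciN : c⁻¹ ∈ Subgroup.normalizer (N : Set Ω) := inv_mem hcN
  have hciS : c⁻¹ ∈ S := inv_mem hcS
  -- `f` maps `W` to itself
  have hfC : ∀ x ∈ centralizerIn S N, f x ∈ centralizerIn S N := by
    intro x hx
    have hIm : H770.Im f N N := H770.Mp.im_of_maps (hf.res hNm) hfN
    exact ⟨hf.mem (hCm hx), H770.Mp.mem_centralizer hf hNm hIm (hCm hx) hx.2⟩
  have hfW : ∀ x ∈ N ⊔ centralizerIn S N, f x ∈ N ⊔ centralizerIn S N :=
    H754.mp_sup_mem hf (fun x hx => hNm (hfN x hx)) (fun x hx => hCm (hfC x hx))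
  -- the inverse of `f`
  have hImW : H770.Im f (N ⊔ centralizerIn S N) (N ⊔ centralizerIn S N) := H770.Mp.im_of_maps hf hfW
  obtain ⟨μ, hμ, hμ1, hμ2⟩ := hf.exists_symm le_rfl hImW
  have hImN : H770.Im f N N := H770.Mp.im_of_maps (hf.res hNm) hfN
  have hμN : ∀ x ∈ N, μ x ∈ N := by
    intro x hx
    obtain ⟨y, hy, rfl⟩ := (hImN x).1 hx
    rw [hμ1 y (hNm hy)]
    exact hy
  have hImP : H770.Im f P P := H770.Mp.im_of_maps (hf.res (hPN.trans hNm)) hfP
  have hμP : ∀ x ∈ P, μ x ∈ P := by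
    intro x hx
    obtain ⟨y, hy, rfl⟩ := (hImP x).1 hx
    rw [hμ1 y (hNm (hPN hy))]
    exact hy
  have hμE : Mp E N μ := hfE.symm fun y hy => by
    obtain ⟨x, hx, rfl⟩ := (hImN y).1 hy
    exact ⟨x, hx, rfl, hμ1 x (hNm hx)⟩
  have hμC : ∀ x ∈ centralizerIn S N, μ x ∈ centralizerIn S N := by
    intro x hx
    have hImC : H770.Im f (centralizerIn S N) (centralizerIn S N) := by
      have hfinC : Finite (centralizerIn S N) := H802.finite_of_le inf_le_left
      exact H770.Mp.im_of_maps (hf.res hCm) hfC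
    obtain ⟨y, hy, rfl⟩ := (hImC x).1 hx
    rw [hμ1 y (hCm hy)]
    exact hy
  have hμt : ∀ x ∈ centralizerIn S N, x⁻¹ * μ x ∈ N := by
    intro x hx
    have h1 := hft _ (hμC x hx)
    rw [(hμ2 x (hCm hx)).2] at h1
    have h2 := inv_mem h1
    have h3 : ((μ x)⁻¹ * x)⁻¹ = x⁻¹ * μ x := by group
    rwa [h3] at h2
  -- the map `k`
  obtain ⟨k, hk⟩ : ∃ k : Ω → Ω, k = fun x => f (c * μ (c⁻¹ * x * c) * c⁻¹) := ⟨_, rfl⟩
  have hcW : ∀ x ∈ N ⊔ centralizerIn S N, c * x * c⁻¹ ∈ N ⊔ centralizerIn S N :=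
    fun x hx => conj_mem_sup_centralizerIn hcS hcN hx
  have hciW : ∀ x ∈ N ⊔ centralizerIn S N, c⁻¹ * x * c ∈ N ⊔ centralizerIn S N := fun x hx => by
    have := conj_mem_sup_centralizerIn hciS hciN hx
    rwa [inv_inv] at this
  have hciNm : ∀ x ∈ N, c⁻¹ * x * c ∈ N := fun x hx => by
    have := (Subgroup.mem_normalizer_iff.1 hciN x).1 hx
    rwa [inv_inv] at this
  have hcNm : ∀ x ∈ N, c * x * c⁻¹ ∈ N := fun x hx => (Subgroup.mem_normalizer_iff.1 hcN x).1 hx
  have hconj_ci : Mp F (N ⊔ centralizerIn S N) (fun x => c⁻¹ * x * c) :=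
    (mp_conj F hWS hciS).congr fun x _ => by rw [inv_inv]
  have hkF : Mp F (N ⊔ centralizerIn S N) k := by
    rw [hk]
    exact ((hconj_ci.comp hμ hciW).comp (mp_conj F hWS hcS)
      (fun x hx => (hμ2 _ (hciW x hx)).1)).comp hf (fun x hx => hcW _ (hμ2 _ (hciW x hx)).1)
  have hkE : Mp E N k := by
    have h1 : Mp E N (fun x => c * μ (c⁻¹ * x * c) * c⁻¹) := by
      refine hsi N N N μ (fun x => c * x * c⁻¹) _ le_rfl hNT hμE hμN (mp_conj F hNS hcS)
        fun y hy => ⟨c⁻¹ * y * c, hciNm y hy, by group, ?_⟩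
      rfl
    have h2 := h1.comp hfE (fun x hx => hcNm _ (hμN _ (hciNm x hx)))
    rw [hk]
    exact h2
  have hcx : ∀ x ∈ P, c⁻¹ * x * c = x := by
    intro x hx
    have h1 := Subgroup.mem_centralizer_iff.1 hc.2 x hx
    rw [mul_assoc, h1]
    group
  have hcx' : ∀ x ∈ P, c * x * c⁻¹ = x := by
    intro x hx
    have h1 := Subgroup.mem_centralizer_iff.1 hc.2 x hx
    rw [← h1]
    group
  have hkP : ∀ x ∈ P, k x = x := by
    intro x hx
    rw [hk]
    show f (c * μ (c⁻¹ * x * c) * c⁻¹) = x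
    rw [hcx x hx, hcx' _ (hμP x hx)]
    exact (hμ2 x (hNm (hPN hx))).2
  have hTCE : H756.TC E T P := ⟨hTC.1, fun g hg => hTC.2 g (mp_mono hEF hg)⟩
  have hPE : E.IsFullyNormalized P := H755.isFullyNormalized_sub hS hF hEF hT hPT hPn
  obtain ⟨t, htT, ht⟩ := H756.exists_conj_of_fix hTp hEs
    (stronglyClosed_of_mp le_rfl fun P f hf _ x hx => hf.mem hx) hTCE hPE (hN ▸ hkE) hkP
  have htC : ∀ x ∈ P, x * t = t * x := by
    intro x hx
    have h1 := ht x (hN ▸ hPN hx)
    rw [hkP x hx] at h1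
    calc x * t = t * x * t⁻¹ * t := by rw [← h1]
      _ = t * x := by group
  have htP : t ∈ P := hTC.self hTS htT htC
  have htPC : t ∈ centralizerIn S P := ⟨hTS htT, Subgroup.mem_centralizer_iff.2 htC⟩
  -- `k' = t⁻¹ k t`
  have htS : t ∈ S := hTS htT
  have hk' : Mp F (N ⊔ centralizerIn S N) (fun x => t⁻¹ * k x * t) := by
    have hkW : ∀ x ∈ N ⊔ centralizerIn S N, k x ∈ S := fun x hx => hkF.mem hx
    refine (hkF.comp (mp_conj F (le_refl S) (inv_mem htS)) hkW).congr fun x _ => ?_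
    rw [inv_inv]
  have hkC : ∀ x ∈ centralizerIn S N, x⁻¹ * k x ∈ N := by
    intro x hx
    have hd : c⁻¹ * x * c ∈ centralizerIn S N := by
      have := conj_mem_centralizerIn hciS hciN hx
      rwa [inv_inv] at this
    have h1 := hμt _ hd
    have h2 := hcNm _ h1
    -- `c μ(d) c⁻¹ = x n`
    have h3 : c * μ (c⁻¹ * x * c) * c⁻¹ = x * (c * ((c⁻¹ * x * c)⁻¹ * μ (c⁻¹ * x * c)) * c⁻¹) := by
      group
    rw [hk]
    show x⁻¹ * f (c * μ (c⁻¹ * x * c) * c⁻¹) ∈ N
    rw [h3, hf.mul (hCm hx) (hNm h2), ← mul_assoc]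
    exact mul_mem (hft x hx) (hfN _ h2)
  obtain ⟨s, hs, hs1⟩ := conj_of_triv hS hF hNc hk'
    (fun x hx => by
      have h1 := ht x (hN ▸ hx)
      show t⁻¹ * k x * t = x
      rw [h1]
      group)
    (fun x hx => by
      have htx : t * x = x * t := Subgroup.mem_centralizer_iff.1 hx.2 t (hPN htP)
      have h1 : x⁻¹ * (t⁻¹ * k x * t) = t⁻¹ * (x⁻¹ * k x) * t := by
        have h2 : x⁻¹ * t⁻¹ = t⁻¹ * x⁻¹ := by rw [← mul_inv_rev, ← mul_inv_rev, htx]
        calc x⁻¹ * (t⁻¹ * k x * t) = (x⁻¹ * t⁻¹) * k x * t := by group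
          _ = (t⁻¹ * x⁻¹) * k x * t := by rw [h2]
          _ = t⁻¹ * (x⁻¹ * k x) * t := by group
      show x⁻¹ * (t⁻¹ * k x * t) ∈ N
      rw [h1]
      exact mul_mem (mul_mem (inv_mem (hPN htP)) (hkC x hx)) (hPN htP))
  refine ⟨t, htP, htPC, s, hs, fun x hx => ?_⟩
  have hz : c * f x * c⁻¹ ∈ N ⊔ centralizerIn S N := hcW _ (hfW x hx)
  have h1 : t⁻¹ * k (c * f x * c⁻¹) * t = s * (c * f x * c⁻¹) * s⁻¹ := hs1 _ hz
  have h2 : k (c * f x * c⁻¹) = f (c * x * c⁻¹) := by
    rw [hk]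
    show f (c * μ (c⁻¹ * (c * f x * c⁻¹) * c) * c⁻¹) = _
    have h3 : c⁻¹ * (c * f x * c⁻¹) * c = f x := by group
    rw [h3, hμ1 x hx]
  rw [← h2]
  calc k (c * f x * c⁻¹) = t * (t⁻¹ * k (c * f x * c⁻¹) * t) * t⁻¹ := by group
    _ = t * (s * (c * f x * c⁻¹) * s⁻¹) * t⁻¹ := by rw [h1]
    _ = (t * s * c) * f x * (t * s * c)⁻¹ := by group

/-- `Lifts` in terms of functions. -/
theorem lifts_of_mp {P : Subgroup Ω} {α : MulAut P} {g : Ω → Ω}
    (hg : Mp F (P ⊔ centralizerIn S P) g) (h1 : ∀ (x : Ω) (hx : x ∈ P), g x = (α ⟨x, hx⟩ : P))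
    (h2 : ∀ c ∈ centralizerIn S P, c⁻¹ * g c ∈ P) : H792.Lifts F P α := by
  obtain ⟨φ, hφ, he⟩ := hg
  have hCn : centralizerIn S P ≤ Subgroup.normalizer (P : Set Ω) :=
    inf_le_right.trans (Subgroup.centralizer_le_normalizer _)
  refine ⟨φ, hφ, fun x hx => (he x hx).trans (h1 x x.2), H792.triv_of_gen hCn
    (fun x hx hx' => ?_) (fun x hx hx' => ?_)⟩
  · rw [he, h1 x hx]
    exact (α _).2
  · rw [he]
    exact h2 x hx

theorem mp_of_lifts {P : Subgroup Ω} {α : MulAut P} (h : H792.Lifts F P α) :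
    ∃ g, Mp F (P ⊔ centralizerIn S P) g ∧ (∀ (x : Ω) (hx : x ∈ P), g x = (α ⟨x, hx⟩ : P)) ∧
      ∀ x ∈ P ⊔ centralizerIn S P, x⁻¹ * g x ∈ P := by
  obtain ⟨φ, hφ, h1, h2⟩ := h
  refine ⟨ex φ, mp_ex hφ, fun x hx => ?_, fun x hx => ?_⟩
  · rw [ex_apply _ ((le_sup_left : P ≤ _) hx)]
    exact h1 ⟨x, hx⟩ _
  · rw [ex_apply _ hx]
    exact h2 ⟨x, hx⟩

/-- The core step: elements of order prime to `p` normalizing `Aut_T(P)`. -/
theorem lifts_core2 [Finite S] [Fact p.Prime] (hS : IsPGroup p S)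
    (hE : E.IsNormalIn F p) {P : Subgroup Ω} (hPn : F.IsFullyNormalized P)
    (hNn : F.IsFullyNormalized (normalizerIn T P)) (hPc : E.IsCentric P)
    (hIH : ∀ α ∈ E.autGroup (normalizerIn T P), H792.Lifts F (normalizerIn T P) α)
    {α : MulAut P} (hα : α ∈ E.autGroup P) (hcop : Nat.Coprime (orderOf α) p)
    (hnorm : ∀ δ ∈ autInducedBy T P, α * δ * α⁻¹ ∈ autInducedBy T P) : H792.Lifts F P α := by
  have hF : F.IsSaturated p := hE.1.2.1
  have hEs : E.IsSaturated p := hE.1.1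
  have hinv : E.IsInvariantIn F := hE.1.2.2
  have hEF : E.IsSubsystemOf F := hinv.1
  have hT : F.StronglyClosed T := hinv.2.1
  have hTS : T ≤ S := hT.1
  have hfinT : Finite T := H802.finite_of_le hTS
  have hTp : IsPGroup p T := hS.to_le hTS
  have hPT : P ≤ T := hPc.1
  have hPS : P ≤ S := hPT.trans hTS
  have hTC : H756.TC F T P := (H756.isCentric_iff_tc hinv).1 hPc
  have hNc := H802.isFullyCentralized_of_isFullyNormalized hS hF hNn
  have hPE : E.IsFullyNormalized P := H755.isFullyNormalized_sub hS hF hEF hT hPT hPn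
  have hPEr := H802.isReceptive_of_isFullyNormalized hTp hEs hPE
  have hfinP : Finite P := H802.finite_of_le hPS
  have hPN : P ≤ normalizerIn T P := H802.le_normalizerIn hPT
  have hNT : normalizerIn T P ≤ T := inf_le_left
  have hNS : normalizerIn T P ≤ S := hNT.trans hTS
  have hfinN : Finite (normalizerIn T P) := H802.finite_of_le hNS
  have hWS : normalizerIn T P ⊔ centralizerIn S (normalizerIn T P) ≤ S := sup_le hNS inf_le_left
  have hfinW : Finite ↥(normalizerIn T P ⊔ centralizerIn S (normalizerIn T P)) :=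
    H802.finite_of_le hWS
  have hNm : normalizerIn T P ≤ normalizerIn T P ⊔ centralizerIn S (normalizerIn T P) := le_sup_left
  have hCm : centralizerIn S (normalizerIn T P) ≤
      normalizerIn T P ⊔ centralizerIn S (normalizerIn T P) := le_sup_right
  -- `α` as a function
  have hαm : Mp E P (H770.ac α) := (mp_iff_autGroup hPT α).1 hα
  have hαpp : H758.PP p P (H770.ac α) := H758.pp_of_aut (fun x hx => H770.ac_apply α hx) hcop
  -- extension to `N_T(P)`
  obtain ⟨ψ, hψ, hψe⟩ := H802.exists_extension_of_normalizes hPEr hα hnorm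
  have hψm : Mp E (normalizerIn T P) (ex ψ) := mp_ex hψ
  have hψP : ∀ x ∈ P, ex ψ x = H770.ac α x := fun x hx => by
    rw [ex_apply _ (hPN hx), hψe x hx, H770.ac_apply α hx]
  have hψI : H770.Im (ex ψ) P P := (H770.im_ac α).congr hψP
  have hψN : ∀ x ∈ normalizerIn T P, ex ψ x ∈ normalizerIn T P := fun x hx =>
    ⟨hψm.mem hx, H770.Mp.mem_normalizer hψm hPN hψI hx hx.2⟩
  obtain ⟨m, hm1, hm2, hm3⟩ := H758.exists_iter_pp (p := p) hψm hψN
  obtain ⟨f₁, hf₁⟩ : ∃ f₁, f₁ = (ex ψ)^[m] := ⟨_, rfl⟩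
  rw [← hf₁] at hm1 hm2 hm3
  have hf₁P : ∀ x ∈ P, f₁ x = H770.ac α x := fun x hx => hm3 P _ hPN hαpp hψP x hx
  -- lift of `f₁`
  obtain ⟨α₁, hα₁, hα₁e⟩ := hm2.exists_aut hm1.1
  obtain ⟨g₀, hg₀, hg₀1, hg₀2⟩ := mp_of_lifts (hIH α₁ hα₁)
  have hg₀W : ∀ x ∈ normalizerIn T P ⊔ centralizerIn S (normalizerIn T P),
      g₀ x ∈ normalizerIn T P ⊔ centralizerIn S (normalizerIn T P) := by
    intro x hx
    have h1 := mul_mem hx (hNm (hg₀2 x hx))
    rwa [mul_inv_cancel_left] at h1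
  obtain ⟨m', hm'1, hm'2, hm'3⟩ := H758.exists_iter_pp (p := p) hg₀ hg₀W
  obtain ⟨f, hfdef⟩ : ∃ f, f = g₀^[m'] := ⟨_, rfl⟩
  rw [← hfdef] at hm'1 hm'2 hm'3
  have hfN : ∀ x ∈ normalizerIn T P, f x = f₁ x := fun x hx =>
    hm'3 _ f₁ hNm hm1 (fun y hy => by rw [hg₀1 y hy, hα₁e y hy]) x hx
  have hft : ∀ x ∈ normalizerIn T P ⊔ centralizerIn S (normalizerIn T P),
      x⁻¹ * f x ∈ normalizerIn T P := by
    intro x hx
    rw [hfdef]
    exact H758.iter_triv hg₀W hg₀2 m' x hx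
  have hfP : ∀ x ∈ P, f x ∈ P := fun x hx => by
    rw [hfN x (hPN hx), hf₁P x hx]
    exact H770.ac_mem α hx
  have hfE : Mp E (normalizerIn T P) f := hm2.congr hfN
  have hcond := fun c hc => conj_cond (c := c) hS hE hPn hNc hPc hm'2 hfE
    (fun x hx => by rw [hfN x hx]; exact hm1.1 x hx) hfP (fun x hx => hft x (hCm hx)) hc
  -- extension of `f` to `C_S(P)`
  have hWc : F.IsCentric (normalizerIn T P ⊔ centralizerIn S (normalizerIn T P)) :=
    H770.isCentric_sup_centralizer hNc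
  have hWr := H802.isReceptive_of_isFullyCentralized hS hF
    (H793.isFullyCentralized_of_isCentric hWc)
  have hImW := H770.Mp.im_of_maps hm'2 hm'1.1
  obtain ⟨M, L, hL, hWM, hLe, hLM⟩ := H753.mp_extend hWr hm'2 hImW
  have hCM : centralizerIn S P ≤ M := by
    intro c hc
    obtain ⟨t, ht, htC, s, hs, h1⟩ := hcond c hc
    have hcN : c ∈ Subgroup.normalizer ((normalizerIn T P : Subgroup Ω) : Set Ω) :=
      mem_normalizer_normalizerIn (mem_normalizer_of_stronglyClosed hT hc.1)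
        (Subgroup.centralizer_le_normalizer _ hc.2)
    refine hLM c hc.1 ?_ ⟨t * s * c, S.mul_mem (S.mul_mem (hPS ht) hs.1) hc.1, h1⟩
    exact H802.mem_normalizer_of_conj_mem hWS fun x hx => conj_mem_sup_centralizerIn hc.1 hcN hx
  -- the values on `C_S(P)`
  have hCNP : centralizerIn S (normalizerIn T P) ≤ centralizerIn S P := centralizerIn_mono hPN
  have hval : ∀ c ∈ centralizerIn S P, c⁻¹ * L c ∈ P ⊔ centralizerIn S (normalizerIn T P) := by
    intro c hc
    obtain ⟨t, ht, htC, s, hs, h1⟩ := hcond c hc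
    have hcN : c ∈ Subgroup.normalizer ((normalizerIn T P : Subgroup Ω) : Set Ω) :=
      mem_normalizer_normalizerIn (mem_normalizer_of_stronglyClosed hT hc.1)
        (Subgroup.centralizer_le_normalizer _ hc.2)
    have hcM := hCM hc
    -- `d = (t s c)⁻¹ L(c)` centralizes `W`
    have hd : (t * s * c)⁻¹ * L c ∈ centralizerIn S (normalizerIn T P) := by
      refine ⟨S.mul_mem (S.inv_mem (S.mul_mem (S.mul_mem (hPS ht) hs.1) hc.1)) (hL.mem hcM),
        Subgroup.mem_centralizer_iff.2 fun y hy => ?_⟩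
      obtain ⟨x, hx, rfl⟩ := (hImW y).1 (hNm hy)
      have h2 := h1 x hx
      have h3 : c * x * c⁻¹ ∈ normalizerIn T P ⊔ centralizerIn S (normalizerIn T P) :=
        conj_mem_sup_centralizerIn hc.1 hcN hx
      rw [← hLe _ h3, hL.mul (mul_mem hcM (hWM hx)) (M.inv_mem hcM), hL.mul hcM (hWM hx),
        hL.inv hcM, hLe x hx] at h2
      calc f x * ((t * s * c)⁻¹ * L c)
          = (t * s * c)⁻¹ * ((t * s * c) * f x * (t * s * c)⁻¹) * L c := by group
        _ = (t * s * c)⁻¹ * (L c * f x * (L c)⁻¹) * L c := by rw [h2]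
        _ = (t * s * c)⁻¹ * L c * f x := by group
    have hts : t * c = c * t := Subgroup.mem_centralizer_iff.1 hc.2 t ht
    have hcs : c⁻¹ * s * c ∈ centralizerIn S (normalizerIn T P) := by
      have := conj_mem_centralizerIn (S.inv_mem hc.1) (inv_mem hcN) hs
      rwa [inv_inv] at this
    have h4 : c⁻¹ * L c = t * ((c⁻¹ * s * c) * ((t * s * c)⁻¹ * L c)) := by
      have h5 : c⁻¹ * t = t * c⁻¹ := by
        calc c⁻¹ * t = c⁻¹ * (t * c) * c⁻¹ := by group
          _ = c⁻¹ * (c * t) * c⁻¹ := by rw [hts]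
          _ = t * c⁻¹ := by group
      calc c⁻¹ * L c = (c⁻¹ * t) * s * c * ((t * s * c)⁻¹ * L c) := by group
        _ = (t * c⁻¹) * s * c * ((t * s * c)⁻¹ * L c) := by rw [h5]
        _ = _ := by group
    rw [h4]
    exact mul_mem ((le_sup_left : P ≤ _) ht)
      ((le_sup_right : centralizerIn S (normalizerIn T P) ≤ _) (mul_mem hcs hd))
  -- restriction to `U = P C_S(P)`
  have hPU : P ≤ P ⊔ centralizerIn S P := le_sup_left
  have hCU : centralizerIn S P ≤ P ⊔ centralizerIn S P := le_sup_right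
  have hUS : P ⊔ centralizerIn S P ≤ S := sup_le hPS inf_le_left
  have hUM : P ⊔ centralizerIn S P ≤ M := sup_le ((hPN.trans hNm).trans hWM) hCM
  have hfinU : Finite ↥(P ⊔ centralizerIn S P) := H802.finite_of_le hUS
  have hP'U : P ⊔ centralizerIn S (normalizerIn T P) ≤ P ⊔ centralizerIn S P :=
    sup_le_sup_left hCNP P
  have hP'W : P ⊔ centralizerIn S (normalizerIn T P) ≤
      normalizerIn T P ⊔ centralizerIn S (normalizerIn T P) := sup_le_sup_right hPN _
  have hLU : Mp F (P ⊔ centralizerIn S P) L := hL.res hUM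
  have hLUm : ∀ x ∈ P ⊔ centralizerIn S P, L x ∈ P ⊔ centralizerIn S P := by
    refine H754.mp_sup_mem hLU (fun x hx => hPU ?_) (fun x hx => ?_)
    · rw [hLe x (hNm (hPN hx))]
      exact hfP x hx
    · have h1 := mul_mem (hCU hx) (hP'U (hval x hx))
      rwa [mul_inv_cancel_left] at h1
  obtain ⟨n, hn1, hn2, hn3⟩ := H758.exists_iter_pp (p := p) hLU hLUm
  obtain ⟨G, hGdef⟩ : ∃ G, G = L^[n] := ⟨_, rfl⟩
  rw [← hGdef] at hn1 hn2 hn3
  -- `f` on `P C_S(N)`
  have hfC : ∀ x ∈ centralizerIn S (normalizerIn T P), x⁻¹ * f x ∈ P := by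
    intro x hx
    have h1 := hft x (hCm hx)
    have hImN : H770.Im f (normalizerIn T P) (normalizerIn T P) :=
      H770.Mp.im_of_maps (hm'2.res hNm) (fun x hx => by rw [hfN x hx]; exact hm1.1 x hx)
    have h2 : f x ∈ Subgroup.centralizer ((normalizerIn T P : Subgroup Ω) : Set Ω) :=
      H770.Mp.mem_centralizer hm'2 hNm hImN (hCm hx) hx.2
    have h3 : x⁻¹ * f x ∈ Subgroup.centralizer ((normalizerIn T P : Subgroup Ω) : Set Ω) :=
      mul_mem (inv_mem hx.2) h2
    exact hTC.self hTS (hNT h1) fun y hy => Subgroup.mem_centralizer_iff.1 h3 y (hPN hy)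
  have hfP' : ∀ x ∈ P ⊔ centralizerIn S (normalizerIn T P),
      f x ∈ P ⊔ centralizerIn S (normalizerIn T P) := by
    refine H754.mp_sup_mem (hm'2.res hP'W) (fun x hx => (le_sup_left : P ≤ _) (hfP x hx))
      (fun x hx => ?_)
    have h1 := mul_mem ((le_sup_right : centralizerIn S (normalizerIn T P) ≤ P ⊔ _) hx)
      ((le_sup_left : P ≤ P ⊔ centralizerIn S (normalizerIn T P)) (hfC x hx))
    rwa [mul_inv_cancel_left] at h1
  have hfpp : H758.PP p (P ⊔ centralizerIn S (normalizerIn T P)) f := hm'1.res hP'W hfP'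
  have hGf : ∀ x ∈ P ⊔ centralizerIn S (normalizerIn T P), G x = f x := fun x hx =>
    hn3 _ f hP'U hfpp (fun y hy => hLe y (hP'W hy)) x hx
  have hGP : ∀ x ∈ P, G x ∈ P := fun x hx => by
    rw [hGf x ((le_sup_left : P ≤ _) hx)]
    exact hfP x hx
  have hPnU : ∀ w ∈ P ⊔ centralizerIn S P, ∀ x ∈ P, w * x * w⁻¹ ∈ P := by
    intro w hw x hx
    have h1 : P ⊔ centralizerIn S P ≤ Subgroup.normalizer (P : Set Ω) :=
      sup_le Subgroup.le_normalizer (inf_le_right.trans (Subgroup.centralizer_le_normalizer _))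
    exact (Subgroup.mem_normalizer_iff.1 (h1 hw) x).1 hx
  -- `f` moves the elements of `P C_S(N)` modulo `P`
  have hfPm : ∀ x ∈ P ⊔ centralizerIn S (normalizerIn T P), x⁻¹ * f x ∈ P := by
    intro x hx
    have hCn : centralizerIn S (normalizerIn T P) ≤ Subgroup.normalizer (P : Set Ω) :=
      hCNP.trans (inf_le_right.trans (Subgroup.centralizer_le_normalizer _))
    obtain ⟨c, hc, u, hu, rfl⟩ := (H759.mem_sup_of_normalizes hCn).1
      (show x ∈ centralizerIn S (normalizerIn T P) ⊔ P by rw [sup_comm]; exact hx)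
    rw [(hm'2.res hP'W).mul ((le_sup_right : _ ≤ P ⊔ _) hc) ((le_sup_left : P ≤ _) hu)]
    have h1 : (c * u)⁻¹ * (f c * f u) = u⁻¹ * (c⁻¹ * f c) * f u := by group
    rw [h1]
    exact mul_mem (mul_mem (inv_mem hu) (hfC c hc)) (hfP u hu)
  have hGt : ∀ c ∈ centralizerIn S P, c⁻¹ * G c ∈ P := by
    intro c hc
    have hm : c⁻¹ * G c ∈ P ⊔ centralizerIn S (normalizerIn T P) := by
      rw [hGdef]
      -- iterates
      have hmap : ∀ j : ℕ, ∀ x ∈ P ⊔ centralizerIn S P,
          x⁻¹ * L^[j] x ∈ P ⊔ centralizerIn S (normalizerIn T P) := by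
        have hbase : ∀ x ∈ P ⊔ centralizerIn S P,
            x⁻¹ * L x ∈ P ⊔ centralizerIn S (normalizerIn T P) := by
          intro x hx
          have hCn : centralizerIn S P ≤ Subgroup.normalizer (P : Set Ω) :=
            inf_le_right.trans (Subgroup.centralizer_le_normalizer _)
          obtain ⟨d, hd, u, hu, rfl⟩ := (H759.mem_sup_of_normalizes hCn).1
            (show x ∈ centralizerIn S P ⊔ P by rw [sup_comm]; exact hx)
          rw [hLU.mul (hCU hd) (hPU hu)]
          have h1 : (d * u)⁻¹ * (L d * L u) = u⁻¹ * (d⁻¹ * L d) * L u := by group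
          rw [h1]
          refine mul_mem (mul_mem (inv_mem ((le_sup_left : P ≤ _) hu)) (hval d hd))
            ((le_sup_left : P ≤ _) ?_)
          rw [hLe u (hNm (hPN hu))]
          exact hfP u hu
        intro j
        exact H758.iter_triv hLUm hbase j
      exact hmap n c (hCU hc)
    refine H758.cop_mem (hS.to_le hUS) hn2 hn1 hPnU hGP (hCU hc) ?_
    rw [hGf _ hm]
    exact hfPm _ hm
  refine lifts_of_mp hn2 (fun x hx => ?_) hGt
  rw [hGf x ((le_sup_left : P ≤ _) hx), hfN x (hPN hx), hf₁P x hx, H770.ac_apply α hx]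

theorem isPGroup_zpowers {G : Type*} [Group G] {c : G} {k : ℕ} (h : c ^ p ^ k = 1) :
    IsPGroup p (Subgroup.zpowers c) := by
  rintro ⟨y, n, rfl⟩
  refine ⟨k, Subtype.ext ?_⟩
  show (c ^ n) ^ p ^ k = 1
  rw [← zpow_natCast, ← zpow_mul, mul_comm, zpow_mul, zpow_natCast, h, one_zpow]

/-- Elements of `p`-power order normalizing a Sylow subgroup lie in it. -/
theorem mem_sylow_of_normalizes {G : Type*} [Group G] (R : Sylow p G) {c : G} {k : ℕ}
    (h : c ^ p ^ k = 1) (hc : c ∈ Subgroup.normalizer ((R : Subgroup G) : Set G)) :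
    c ∈ (R : Subgroup G) := by
  have h1 := (isPGroup_zpowers (p := p) h).inf_normalizer_sylow R
  have h2 : c ∈ Subgroup.zpowers c ⊓ Subgroup.normalizer ((R : Subgroup G) : Set G) :=
    ⟨Subgroup.mem_zpowers c, hc⟩
  have h3 : c ∈ Subgroup.zpowers c ⊓ (R : Subgroup G) := h1 ▸ h2
  exact h3.2

/-- All of `Aut_E(P)` lifts, when this holds for `N_T(P)`. -/
theorem lifts_core [Finite S] [Fact p.Prime] (hS : IsPGroup p S)
    (hE : E.IsNormalIn F p) {P : Subgroup Ω} (hP : F.IsFullyNormalized P)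
    (hNn : F.IsFullyNormalized (normalizerIn T P)) (hPc : E.IsCentric P)
    (hIH : ∀ α ∈ E.autGroup (normalizerIn T P), H792.Lifts F (normalizerIn T P) α) :
    ∀ α ∈ E.autGroup P, H792.Lifts F P α := by
  have hF : F.IsSaturated p := hE.1.2.1
  have hEs : E.IsSaturated p := hE.1.1
  have hinv : E.IsInvariantIn F := hE.1.2.2
  have hT : F.StronglyClosed T := hinv.2.1
  have hTS : T ≤ S := hT.1
  have hfinT : Finite T := H802.finite_of_le hTS
  have hTp : IsPGroup p T := hS.to_le hTS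
  have hPT : P ≤ T := hPc.1
  have hPS : P ≤ S := hP.1
  have hfinP : Finite P := H802.finite_of_le hPS
  have hPE : E.IsFullyNormalized P := H792.isFullyNormalized_of_invariant hS hF hinv.1 hT hPT hP
  have hPEa := H802.isFullyAutomized_of_isFullyNormalized hTp hEs hPE
  obtain ⟨R, hR⟩ := hPEa.2
  have hfinA : Finite (E.autGroup P) := by
    have := H758.finite_mulAut P
    infer_instance
  let L : Subgroup (E.autGroup P) :=
    { carrier := {a | H792.Lifts F P (a : MulAut P)}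
      one_mem' := H792.Lifts.one hPS
      mul_mem' := fun {a b} ha hb => H792.Lifts.mul ha hb
      inv_mem' := fun {a} ha => H792.Lifts.inv ha }
  have hL : L.Normal := by
    refine ⟨fun a ha g => ?_⟩
    have h1 : H792.Lifts F P (a : MulAut P) := ha
    have hgF : (g : MulAut P) ∈ F.autGroup P := by
      rw [H802.mem_autGroup_iff F hPS]
      exact hinv.1 P ((H802.mem_autGroup_iff E hPT _).1 g.2)
    have hgm := (H802.mem_autGroup_iff F hPS _).1 hgF
    obtain ⟨α', h2, h3⟩ := (h1.liftable hS hF hP) P _ hgm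
      (H802.range_eq_of_mapsTo hgm (fun x => ((g : MulAut P) x).2)) hP
    have h4 : α' = (g : MulAut P) * a * (g : MulAut P)⁻¹ := by
      ext y
      have h5 := h2 ((g : MulAut P)⁻¹ y) (by
        show (((g : MulAut P) ((g : MulAut P)⁻¹ y) : P) : Ω) ∈ P
        exact Subtype.coe_prop _)
      have h6 : (⟨(P.subtype.comp (g : MulAut P).toMonoidHom) ((g : MulAut P)⁻¹ y), by
        show (((g : MulAut P) ((g : MulAut P)⁻¹ y) : P) : Ω) ∈ P
        exact Subtype.coe_prop _⟩ : P) = y := by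
        apply Subtype.ext
        show (((g : MulAut P) ((g : MulAut P)⁻¹ y) : P) : Ω) = y
        rw [MulAut.apply_inv_self]
      rw [h6] at h5
      exact h5
    show H792.Lifts F P ((g * a * g⁻¹ : E.autGroup P) : MulAut P)
    have h7 : ((g * a * g⁻¹ : E.autGroup P) : MulAut P) = α' := h4.symm
    rw [h7]
    exact h3
  have hRL : (R : Subgroup (E.autGroup P)) ≤ L := by
    intro a ha
    rw [hR] at ha
    exact H792.lifts_of_mem_autInducedBy hT hPc ha
  have hLtop : L = ⊤ := by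
    refine H792.gen_top_of_normal R L hRL L (fun a ha _ => ha) hRL (fun a ha => ?_)
    obtain ⟨m, k, hm, hk⟩ := H758.exists_pparts p a
    have hb := pow_mem ha m
    have hc := mul_mem ha (inv_mem hb)
    have hcR := mem_sylow_of_normalizes R hk hc
    have hbL : a ^ m ∈ L := by
      refine lifts_core2 hS hE hP hNn hPc hIH (a ^ m).2 ?_ ?_
      · rwa [Subgroup.orderOf_coe]
      · intro δ hδ
        have hδE : δ ∈ E.autGroup P := H802.autInducedBy_le_autGroup E hPT hδ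
        have h1 : (⟨δ, hδE⟩ : E.autGroup P) ∈ (R : Subgroup (E.autGroup P)) := by
          rw [hR]; exact hδ
        have h2 := (Subgroup.mem_normalizer_iff.1 hb ⟨δ, hδE⟩).1 h1
        rw [hR] at h2
        exact h2
    have h1 : a = a * (a ^ m)⁻¹ * a ^ m := by group
    rw [h1]
    exact mul_mem (hRL hcR) hbL
  intro α hα
  have h1 : (⟨α, hα⟩ : E.autGroup P) ∈ L := by rw [hLtop]; trivial
  exact h1

/-- Conjugation to a fully normalized subgroup `U'` of a subgroup `U` with `N_S(P) ≤ N_S(U)`, `P` fully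
normalized: the image of `P` is again fully normalized. -/
theorem conj_step [Finite S] [Fact p.Prime] (hS : IsPGroup p S) (hF : F.IsSaturated p)
    {P U : Subgroup Ω} (hP : F.IsFullyNormalized P) (hUS : U ≤ S)
    (hPU : normalizerIn S P ≤ normalizerIn S U) :
    ∃ (f : Ω → Ω) (U' P' : Subgroup Ω), Mp F (normalizerIn S U) f ∧ H770.Im f U U' ∧
      F.IsFullyNormalized U' ∧ H770.Im f P P' ∧ F.IsFullyNormalized P' ∧
      H770.Im f (normalizerIn S P) (normalizerIn S P') := by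
  obtain ⟨U', hUU', hU'⟩ := H802.exists_isFullyNormalized hS hF hUS
  obtain ⟨f₀, hf₀, hI₀⟩ := H770.exists_mp_of_isConj hUU'
  obtain ⟨f, hf, hI⟩ := H770.mp_normalizer hS hF hU' hf₀ hI₀
  have hPN : P ≤ normalizerIn S P := H802.le_normalizerIn hP.1
  obtain ⟨P', hP', hP'S, hP'c⟩ := H770.Mp.exists_im hf (hPN.trans hPU)
  have hconj : F.IsConj P P' := H770.Mp.isConj (hf.res (hPN.trans hPU)) hP'
  have hmap : ∀ x ∈ normalizerIn S P, f x ∈ normalizerIn S P' := fun x hx =>
    ⟨hf.mem (hPU hx), H770.Mp.mem_normalizer hf (hPN.trans hPU) hP' (hPU hx) hx.2⟩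
  have hfin : Finite (normalizerIn S P') := H802.finite_of_le inf_le_left
  obtain ⟨N', hN', hN'S, hN'c⟩ := H770.Mp.exists_im hf hPU
  have hN'le : N' ≤ normalizerIn S P' := by
    intro y hy
    obtain ⟨x, hx, rfl⟩ := (hN' y).1 hy
    exact hmap x hx
  have hN'eq : N' = normalizerIn S P' :=
    Subgroup.eq_of_le_of_card_ge hN'le (by rw [hN'c]; exact hP.2 P' hconj)
  refine ⟨f, U', P', hf, hI, hU', hP', ⟨hP'S, fun Q hQ => ?_⟩, hN'eq ▸ hN'⟩
  rw [← hN'eq, hN'c]
  exact hP.2 Q (H802.isConj_trans hconj hQ)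

theorem im_normalizerIn (hT : F.StronglyClosed T) {W P P' : Subgroup Ω} {f : Ω → Ω}
    (hf : Mp F W f) (hW : normalizerIn S P ≤ W)
    (h : H770.Im f (normalizerIn S P) (normalizerIn S P')) :
    H770.Im f (normalizerIn T P) (normalizerIn T P') := by
  intro y
  constructor
  · intro hy
    have hyS : y ∈ normalizerIn S P' := ⟨hT.1 hy.1, hy.2⟩
    obtain ⟨x, hx, rfl⟩ := (h y).1 hyS
    exact ⟨x, ⟨mp_mem_of_stronglyClosed' hT hf (hW hx) hy.1, hx.2⟩, rfl⟩
  · rintro ⟨x, hx, rfl⟩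
    have hxS : x ∈ normalizerIn S P := ⟨hT.1 hx.1, hx.2⟩
    exact ⟨mp_mem_of_stronglyClosed hT hf (hW hxS) hx.1, (h.apply hxS).2⟩

theorem normalizerIn_le_normalizerIn_normalizerIn [Finite S] (hT : F.StronglyClosed T)
    (P : Subgroup Ω) : normalizerIn S P ≤ normalizerIn S (normalizerIn T P) := fun _ hx =>
  ⟨hx.1, mem_normalizer_normalizerIn (mem_normalizer_of_stronglyClosed hT hx.1) hx.2⟩

/-- Every subgroup `P` of `T` has a conjugate `P'`, fully normalized, with `N_T(P')` fully normalized. -/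
theorem exists_good_conj [Finite S] [Fact p.Prime] (hS : IsPGroup p S) (hF : F.IsSaturated p)
    (hT : F.StronglyClosed T) {P : Subgroup Ω} (hPT : P ≤ T) :
    ∃ (f : Ω → Ω) (P' : Subgroup Ω), Mp F P f ∧ H770.Im f P P' ∧ F.IsFullyNormalized P' ∧
      F.IsFullyNormalized (normalizerIn T P') := by
  have hPS : P ≤ S := hPT.trans hT.1
  obtain ⟨P₁, hPP₁, hP₁⟩ := H802.exists_isFullyNormalized hS hF hPS
  obtain ⟨f₁, hf₁, hI₁⟩ := H770.exists_mp_of_isConj hPP₁
  have hP₁T : P₁ ≤ T := by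
    intro y hy
    obtain ⟨x, hx, rfl⟩ := (hI₁ y).1 hy
    exact mp_mem_of_stronglyClosed hT hf₁ hx (hPT hx)
  have hle := normalizerIn_le_normalizerIn_normalizerIn hT P₁
  obtain ⟨f₂, U', P₂, hf₂, hU', hU'n, hP₂, hP₂n, hN⟩ := conj_step hS hF hP₁
    ((inf_le_left : normalizerIn T P₁ ≤ T).trans hT.1) hle
  have hNT := im_normalizerIn hT hf₂ hle hN
  have hU'eq : U' = normalizerIn T P₂ := by
    ext y
    rw [hU' y, hNT y]
    exact Iff.rfl
  have hP₁N : P₁ ≤ normalizerIn S P₁ := H802.le_normalizerIn hP₁.1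
  refine ⟨fun x => f₂ (f₁ x), P₂, hf₁.comp (hf₂.res (hP₁N.trans hle)) (fun x hx => hI₁.apply hx),
    hI₁.comp hP₂, hP₂n, hU'eq ▸ hU'n⟩

theorem lifts_of_liftable {P : Subgroup Ω} (hP : F.IsFullyNormalized P) {α : MulAut P}
    (h : H792.Liftable F P α) : H792.Lifts F P α := by
  obtain ⟨α', h1, h2⟩ := h P P.subtype (H802.subtype_mem F hP.1) (Subgroup.range_subtype P) hP
  have h3 : α' = α := by
    ext x
    exact h1 x x.2
  rwa [h3] at h2

/-- **Liftability.** For `E` normal in `F`, all automorphisms in `E` of `E`-centric subgroups are liftable. -/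
theorem liftable_all [Finite S] [Fact p.Prime] (hS : IsPGroup p S) (hE : E.IsNormalIn F p) :
    ∀ P : Subgroup Ω, E.IsCentric P → ∀ α ∈ E.autGroup P, H792.Liftable F P α := by
  have hF : F.IsSaturated p := hE.1.2.1
  have hinv : E.IsInvariantIn F := hE.1.2.2
  have hT : F.StronglyClosed T := hinv.2.1
  have hTS : T ≤ S := hT.1
  have hfinT : Finite T := H802.finite_of_le hTS
  have hTp : IsPGroup p T := hS.to_le hTS
  have key := H770.down_ind (S := T)
    (fun P => E.IsCentric P → ∀ α ∈ E.autGroup P, H792.Liftable F P α) ?_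
  · exact fun P hP => key P hP.1 hP
  intro P hPT IH hPc α hα
  by_cases hPeq : P = T
  · subst hPeq
    exact (H792.lifts_of_isNormalIn hE hα).liftable hS hF
      (H792.stronglyClosed_isFullyNormalized hS hF hT)
  obtain ⟨f, P', hf, hI, hP'n, hN'n⟩ := exists_good_conj hS hF hT hPT
  obtain ⟨φ, hφ, he⟩ := id hf
  have hr : φ.range = P' := by
    ext y
    rw [hI y]
    constructor
    · rintro ⟨x, rfl⟩
      exact ⟨x, x.2, (he x x.2).symm⟩
    · rintro ⟨x, hx, rfl⟩
      exact ⟨⟨x, hx⟩, he x hx⟩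
  obtain ⟨α', hα', -, hα'e⟩ := H792.exists_congr_of_invariant hinv hPT hφ hr hα
  have hP'c : E.IsCentric P' := H792.isCentric_map_of_invariant hinv hPc hφ hr
  have hP'T : P' ≤ T := hP'c.1
  have hcard : Nat.card P' = Nat.card P := H770.Mp.im_card hf hI
  have hfinP : Finite P := H802.finite_of_le (hPT.trans hTS)
  have hP'ne : P' ≠ T := by
    intro h
    apply hPeq
    refine Subgroup.eq_of_le_of_card_ge hPT ?_
    rw [← hcard, h]
  have hNT : normalizerIn T P' ≤ T := inf_le_left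
  have hNc : E.IsCentric (normalizerIn T P') :=
    H802.isCentric_of_le hP'c (H802.le_normalizerIn hP'T) hNT
  have h1 : H792.Lifts F P' α' := by
    refine lifts_core hS hE hP'n hN'n hP'c (fun β hβ => lifts_of_liftable hN'n ?_) α' hα'
    refine IH _ hNT ?_ hNc β hβ
    rw [← hcard]
    exact H802.card_lt_card_normalizerIn hTp hP'T hP'ne
  exact (h1.liftable hS hF hP'n).conj hφ hr (fun x hx => hα'e x hx)

end Cfsg.Agent.H769
end

-- part: H769/NsGroup
section
/-!
# Group theory for the centralizer of a normal subsystem (helper769)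

`exists_of_derivation`: a derivation into an abelian `p`-group vanishing on a Sylow `p`-subgroup is inner.
`exists_normal_of_split`: a central subgroup `K` which is split in the Sylow subgroup `B K` by a strongly closed
subgroup `B` has a normal supplement `N` with `N ∩ B K = B`.
-/

set_option autoImplicit false

namespace Cfsg.Agent.H769

open Subgroup
open scoped commutatorElement

/-- A derivation vanishing on a subgroup whose index is prime to the exponent is inner. -/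
theorem exists_of_derivation {A W : Type*} [Group A] [Finite A] [Group W] [MulDistribMulAction A W]
    (V : Subgroup W) (hVc : ∀ x ∈ V, ∀ y ∈ V, x * y = y * x)
    (hVinv : ∀ (a : A), ∀ x ∈ V, a • x ∈ V)
    (D : A → W) (hDV : ∀ a, D a ∈ V) (hD : ∀ a b, D (a * b) = D a * a • D b)
    (B : Subgroup A) (hB : ∀ b ∈ B, D b = 1) (n : ℕ) (hn : Nat.Coprime B.index n)
    (hVn : ∀ x ∈ V, x ^ n = 1) : ∃ v ∈ V, ∀ a, D a * a • v = v := by
  classical
  let _ : CommGroup V := { (inferInstance : Group V) with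
    mul_comm := fun x y => Subtype.ext (hVc x x.2 y y.2) }
  have hfin : Finite (A ⧸ B) := inferInstance
  let _ : Fintype (A ⧸ B) := Fintype.ofFinite _
  -- the action on `V`
  let act : A → V →* V := fun a =>
    { toFun := fun v => ⟨a • (v : W), hVinv a v v.2⟩
      map_one' := Subtype.ext (smul_one a)
      map_mul' := fun x y => Subtype.ext (smul_mul' a (x : W) (y : W)) }
  -- the derivation on the cosets
  let d : A ⧸ B → V := fun q => Quotient.liftOn' q (fun a => (⟨D a, hDV a⟩ : V)) (by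
    intro a b hab
    have h1 : a⁻¹ * b ∈ B := QuotientGroup.leftRel_apply.1 hab
    apply Subtype.ext
    show D a = D b
    have h2 : b = a * (a⁻¹ * b) := by group
    rw [h2, hD, hB _ h1, smul_one, mul_one])
  have hd : ∀ a : A, d (a : A ⧸ B) = ⟨D a, hDV a⟩ := fun a => rfl
  let v : V := ∏ q : A ⧸ B, d q
  have hv : ∀ a : A, v = (⟨D a, hDV a⟩ : V) ^ B.index * act a v := by
    intro a
    have h1 : ∀ q : A ⧸ B, d (a • q) = (⟨D a, hDV a⟩ : V) * act a (d q) := by
      intro q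
      induction q using QuotientGroup.induction_on with
      | H b =>
        show d ((a * b : A) : A ⧸ B) = _
        rw [hd, hd]
        exact Subtype.ext (hD a b)
    calc v = ∏ q : A ⧸ B, d (a • q) := by
          exact (Fintype.prod_equiv (MulAction.toPerm a) (fun q => d (a • q)) d (fun q => rfl)).symm
      _ = ∏ q : A ⧸ B, ((⟨D a, hDV a⟩ : V) * act a (d q)) := Finset.prod_congr rfl fun q _ => h1 q
      _ = (⟨D a, hDV a⟩ : V) ^ B.index * act a v := by
          rw [Finset.prod_mul_distrib, Finset.prod_const, map_prod, Finset.card_univ,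
            ← Nat.card_eq_fintype_card]
          rfl
  obtain ⟨k, hk⟩ : ∃ k : ℕ, B.index * k ≡ 1 [MOD n] := by
    rcases Nat.eq_zero_or_pos n with h0 | h0
    · rw [h0, Nat.coprime_zero_right] at hn
      exact ⟨1, by rw [hn]⟩
    · rcases Nat.lt_or_ge 1 n with h1 | h1
      · obtain ⟨k, -, hk⟩ := Nat.exists_mul_mod_eq_one_of_coprime hn h1
        exact ⟨k, by rw [Nat.ModEq, hk, Nat.mod_eq_of_lt h1]⟩
      · have : n = 1 := le_antisymm h1 h0
        exact ⟨0, by rw [this]; exact Nat.modEq_one⟩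
  refine ⟨((v ^ k : V) : W), (v ^ k).2, fun a => ?_⟩
  have h1 : v ^ k = ((⟨D a, hDV a⟩ : V) ^ B.index) ^ k * act a (v ^ k) := by
    conv_lhs => rw [hv a]
    rw [mul_pow, map_pow]
  have h2 : ((⟨D a, hDV a⟩ : V) ^ B.index) ^ k = ⟨D a, hDV a⟩ := by
    rw [← pow_mul]
    conv_rhs => rw [← pow_one (⟨D a, hDV a⟩ : V)]
    refine pow_eq_pow_iff_modEq.2 (hk.of_dvd (orderOf_dvd_of_pow_eq_one ?_))
    exact Subtype.ext (hVn _ (hDV a))
  rw [h2] at h1
  exact (congrArg Subtype.val h1).symm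

/-- A central subgroup which splits in a Sylow subgroup: there is a normal subgroup `N` with `N K = A` meeting the
Sylow subgroup `R = B K` in `B`. -/
theorem exists_normal_of_split {A : Type*} [Group A] [Finite A] {p : ℕ} [Fact p.Prime] (R : Sylow p A)
    (B K : Subgroup A) (hBR : B ≤ R) (hBK : ∀ r ∈ (R : Subgroup A), ∃ b ∈ B, ∃ k ∈ K, r = b * k)
    (hK : ∀ k ∈ K, ∀ a : A, a * k = k * a)
    (hB : ∀ b ∈ B, ∀ a : A, a * b * a⁻¹ ∈ (R : Subgroup A) → a * b * a⁻¹ ∈ B) :
    ∃ N : Subgroup A, B ≤ N ∧ N ⊓ R ≤ B ∧ N ⊔ K = ⊤ ∧ ¬ p ∣ B.relIndex N := by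
  obtain ⟨M, hM, hMR, hMR'⟩ := Cfsg.Agent.S0557.exists_normal_inf_eq_focalSubgroup (R : Subgroup A)
    R.card_coprime_index
  have hfoc : focalSubgroup (R : Subgroup A) ≤ B := by
    rw [focalSubgroup_def, closure_le]
    rintro g ⟨hg, x, hx, u, rfl⟩
    obtain ⟨b, hb, k, hk, rfl⟩ := hBK x hx
    have h1 : ⁅b * k, u⁆ = b * (u * b⁻¹ * u⁻¹) := by
      rw [commutatorElement_def]
      have h2 := hK k⁻¹ (K.inv_mem hk) u
      calc b * k * u * (b * k)⁻¹ * u⁻¹ = b * k * (u * k⁻¹) * b⁻¹ * u⁻¹ := by group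
        _ = b * k * (k⁻¹ * u) * b⁻¹ * u⁻¹ := by rw [h2]
        _ = b * (u * b⁻¹ * u⁻¹) := by group
    rw [h1] at hg ⊢
    have h3 : u * b⁻¹ * u⁻¹ ∈ (R : Subgroup A) := by
      have := (R : Subgroup A).mul_mem ((R : Subgroup A).inv_mem (hBR hb)) hg
      rwa [inv_mul_cancel_left] at this
    exact mul_mem hb (hB _ (B.inv_mem hb) u h3)
  have hMB : M ⊓ R ≤ B := by rw [hMR]; exact hfoc
  have hNR : (M ⊔ B) ⊓ R ≤ B := by
    rintro x ⟨hx, hxR⟩
    obtain ⟨m, hm, b, hb, rfl⟩ := mem_sup_of_normal_left.1 hx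
    have h1 : m ∈ (R : Subgroup A) := by
      have := (R : Subgroup A).mul_mem hxR ((R : Subgroup A).inv_mem (hBR hb))
      rwa [mul_inv_cancel_right] at this
    exact mul_mem (hMB ⟨hm, h1⟩) hb
  have htop : M ⊔ B ⊔ K = ⊤ := by
    rw [eq_top_iff, ← hMR']
    refine sup_le (le_sup_left.trans le_sup_left) fun r hr => ?_
    obtain ⟨b, hb, k, hk, rfl⟩ := hBK r hr
    exact mul_mem ((le_sup_left : M ⊔ B ≤ _) ((le_sup_right : B ≤ M ⊔ B) hb))
      ((le_sup_right : K ≤ _) hk)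
  have hNn : (M ⊔ B).Normal := by
    rw [← normalizer_eq_top_iff, eq_top_iff, ← htop]
    refine sup_le le_normalizer fun k hk => ?_
    rw [mem_normalizer_iff]
    intro h
    have h1 : k * h * k⁻¹ = h := by
      rw [← hK k hk h]
      group
    rw [h1]
  refine ⟨M ⊔ B, le_sup_right, hNR, htop, ?_⟩
  have hinf : B = (M ⊔ B) ⊓ R := le_antisymm (le_inf le_sup_right hBR) hNR
  have h1 : B.relIndex (M ⊔ B) * (M ⊔ B).index = B.index := relIndex_mul_index le_sup_right
  have h2 : B.relIndex (R : Subgroup A) * (R : Subgroup A).index = B.index := relIndex_mul_index hBR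
  have h3 : B.relIndex (R : Subgroup A) = (M ⊔ B).index := by
    conv_lhs => rw [hinf]
    rw [inf_relIndex_right, ← relIndex_sup_right]
    have h4 : (R : Subgroup A) ⊔ (M ⊔ B) = ⊤ := by
      rw [eq_top_iff, ← hMR']
      exact sup_le (le_sup_left.trans le_sup_right) le_sup_left
    rw [h4, relIndex_top_right]
  have h5 : B.relIndex (M ⊔ B) = (R : Subgroup A).index := by
    have h6 : (M ⊔ B).index ≠ 0 := index_ne_zero_of_finite
    apply Nat.eq_of_mul_eq_mul_left (Nat.pos_of_ne_zero h6)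
    rw [mul_comm, h1, ← h2, h3]
  rw [h5]
  exact R.not_dvd_index

end Cfsg.Agent.H769
end

-- part: H769/NsFix
section
/-!
# Fixed points in the cosets of `Z(P)` (helper769)

`E` normal in `F` over `T`, `P` `E`-centric and fully normalized in `F`, `x ∈ C_S(N_T(P))`. Then for some
`z ∈ Z(N_T(P)) ∩ P` every element of `Aut_E(P)` extends to a map of `F` on `P C_S(P)` fixing `x z`.
-/

set_option autoImplicit false

namespace Cfsg.Agent.H769

open Cfsg Cfsg.FusionSystem Cfsg.Agent.H752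

variable {Ω : Type*} [Group Ω] {S T : Subgroup Ω} {p : ℕ}

/-- The automorphisms in `F` of `P C_S(P)`, trivial modulo `P`, which restrict to elements of `Aut_E(P)`. -/
def liftGroup (F : FusionSystem S) (E : FusionSystem T) (P : Subgroup Ω) :
    Subgroup (MulAut ↥(P ⊔ centralizerIn S P)) where
  carrier := {β | β ∈ F.autGroup (P ⊔ centralizerIn S P) ∧
    (∀ y : ↥(P ⊔ centralizerIn S P), (y : Ω)⁻¹ * (β y : ↥(P ⊔ centralizerIn S P)) ∈ P) ∧
    ∃ α : E.autGroup P, ∀ (x : P) (hx : (x : Ω) ∈ P ⊔ centralizerIn S P),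
      ((β ⟨x, hx⟩ : ↥(P ⊔ centralizerIn S P)) : Ω) = ((α : MulAut P) x : P)}
  one_mem' := ⟨one_mem _, fun y => by simp, 1, fun x hx => rfl⟩
  mul_mem' := by
    rintro a b ⟨ha, ha1, α, hα⟩ ⟨hb, hb1, β, hβ⟩
    refine ⟨mul_mem ha hb, fun y => ?_, α * β, fun x hx => ?_⟩
    · have h1 := mul_mem (hb1 y) (ha1 (b y))
      rw [MulAut.mul_apply]
      simpa [mul_assoc] using h1
    · have h1 : b ⟨x, hx⟩ = ⟨((β : MulAut P) x : P), (le_sup_left : P ≤ _) ((β : MulAut P) x).2⟩ :=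
        Subtype.ext (hβ x hx)
      rw [MulAut.mul_apply, h1, hα]
      rfl
  inv_mem' := by
    rintro a ⟨ha, ha1, α, hα⟩
    refine ⟨inv_mem ha, fun y => ?_, α⁻¹, fun x hx => ?_⟩
    · have h1 := inv_mem (ha1 (a⁻¹ y))
      rw [MulAut.apply_inv_self] at h1
      simpa using h1
    · have h1 : a ⟨((α⁻¹ : MulAut P) x : P), (le_sup_left : P ≤ _) ((α⁻¹ : MulAut P) x).2⟩ =
          ⟨x, hx⟩ := by
        apply Subtype.ext
        rw [hα ((α⁻¹ : MulAut P) x)]
        show (((α : MulAut P) ((α : MulAut P)⁻¹ x) : P) : Ω) = x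
        rw [MulAut.apply_inv_self]
      have h2 : a⁻¹ ⟨x, hx⟩ =
          ⟨((α⁻¹ : MulAut P) x : P), (le_sup_left : P ≤ _) ((α⁻¹ : MulAut P) x).2⟩ := by
        rw [← h1, MulAut.inv_apply_self]
      rw [h2]
      rfl

/-- **Fixed points.** -/
theorem exists_fix [Finite S] [Fact p.Prime] (hS : IsPGroup p S) {F : FusionSystem S}
    {E : FusionSystem T} (hE : E.IsNormalIn F p) {P : Subgroup Ω} (hPn : F.IsFullyNormalized P)
    (hPc : E.IsCentric P) {x : Ω} (hx : x ∈ centralizerIn S (normalizerIn T P)) :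
    ∃ z ∈ P, (∀ t ∈ normalizerIn T P, t * z = z * t) ∧ ∀ α ∈ E.autGroup P,
      ∃ g, Mp F (P ⊔ centralizerIn S P) g ∧ (∀ (y : Ω) (hy : y ∈ P), g y = (α ⟨y, hy⟩ : P)) ∧
        g (x * z) = x * z ∧ ∀ c ∈ P ⊔ centralizerIn S P, c⁻¹ * g c ∈ P := by
  classical
  have hF : F.IsSaturated p := hE.1.2.1
  have hEs : E.IsSaturated p := hE.1.1
  have hinv : E.IsInvariantIn F := hE.1.2.2
  have hT : F.StronglyClosed T := hinv.2.1
  have hTS : T ≤ S := hT.1
  have hfinT : Finite T := H802.finite_of_le hTS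
  have hTp : IsPGroup p T := hS.to_le hTS
  have hPT : P ≤ T := hPc.1
  have hPS : P ≤ S := hPT.trans hTS
  have hfinP : Finite P := H802.finite_of_le hPS
  have hTC : H756.TC F T P := (H756.isCentric_iff_tc hinv).1 hPc
  have hPE : E.IsFullyNormalized P := H755.isFullyNormalized_sub hS hF hinv.1 hT hPT hPn
  have hPEa := H802.isFullyAutomized_of_isFullyNormalized hTp hEs hPE
  obtain ⟨R₀, hR₀⟩ := hPEa.2
  have hPfc := H802.isFullyCentralized_of_isFullyNormalized hS hF hPn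
  obtain ⟨Q, hQ⟩ : ∃ Q, Q = P ⊔ centralizerIn S P := ⟨_, rfl⟩
  have hPN : P ≤ normalizerIn T P := H802.le_normalizerIn hPT
  have hQS : Q ≤ S := by rw [hQ]; exact sup_le hPS inf_le_left
  have hfinQ : Finite Q := H802.finite_of_le hQS
  have hPm : P ≤ Q := by rw [hQ]; exact le_sup_left
  have hCm : centralizerIn S P ≤ Q := by rw [hQ]; exact le_sup_right
  have hQc : F.IsCentric Q := by rw [hQ]; exact H770.isCentric_sup_centralizer hPfc
  have hQr := H802.isReceptive_of_isFullyCentralized hS hF (H793.isFullyCentralized_of_isCentric hQc)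
  have hfinMQ : Finite (MulAut Q) := H758.finite_mulAut Q
  have hfinMP : Finite (MulAut P) := H758.finite_mulAut P
  have hLA := liftable_all hS hE P hPc
  -- the group `A`
  obtain ⟨A, hA⟩ : ∃ A : Subgroup (MulAut Q), ∀ β, β ∈ A ↔ β ∈ F.autGroup Q ∧
      (∀ y : Q, (y : Ω)⁻¹ * (β y : Q) ∈ P) ∧ ∃ α : E.autGroup P, ∀ (x : P) (hx : (x : Ω) ∈ Q),
        ((β ⟨x, hx⟩ : Q) : Ω) = ((α : MulAut P) x : P) := by
    subst hQ
    exact ⟨liftGroup F E P, fun β => Iff.rfl⟩
  have hfinA : Finite A := inferInstance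
  have hAF : ∀ a : A, (a : MulAut Q) ∈ F.autGroup Q := fun a => ((hA a).1 a.2).1
  have hAt : ∀ (a : A) (y : Q), (y : Ω)⁻¹ * ((a : MulAut Q) y : Q) ∈ P := fun a => ((hA a).1 a.2).2.1
  choose r hr using fun a : A => ((hA a).1 a.2).2.2
  let ρ : A →* E.autGroup P :=
    { toFun := r
      map_one' := by
        apply Subtype.ext
        ext y
        rw [← hr 1 y (hPm y.2)]
        rfl
      map_mul' := by
        intro a b
        apply Subtype.ext
        ext y
        rw [← hr (a * b) y (hPm y.2)]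
        show (((a : MulAut Q) ((b : MulAut Q) ⟨y, _⟩) : Q) : Ω) = ((r a : MulAut P) ((r b : MulAut P) y) : P)
        have h1 : (b : MulAut Q) ⟨y, hPm y.2⟩ = ⟨((r b : MulAut P) y : P), hPm ((r b : MulAut P) y).2⟩ :=
          Subtype.ext (hr b y _)
        rw [h1, hr a] }
  have hρ : ∀ (a : A) (y : P), (((a : MulAut Q) ⟨y, hPm y.2⟩ : Q) : Ω) = ((ρ a : MulAut P) y : P) :=
    fun a y => hr a y _
  have hmpa : ∀ a : A, Mp F Q (H770.ac (a : MulAut Q)) := fun a => H770.mp_ac hQS (hAF a)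
  have hmpa' : ∀ a : A, Mp F (P ⊔ centralizerIn S P) (H770.ac (a : MulAut Q)) := fun a =>
    (hmpa a).res (le_of_eq hQ.symm)
  -- kernel
  have hkerP : ∀ k : A, k ∈ ρ.ker ↔ ∀ y : P, (((k : MulAut Q) ⟨y, hPm y.2⟩ : Q) : Ω) = y := by
    intro k
    rw [MonoidHom.mem_ker]
    constructor
    · intro h y
      rw [hρ k y, h]
      rfl
    · intro h
      apply Subtype.ext
      ext y
      rw [← hρ k y, h y]
      rfl
  have hkerS : ∀ k ∈ ρ.ker, ∃ s ∈ centralizerIn S P, ∀ y : Q, (((k : MulAut Q) y : Q) : Ω) = s * y * s⁻¹ := by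
    intro k hk
    obtain ⟨s, hs, h2⟩ := conj_of_triv hS hF hPfc (hmpa' k)
      (fun y hy => by rw [H770.ac_apply _ (hPm hy)]; exact (hkerP k).1 hk ⟨y, hy⟩)
      (fun c hc => by rw [H770.ac_apply _ (hCm hc)]; exact hAt k ⟨c, hCm hc⟩)
    refine ⟨s, hs, fun y => ?_⟩
    have h3 := h2 y (hQ ▸ y.2)
    rwa [H770.ac_apply _ y.2] at h3
  have hker : IsPGroup p ρ.ker := by
    rintro ⟨k, hk⟩
    obtain ⟨s, hs, h1⟩ := hkerS k hk
    have h2 : (k : MulAut Q) ∈ autInducedBy S Q := (H802.mem_autInducedBy_iff S Q _).2 ⟨s, hs.1, h1⟩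
    obtain ⟨n, hn⟩ := H802.isPGroup_autInducedBy hS Q ⟨(k : MulAut Q), h2⟩
    have h3 : (k : MulAut Q) ^ p ^ n = 1 :=
      congrArg (fun w : autInducedBy S Q => (w : MulAut Q)) hn
    exact ⟨n, Subtype.ext (Subtype.ext h3)⟩
  have hsurj : ∀ α : E.autGroup P, ∃ a : A, ρ a = α := by
    intro α
    obtain ⟨g, hg, hg1, hg2⟩ := mp_of_lifts (lifts_of_liftable hPn (hLA α α.2))
    rw [← hQ] at hg hg2
    obtain ⟨β, hβ, hβg⟩ := hg.exists_aut (fun y hy => by
      have h1 := mul_mem hy (hPm (hg2 y hy))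
      rwa [mul_inv_cancel_left] at h1)
    have hβA : β ∈ A := (hA β).2 ⟨hβ, fun y => by
      rw [← hβg y y.2]; exact hg2 y y.2, α, fun y hy => by
      rw [← hβg y hy]; exact hg1 y y.2⟩
    refine ⟨⟨β, hβA⟩, ?_⟩
    apply Subtype.ext
    ext y
    rw [← hρ ⟨β, hβA⟩ y, ← hβg y (hPm y.2)]
    exact hg1 y y.2
  have hrange : ρ.range = ⊤ := MonoidHom.range_eq_top.2 hsurj
  let R : Sylow p A := R₀.comapOfKerIsPGroup ρ hker (by rw [hrange]; exact le_top)
  have hRmem : ∀ a : A, a ∈ (R : Subgroup A) ↔ (ρ a : MulAut P) ∈ autInducedBy T P := by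
    intro a
    show ρ a ∈ (R₀ : Subgroup (E.autGroup P)) ↔ _
    rw [hR₀]
    exact Iff.rfl
  -- the subgroup `B`
  let B : Subgroup A :=
    { carrier := {b | ∃ t ∈ T, ∀ y : Q, (((b : MulAut Q) y : Q) : Ω) = t * y * t⁻¹}
      one_mem' := ⟨1, one_mem T, fun y => by simp⟩
      mul_mem' := by
        rintro a b ⟨t, ht, h1⟩ ⟨u, hu, h2⟩
        refine ⟨t * u, T.mul_mem ht hu, fun y => ?_⟩
        show (((a : MulAut Q) ((b : MulAut Q) y) : Q) : Ω) = _
        rw [h1, h2]
        group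
      inv_mem' := by
        rintro a ⟨t, ht, h1⟩
        refine ⟨t⁻¹, T.inv_mem ht, fun y => ?_⟩
        have h2 := h1 ((a : MulAut Q)⁻¹ y)
        rw [MulAut.apply_inv_self] at h2
        show (((a : MulAut Q)⁻¹ y : Q) : Ω) = _
        rw [h2]
        group }
  have hBN : ∀ b : A, ∀ t ∈ T, (∀ y : Q, (((b : MulAut Q) y : Q) : Ω) = t * y * t⁻¹) →
      t ∈ normalizerIn T P := by
    intro b t ht h1
    refine ⟨ht, H802.mem_normalizer_of_conj_mem hPS fun y hy => ?_⟩
    rw [← h1 ⟨y, hPm hy⟩, hρ b ⟨y, hy⟩]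
    exact Subtype.coe_prop _
  have hBex : ∀ t ∈ normalizerIn T P, ∃ b ∈ B, ∀ y : Q, (((b : MulAut Q) y : Q) : Ω) = t * y * t⁻¹ := by
    intro t ht
    have htS : t ∈ S := hTS ht.1
    have htC : ∀ c ∈ centralizerIn S P, t * c * t⁻¹ ∈ centralizerIn S P := fun c hc =>
      conj_mem_centralizerIn htS ht.2 hc
    have htQ : t ∈ Subgroup.normalizer (Q : Set Ω) := by
      refine H802.mem_normalizer_of_conj_mem hQS fun y hy => ?_
      rw [hQ] at hy ⊢
      exact conj_mem_sup_centralizerIn htS ht.2 hy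
    obtain ⟨β, hβ⟩ := H802.exists_conjAut htQ
    have hβF : β ∈ F.autGroup Q := H802.autInducedBy_le_autGroup F hQS
      ((H802.mem_autInducedBy_iff S Q β).2 ⟨t, htS, hβ⟩)
    have hCn : centralizerIn S P ≤ Subgroup.normalizer (P : Set Ω) :=
      inf_le_right.trans (Subgroup.centralizer_le_normalizer _)
    have hcomm : ∀ c ∈ centralizerIn S P, c⁻¹ * (t * c * t⁻¹) ∈ P := by
      intro c hc
      refine hTC.self hTS ?_ fun y hy => ?_
      · have h1 : c⁻¹ * t * c ∈ T := by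
          have := (Subgroup.mem_normalizer_iff.1
            (mem_normalizer_of_stronglyClosed hT (S.inv_mem hc.1)) t).1 ht.1
          rwa [inv_inv] at this
        have h2 : c⁻¹ * (t * c * t⁻¹) = c⁻¹ * t * c * t⁻¹ := by group
        rw [h2]
        exact T.mul_mem h1 (T.inv_mem ht.1)
      · exact Subgroup.mem_centralizer_iff.1
          (Subgroup.mul_mem _ (Subgroup.inv_mem _ hc.2) (htC c hc).2) y hy
    obtain ⟨α, hα⟩ := H802.exists_conjAut ht.2
    have hαE : α ∈ E.autGroup P := H802.autInducedBy_le_autGroup E hPT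
      ((H802.mem_autInducedBy_iff T P α).2 ⟨t, ht.1, hα⟩)
    have hβA : β ∈ A := by
      refine (hA β).2 ⟨hβF, fun y => ?_, ⟨α, hαE⟩, fun y hy => ?_⟩
      · rw [hβ y]
        obtain ⟨c, hc, u, hu, hcu⟩ := (H759.mem_sup_of_normalizes hCn).1
          (show (y : Ω) ∈ centralizerIn S P ⊔ P by rw [sup_comm, ← hQ]; exact y.2)
        rw [← hcu]
        have h1 : (c * u)⁻¹ * (t * (c * u) * t⁻¹) = u⁻¹ * (c⁻¹ * (t * c * t⁻¹)) * (t * u * t⁻¹) := by
          group
        rw [h1]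
        exact mul_mem (mul_mem (inv_mem hu) (hcomm c hc)) ((Subgroup.mem_normalizer_iff.1 ht.2 u).1 hu)
      · rw [hβ]
        exact (hα y).symm
    exact ⟨⟨β, hβA⟩, ⟨t, ht.1, hβ⟩, hβ⟩
  have hBR : B ≤ R := by
    rintro b ⟨t, ht, h1⟩
    rw [hRmem]
    refine (H802.mem_autInducedBy_iff T P _).2 ⟨t, ht, fun y => ?_⟩
    rw [← hρ b y, h1]
  have hBK : ∀ s ∈ (R : Subgroup A), ∃ b ∈ B, ∃ k ∈ ρ.ker, s = b * k := by
    intro s hs
    obtain ⟨t, ht, h1⟩ := (H802.mem_autInducedBy_iff T P _).1 ((hRmem s).1 hs)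
    have htN : t ∈ normalizerIn T P := ⟨ht, H802.mem_normalizer_of_aut h1⟩
    obtain ⟨b, hb, hbt⟩ := hBex t htN
    refine ⟨b, hb, b⁻¹ * s, ?_, by group⟩
    rw [MonoidHom.mem_ker, map_mul, map_inv, inv_mul_eq_one]
    apply Subtype.ext
    ext y
    rw [← hρ b y, hbt, h1]
  -- the kernel is central
  have hK : ∀ k ∈ ρ.ker, ∀ a : A, a * k = k * a := by
    intro k hk a
    have hkP := (hkerP k).1 hk
    have hac : ∀ (a : A) {y : Ω} (hy : y ∈ P), H770.ac (a : MulAut Q) y ∈ P := fun a y hy => by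
      rw [H770.ac_apply _ (hPm hy), hρ a ⟨y, hy⟩]
      exact Subtype.coe_prop _
    have hkPc : ∀ {y : Ω}, y ∈ P → H770.ac (k : MulAut Q) y = y := fun {y} hy => by
      rw [H770.ac_apply _ (hPm hy)]
      exact hkP ⟨y, hy⟩
    have hact : ∀ (a : A) {y : Ω} (hy : y ∈ Q), y⁻¹ * H770.ac (a : MulAut Q) y ∈ P := fun a y hy => by
      rw [H770.ac_apply _ hy]
      exact hAt a ⟨y, hy⟩
    have key : ∀ y ∈ P ⊔ centralizerIn S P,
        H770.ac ((a * k : A) : MulAut Q) y = H770.ac ((k * a : A) : MulAut Q) y := by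
      refine H754.mp_sup_eq (hmpa' (a * k)) (hmpa' (k * a)) (fun y hy => ?_) (fun c hc => ?_)
      · have h1 : H770.ac ((a * k : A) : MulAut Q) y = H770.ac (a : MulAut Q) (H770.ac (k : MulAut Q) y) :=
          H770.ac_mul _ _ (hPm hy)
        have h2 : H770.ac ((k * a : A) : MulAut Q) y = H770.ac (k : MulAut Q) (H770.ac (a : MulAut Q) y) :=
          H770.ac_mul _ _ (hPm hy)
        rw [h1, h2, hkPc hy, hkPc (hac a hy)]
      · have hcQ : c ∈ Q := hCm hc
        have h1 : H770.ac ((a * k : A) : MulAut Q) c = H770.ac (a : MulAut Q) (H770.ac (k : MulAut Q) c) :=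
          H770.ac_mul _ _ hcQ
        have h2 : H770.ac ((k * a : A) : MulAut Q) c = H770.ac (k : MulAut Q) (H770.ac (a : MulAut Q) c) :=
          H770.ac_mul _ _ hcQ
        obtain ⟨w, hw⟩ : ∃ w, w = c⁻¹ * H770.ac (k : MulAut Q) c := ⟨_, rfl⟩
        obtain ⟨u, hu⟩ : ∃ u, u = c⁻¹ * H770.ac (a : MulAut Q) c := ⟨_, rfl⟩
        have hwP : w ∈ P := by rw [hw]; exact hact k hcQ
        have huP : u ∈ P := by rw [hu]; exact hact a hcQ
        have hkc : H770.ac (k : MulAut Q) c = c * w := by rw [hw]; group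
        have hac' : H770.ac (a : MulAut Q) c = c * u := by rw [hu]; group
        -- `w` is central in `P`
        have hIk : H770.Im (H770.ac (k : MulAut Q)) P P := (H770.Im.id P).congr fun y hy => hkPc hy
        have hkcC : H770.ac (k : MulAut Q) c ∈ Subgroup.centralizer (P : Set Ω) :=
          H770.Mp.mem_centralizer (hmpa k) hPm hIk hcQ hc.2
        have hwC : w ∈ Subgroup.centralizer (P : Set Ω) := by
          rw [hw]
          exact Subgroup.mul_mem _ (Subgroup.inv_mem _ hc.2) hkcC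
        -- `a` fixes `w`
        have hzc : P ⊔ Subgroup.zpowers c ≤ Q := sup_le hPm (by rw [Subgroup.zpowers_le]; exact hcQ)
        obtain ⟨φ, hφ, hφe⟩ := (hmpa k).res hzc
        have haw : H770.ac (a : MulAut Q) w = w := by
          rw [H770.ac_apply _ (hPm hwP), hρ a ⟨w, hwP⟩]
          refine (hLA (ρ a) (ρ a).2).fixes hS hF hPS hc hwP hφ (fun y hy hy' => ?_) (fun hcV => ?_)
          · rw [hφe]; exact hkPc hy
          · rw [hφe]; exact hkc
        rw [h1, h2, hkc, hac', (hmpa a).mul hcQ (hPm hwP), haw, hac',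
          (hmpa k).mul hcQ (hPm huP), hkPc huP, hkc, mul_assoc, mul_assoc,
          Subgroup.mem_centralizer_iff.1 hwC u huP]
    apply Subtype.ext
    ext y
    have h1 := key y (hQ ▸ y.2)
    rw [H770.ac_apply _ y.2, H770.ac_apply _ y.2] at h1
    exact h1
  -- strong closure of `B`
  have hB : ∀ b ∈ B, ∀ a : A, a * b * a⁻¹ ∈ (R : Subgroup A) → a * b * a⁻¹ ∈ B := by
    rintro b ⟨t, ht, hbt⟩ a haR
    obtain ⟨b', ⟨t', ht', hbt'⟩, k', hk', hbk⟩ := hBK _ haR
    obtain ⟨s', hs', hks'⟩ := hkerS k' hk'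
    have htQ : t ∈ Subgroup.normalizer (Q : Set Ω) := H802.mem_normalizer_of_aut hbt
    have hab : ∀ y : Q, (((a : MulAut Q) ((b : MulAut Q) y) : Q) : Ω) =
        (t' * s') * ((a : MulAut Q) y : Q) * (t' * s')⁻¹ := by
      intro y
      have h1 : ((a * b * a⁻¹ : A) : MulAut Q) ((a : MulAut Q) y) = (a : MulAut Q) ((b : MulAut Q) y) := by
        show (a : MulAut Q) ((b : MulAut Q) ((a : MulAut Q)⁻¹ ((a : MulAut Q) y))) = _
        rw [MulAut.inv_apply_self]
      rw [← h1, hbk]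
      show (((b' : MulAut Q) ((k' : MulAut Q) ((a : MulAut Q) y)) : Q) : Ω) = _
      rw [hbt', hks']
      group
    obtain ⟨M', L, hL, hQM, hLe, hLM⟩ := H753.mp_extend hQr (hmpa a) (H770.im_ac (a : MulAut Q))
    have htM : t ∈ M' := by
      refine hLM t (hTS ht) htQ ⟨t' * s', S.mul_mem (hTS ht') hs'.1, fun y hy => ?_⟩
      have h1 := hab ⟨y, hy⟩
      have h2 : t * y * t⁻¹ ∈ Q := (Subgroup.mem_normalizer_iff.1 htQ y).1 hy
      rw [H770.ac_apply _ h2, H770.ac_apply _ hy, ← h1]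
      congr 2
      exact Subtype.ext (hbt ⟨y, hy⟩).symm
    refine ⟨L t, mp_mem_of_stronglyClosed hT hL htM ht, fun y => ?_⟩
    obtain ⟨w, hw⟩ : ∃ w : Q, (a : MulAut Q) w = y := ⟨(a : MulAut Q)⁻¹ y, MulAut.apply_inv_self _ _ _⟩
    have h1 : ((a * b * a⁻¹ : A) : MulAut Q) y = (a : MulAut Q) ((b : MulAut Q) w) := by
      rw [← hw]
      show (a : MulAut Q) ((b : MulAut Q) ((a : MulAut Q)⁻¹ ((a : MulAut Q) w))) = _
      rw [MulAut.inv_apply_self]
    rw [h1]
    have h2 : ((b : MulAut Q) w : Q) = ⟨t * w * t⁻¹, (Subgroup.mem_normalizer_iff.1 htQ w).1 w.2⟩ :=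
      Subtype.ext (hbt w)
    rw [h2, ← H770.ac_apply, ← hLe _ ((Subgroup.mem_normalizer_iff.1 htQ w).1 w.2),
      hL.mul (mul_mem htM (hQM w.2)) (M'.inv_mem htM), hL.mul htM (hQM w.2), hL.inv htM,
      hLe w w.2, H770.ac_apply _ w.2]
    have h3 : ((a : MulAut Q) ⟨(w : Ω), w.2⟩ : Q) = y := hw
    rw [h3]
  obtain ⟨N, hBN', hNR, hNK, hidx⟩ := exists_normal_of_split R B ρ.ker hBR hBK hK hB
  -- the derivation
  have hxS : x ∈ S := hx.1
  have hxCP : x ∈ centralizerIn S P := centralizerIn_mono hPN hx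
  have hxQ : x ∈ Q := hCm hxCP
  let xq : Q := ⟨x, hxQ⟩
  let V : Subgroup Q := (P ⊓ Subgroup.centralizer (P : Set Ω)).subgroupOf Q
  have hVmem : ∀ v : Q, v ∈ V ↔ (v : Ω) ∈ P ∧ (v : Ω) ∈ Subgroup.centralizer (P : Set Ω) :=
    fun v => Iff.rfl
  have hfinB : Finite N := inferInstance
  have hact : ∀ (n : N) (y : Q), n • y = ((n : A) : MulAut Q) y := fun n y => rfl
  have hIma : ∀ a : A, H770.Im (H770.ac (a : MulAut Q)) P P := by
    intro a
    refine H770.Mp.im_of_maps ((hmpa a).res hPm) fun y hy => ?_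
    rw [H770.ac_apply _ (hPm hy), hρ a ⟨y, hy⟩]
    exact Subtype.coe_prop _
  have hVinv : ∀ (n : N), ∀ v ∈ V, n • v ∈ V := by
    intro n v hv
    have hv' := (hVmem v).1 hv
    rw [hVmem, hact]
    refine ⟨?_, ?_⟩
    · have h1 := hρ n ⟨v, hv'.1⟩
      rw [show ((n : A) : MulAut Q) v = ((n : A) : MulAut Q) ⟨v, hPm hv'.1⟩ from rfl, h1]
      exact Subtype.coe_prop _
    · have h1 := H770.Mp.mem_centralizer (hmpa n) hPm (hIma n) v.2 hv'.2
      rwa [H770.ac_apply _ v.2] at h1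
  have hDV : ∀ n : N, xq⁻¹ * n • xq ∈ V := by
    intro n
    rw [hVmem, hact]
    refine ⟨hAt n xq, ?_⟩
    have h1 := H770.Mp.mem_centralizer (hmpa n) hPm (hIma n) hxQ hxCP.2
    rw [H770.ac_apply _ hxQ] at h1
    exact Subgroup.mul_mem _ (Subgroup.inv_mem _ hxCP.2) h1
  have hcop : Nat.Coprime (B.subgroupOf N).index (Nat.card P) := by
    obtain ⟨m, hm⟩ := IsPGroup.iff_card.1 (hS.to_le hPS)
    rw [hm]
    exact (((Nat.Prime.coprime_iff_not_dvd (Fact.out : p.Prime)).2 hidx).symm).pow_right m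
  obtain ⟨v, hv, hfix⟩ := exists_of_derivation V
    (fun a ha b hb => Subtype.ext (Subgroup.mem_centralizer_iff.1 ((hVmem b).1 hb).2 a ((hVmem a).1 ha).1))
    hVinv (fun n : N => xq⁻¹ * n • xq) hDV
    (fun a b => by
      show xq⁻¹ * (a * b) • xq = xq⁻¹ * a • xq * a • (xq⁻¹ * b • xq)
      rw [smul_mul', smul_inv', mul_smul]
      group)
    (B.subgroupOf N) (fun b hb => by
      obtain ⟨t, ht, hbt⟩ : (b : A) ∈ B := hb
      have htN := hBN b t ht hbt
      have htx : t * x = x * t := Subgroup.mem_centralizer_iff.1 hx.2 t htN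
      apply Subtype.ext
      show x⁻¹ * ((((b : A) : MulAut Q) xq : Q) : Ω) = 1
      rw [hbt]
      show x⁻¹ * (t * x * t⁻¹) = 1
      rw [htx]
      group)
    (Nat.card P) hcop (fun v hv => by
      have h1 : (⟨v, ((hVmem v).1 hv).1⟩ : P) ^ Nat.card P = 1 := pow_card_eq_one'
      exact Subtype.ext (congrArg (fun y : P => (y : Ω)) h1))
  have hvP := ((hVmem v).1 hv).1
  -- `N` fixes `x v`
  have hfix' : ∀ n : A, n ∈ N → (((n : MulAut Q) (xq * v) : Q) : Ω) = x * v := by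
    intro n hn
    have h1 := hfix ⟨n, hn⟩
    have h2 : (⟨n, hn⟩ : N) • (xq * v) = xq * v := by
      rw [smul_mul']
      calc (⟨n, hn⟩ : N) • xq * (⟨n, hn⟩ : N) • v
          = xq * (xq⁻¹ * (⟨n, hn⟩ : N) • xq * (⟨n, hn⟩ : N) • v) := by group
        _ = xq * v := by rw [h1]
    exact congrArg Subtype.val h2
  refine ⟨v, hvP, fun t ht => ?_, fun α hα => ?_⟩
  · obtain ⟨b, hb, hbt⟩ := hBex t ht
    have h1 := hfix' b (hBN' hb)
    rw [hbt] at h1
    have h1' : t * (x * v) * t⁻¹ = x * v := h1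
    have htx : t * x = x * t := Subgroup.mem_centralizer_iff.1 hx.2 t ht
    have h2 : x * (t * v * t⁻¹) = x * v := by
      calc x * (t * v * t⁻¹) = (x * t) * v * t⁻¹ := by group
        _ = t * x * v * t⁻¹ := by rw [htx]
        _ = t * (x * v) * t⁻¹ := by group
        _ = x * v := h1'
    have h3 : t * (v : Ω) * t⁻¹ = v := mul_left_cancel h2
    calc t * (v : Ω) = t * v * t⁻¹ * t := by group
      _ = v * t := by rw [h3]
  · obtain ⟨a, ha⟩ := hsurj ⟨α, hα⟩
    have ha' : a ∈ N ⊔ ρ.ker := by rw [hNK]; trivial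
    obtain ⟨n, hn, k, hk, rfl⟩ := Subgroup.mem_sup_of_normal_right.1 ha'
    have hρn : ρ n = ⟨α, hα⟩ := by
      rw [← ha, map_mul, (MonoidHom.mem_ker).1 hk, mul_one]
    refine ⟨H770.ac (n : MulAut Q), hmpa' n, fun y hy => ?_, ?_, fun c hc => ?_⟩
    · rw [H770.ac_apply _ (hPm hy), hρ n ⟨y, hy⟩, hρn]
    · have h1 : x * (v : Ω) ∈ Q := Q.mul_mem hxQ v.2
      rw [H770.ac_apply _ h1]
      exact hfix' n hn
    · rw [← hQ] at hc
      rw [H770.ac_apply _ hc]
      exact hAt n ⟨c, hc⟩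

end Cfsg.Agent.H769
end

-- part: H769/NsFx
section
/-!
# Maps extending by the identity on `⟨x⟩` (helper769)
-/

set_option autoImplicit false

namespace Cfsg.Agent.H769

open Cfsg Cfsg.FusionSystem Cfsg.Agent.H752

variable {Ω : Type*} [Group Ω] {S T : Subgroup Ω} {p : ℕ} {F : FusionSystem S} {E : FusionSystem T}

/-- `f` on `P` extends to a map of `F` on `P ⟨x⟩` fixing `x`. -/
def Fx (F : FusionSystem S) (x : Ω) (P : Subgroup Ω) (f : Ω → Ω) : Prop :=
  ∃ g, Mp F (P ⊔ Subgroup.zpowers x) g ∧ (∀ y ∈ P, g y = f y) ∧ g x = x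

theorem mem_sup_zpowers (P : Subgroup Ω) (x : Ω) : x ∈ P ⊔ Subgroup.zpowers x :=
  (le_sup_right : Subgroup.zpowers x ≤ _) (Subgroup.mem_zpowers x)

theorem Fx.congr {x : Ω} {P : Subgroup Ω} {f f' : Ω → Ω} (h : Fx F x P f) (he : ∀ y ∈ P, f' y = f y) :
    Fx F x P f' := by
  obtain ⟨g, hg, h1, h2⟩ := h
  exact ⟨g, hg, fun y hy => (h1 y hy).trans (he y hy).symm, h2⟩

theorem Fx.res {x : Ω} {P R : Subgroup Ω} {f : Ω → Ω} (h : Fx F x P f) (hR : R ≤ P) :
    Fx F x R f := by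
  obtain ⟨g, hg, h1, h2⟩ := h
  exact ⟨g, hg.res (sup_le_sup_right hR _), fun y hy => h1 y (hR hy), h2⟩

theorem Fx.comp {x : Ω} {P Q : Subgroup Ω} {f f' : Ω → Ω} (h : Fx F x P f) (h' : Fx F x Q f')
    (hm : ∀ y ∈ P, f y ∈ Q) : Fx F x P (fun y => f' (f y)) := by
  obtain ⟨g, hg, h1, h2⟩ := h
  obtain ⟨g', hg', h1', h2'⟩ := h'
  have hmap : ∀ y ∈ P ⊔ Subgroup.zpowers x, g y ∈ Q ⊔ Subgroup.zpowers x := by
    refine H754.mp_sup_mem hg (fun y hy => ?_) (fun y hy => ?_)
    · rw [h1 y hy]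
      exact (le_sup_left : Q ≤ _) (hm y hy)
    · obtain ⟨i, rfl⟩ := hy
      show g (x ^ i) ∈ _
      rw [H753.Mp.zpow hg (mem_sup_zpowers P x), h2]
      exact zpow_mem (mem_sup_zpowers Q x) i
  refine ⟨fun y => g' (g y), hg.comp hg' hmap, fun y hy => ?_, ?_⟩
  · show g' (g y) = f' (f y)
    rw [h1 y hy, h1' _ (hm y hy)]
  · show g' (g x) = x
    rw [h2, h2']

theorem Fx.symm {x : Ω} {P R : Subgroup Ω} {f f' : Ω → Ω} (h : Fx F x P f)
    (hm : ∀ y ∈ R, ∃ z ∈ P, f z = y ∧ f' y = z) : Fx F x R f' := by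
  obtain ⟨g, hg, h1, h2⟩ := h
  obtain ⟨W, hW, -, -⟩ := hg.exists_image le_rfl
  obtain ⟨b, hb, hb1, hb2⟩ := hg.exists_symm le_rfl hW
  have hPm : P ≤ P ⊔ Subgroup.zpowers x := le_sup_left
  have hle : R ⊔ Subgroup.zpowers x ≤ W := by
    refine sup_le (fun y hy => ?_) ?_
    · obtain ⟨z, hz, h3, -⟩ := hm y hy
      exact (hW _).2 ⟨z, hPm hz, by rw [h1 z hz, h3]⟩
    · rw [Subgroup.zpowers_le]
      exact (hW _).2 ⟨x, mem_sup_zpowers P x, h2⟩
  refine ⟨b, hb.res hle, fun y hy => ?_, ?_⟩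
  · obtain ⟨z, hz, h3, h4⟩ := hm y hy
    have h5 := hb1 z (hPm hz)
    rw [h1 z hz, h3] at h5
    rw [h5, h4]
  · have h5 := hb1 x (mem_sup_zpowers P x)
    rwa [h2] at h5

theorem Fx.conj {x : Ω} {P : Subgroup Ω} (hTS : T ≤ S) (hx : x ∈ centralizerIn S T) (hPT : P ≤ T)
    {t : Ω} (ht : t ∈ T) : Fx F x P (fun y => t * y * t⁻¹) := by
  refine ⟨fun y => t * y * t⁻¹, mp_conj F (sup_le (hPT.trans hTS)
    (by rw [Subgroup.zpowers_le]; exact hx.1)) (hTS ht), fun _ _ => rfl, ?_⟩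
  show t * x * t⁻¹ = x
  rw [Subgroup.mem_centralizer_iff.1 hx.2 t ht]
  group

/-- Transport by a map `a` defined on `T ⟨x⟩`. -/
theorem Fx.transport {x : Ω} {P P' : Subgroup Ω} {f f' a : Ω → Ω}
    (ha : Mp F (T ⊔ Subgroup.zpowers x) a) (hPT : P ≤ T) (hf : Fx F x P f) (hfT : ∀ y ∈ P, f y ∈ T)
    (hm : ∀ y ∈ P', ∃ z ∈ P, a z = y ∧ f' y = a (f z)) : Fx F (a x) P' f' := by
  obtain ⟨g, hg, h1, h2⟩ := hf
  have hTm : T ≤ T ⊔ Subgroup.zpowers x := le_sup_left
  have hPm : P ≤ P ⊔ Subgroup.zpowers x := le_sup_left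
  have hxT := mem_sup_zpowers T x
  have hle : P ⊔ Subgroup.zpowers x ≤ T ⊔ Subgroup.zpowers x := sup_le_sup_right hPT _
  obtain ⟨W, hW, -, -⟩ := (ha.res hle).exists_image le_rfl
  obtain ⟨b, hb, hb1, hb2⟩ := (ha.res hle).exists_symm le_rfl hW
  have hW' : P' ⊔ Subgroup.zpowers (a x) ≤ W := by
    refine sup_le (fun y hy => ?_) ?_
    · obtain ⟨z, hz, h3, -⟩ := hm y hy
      exact (hW _).2 ⟨z, hPm hz, h3⟩
    · rw [Subgroup.zpowers_le]
      exact (hW _).2 ⟨x, mem_sup_zpowers P x, rfl⟩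
  have hgm : ∀ y ∈ P ⊔ Subgroup.zpowers x, g y ∈ T ⊔ Subgroup.zpowers x := by
    refine H754.mp_sup_mem hg (fun y hy => ?_) (fun y hy => ?_)
    · rw [h1 y hy]
      exact hTm (hfT y hy)
    · obtain ⟨i, rfl⟩ := hy
      show g (x ^ i) ∈ _
      rw [H753.Mp.zpow hg (mem_sup_zpowers P x), h2]
      exact zpow_mem hxT i
  refine ⟨fun y => a (g (b y)), ((hb.res hW').comp hg fun y hy => (hb2 y (hW' hy)).1).comp ha
    fun y hy => hgm _ (hb2 y (hW' hy)).1, fun y hy => ?_, ?_⟩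
  · obtain ⟨z, hz, h3, h4⟩ := hm y hy
    show a (g (b y)) = f' y
    rw [← h3, hb1 z (hPm hz), h1 z hz, h3, h4]
  · show a (g (b (a x))) = a x
    rw [hb1 x (mem_sup_zpowers P x), h2]

/-- **Uniqueness.** If the `p'`-automorphism `α ∈ Aut_E(P)` extends to a map fixing `x` and to a map fixing `x z`,
`z ∈ Z(P)`, then `α` fixes `z`. -/
theorem fix_of_two [Finite S] [Fact p.Prime] (hS : IsPGroup p S) (hE : E.IsNormalIn F p)
    {P : Subgroup Ω} (hPc : E.IsCentric P) {x z : Ω} (hx : x ∈ centralizerIn S P) (hz : z ∈ P)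
    {α : MulAut P} (hα : α ∈ E.autGroup P) (hcop : Nat.Coprime (orderOf α) p)
    (h1 : Fx F x P (H770.ac α)) (h2 : Fx F (x * z) P (H770.ac α)) : H770.ac α z = z := by
  have hF : F.IsSaturated p := hE.1.2.1
  have hTS : T ≤ S := hE.1.2.2.2.1.1
  have hPT : P ≤ T := hPc.1
  have hPS : P ≤ S := hPT.trans hTS
  have hfinP : Finite P := H802.finite_of_le hPS
  obtain ⟨g₁, hg₁, h11, h12⟩ := h1
  obtain ⟨g₂, hg₂, h21, h22⟩ := h2
  have hPm : P ≤ P ⊔ Subgroup.zpowers x := le_sup_left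
  have hPm' : P ≤ P ⊔ Subgroup.zpowers (x * z) := le_sup_left
  have hxm := mem_sup_zpowers P x
  have hle : P ⊔ Subgroup.zpowers x ≤ P ⊔ Subgroup.zpowers (x * z) := by
    refine sup_le hPm' ?_
    rw [Subgroup.zpowers_le]
    have h3 := mul_mem (mem_sup_zpowers P (x * z)) (Subgroup.inv_mem _ (hPm' hz))
    rwa [mul_inv_cancel_right] at h3
  have hg₂' := hg₂.res hle
  have hacP : ∀ y ∈ P, H770.ac α y ∈ P := fun y hy => H770.ac_mem α hy
  have hg₂x : g₂ x = x * z * (H770.ac α z)⁻¹ := by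
    have h3 : g₂ (x * z) = g₂ x * g₂ z := hg₂'.mul hxm (hPm hz)
    rw [h22, h21 z hz] at h3
    rw [h3]
    group
  obtain ⟨W, hW, -, -⟩ := hg₁.exists_image le_rfl
  obtain ⟨b, hb, hb1, hb2⟩ := hg₁.exists_symm le_rfl hW
  have hxW : x ∈ W := (hW _).2 ⟨x, hxm, h12⟩
  have hPW : P ≤ W := fun y hy => by
    obtain ⟨u, hu, rfl⟩ := ((H770.im_ac α) y).1 hy
    exact (hW _).2 ⟨u, hPm hu, h11 u hu⟩
  have hbx : b x = x := by
    have h3 := hb1 x hxm
    rwa [h12] at h3
  have hbα : ∀ y ∈ P, b (H770.ac α y) = y := fun y hy => by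
    have h3 := hb1 y (hPm hy)
    rwa [h11 y hy] at h3
  have hbP : ∀ y ∈ P, b y ∈ P := fun y hy => by
    obtain ⟨u, hu, rfl⟩ := ((H770.im_ac α) y).1 hy
    rw [hbα u hu]
    exact hu
  have hmap : ∀ y ∈ P ⊔ Subgroup.zpowers x, g₂ y ∈ W := by
    refine H754.mp_sup_mem hg₂' (fun y hy => ?_) (fun y hy => ?_)
    · rw [h21 y hy]
      exact hPW (hacP y hy)
    · obtain ⟨i, rfl⟩ := hy
      show g₂ (x ^ i) ∈ _
      rw [H753.Mp.zpow hg₂' hxm, hg₂x]
      exact zpow_mem (mul_mem (mul_mem hxW (hPW hz)) (W.inv_mem (hPW (hacP z hz)))) i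
  have hδ := hg₂'.comp hb hmap
  obtain ⟨w, hw⟩ : ∃ w, w = b z * z⁻¹ := ⟨_, rfl⟩
  have hwP : w ∈ P := by rw [hw]; exact mul_mem (hbP z hz) (inv_mem hz)
  have hδx : b (g₂ x) = x * w := by
    rw [hg₂x, hb.mul (mul_mem hxW (hPW hz)) (W.inv_mem (hPW (hacP z hz))), hb.mul hxW (hPW hz),
      hb.inv (hPW (hacP z hz)), hbx, hbα z hz, hw, mul_assoc]
  obtain ⟨φ, hφ, hφe⟩ := hδ
  have hαw : H770.ac α w = w := by
    rw [H770.ac_apply _ hwP]
    refine (liftable_all hS hE P hPc α hα).fixes hS hF hPS hx hwP hφ (fun y hy hy' => ?_)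
      (fun hcV => ?_)
    · rw [hφe]
      show b (g₂ y) = y
      rw [h21 y hy, hbα y hy]
    · rw [hφe]
      exact hδx
  -- `α z = w⁻¹ z`
  have hαz : H770.ac α z = w⁻¹ * z := by
    have h3 : H770.ac α w = z * (H770.ac α z)⁻¹ := by
      have hm := (mp_iff_autGroup hPT α).1 hα
      have h4 : H770.ac α (b z) = z := by
        obtain ⟨u, hu, huz⟩ := ((H770.im_ac α) z).1 hz
        have h5 := hbα u hu
        rw [huz] at h5
        rw [h5, huz]
      have h6 : H770.ac α (b z * z⁻¹) = H770.ac α (b z) * H770.ac α z⁻¹ := hm.mul (hbP z hz) (inv_mem hz)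
      have h7 : H770.ac α z⁻¹ = (H770.ac α z)⁻¹ := hm.inv hz
      rw [hw, h6, h4, h7]
    rw [hαw] at h3
    rw [h3]
    group
  have hpow : ∀ n : ℕ, (((α ^ n) ⟨z, hz⟩ : P) : Ω) = (w ^ n)⁻¹ * z := by
    intro n
    induction n with
    | zero => simp
    | succ n ih =>
      have h3 : (α ^ n) ⟨z, hz⟩ = (⟨w, hwP⟩ ^ n)⁻¹ * ⟨z, hz⟩ := Subtype.ext ih
      have h4 : α ⟨w, hwP⟩ = ⟨w, hwP⟩ := Subtype.ext (by rw [← H770.ac_apply]; exact hαw)
      have h5 : α ⟨z, hz⟩ = (⟨w, hwP⟩ : P)⁻¹ * ⟨z, hz⟩ :=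
        Subtype.ext (by rw [← H770.ac_apply]; exact hαz)
      rw [pow_succ', MulAut.mul_apply, h3, map_mul, map_inv, map_pow, h4, h5]
      show (w ^ n)⁻¹ * (w⁻¹ * z) = (w ^ (n + 1))⁻¹ * z
      rw [pow_succ']
      group
  have h3 := hpow (orderOf α)
  rw [pow_orderOf_eq_one] at h3
  have h4 : w ^ orderOf α = 1 := by
    have h5 : z = (w ^ orderOf α)⁻¹ * z := h3
    have h6 : (w ^ orderOf α)⁻¹ = 1 := (mul_eq_right.1 h5.symm)
    exact inv_eq_one.1 h6
  obtain ⟨k, hk⟩ := (hS.to_le hPS) ⟨w, hwP⟩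
  have hk' : w ^ p ^ k = 1 := congrArg Subtype.val hk
  have h5 : orderOf w ∣ Nat.gcd (orderOf α) (p ^ k) :=
    Nat.dvd_gcd (orderOf_dvd_of_pow_eq_one h4) (orderOf_dvd_of_pow_eq_one hk')
  rw [(hcop.pow_right k), Nat.dvd_one, orderOf_eq_one_iff] at h5
  rw [hαz, h5]
  simp

/-- If `Aut_E(P)` fixes `z` and extends by the identity on `x z`, it extends by the identity on `x`. -/
theorem fx_of_fix {P : Subgroup Ω} {x z : Ω} (hz : z ∈ P) {f : Ω → Ω} (hf : f z = z)
    (h : Fx F (x * z) P f) : Fx F x P f := by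
  obtain ⟨g, hg, h1, h2⟩ := h
  have hPm' : P ≤ P ⊔ Subgroup.zpowers (x * z) := le_sup_left
  have hxm : x ∈ P ⊔ Subgroup.zpowers (x * z) := by
    have h3 := mul_mem (mem_sup_zpowers P (x * z)) (Subgroup.inv_mem _ (hPm' hz))
    rwa [mul_inv_cancel_right] at h3
  have hle : P ⊔ Subgroup.zpowers x ≤ P ⊔ Subgroup.zpowers (x * z) :=
    sup_le hPm' (by rw [Subgroup.zpowers_le]; exact hxm)
  refine ⟨g, hg.res hle, h1, ?_⟩
  have h3 : g (x * z) = g x * g z := hg.mul hxm (hPm' hz)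
  rw [h2, h1 z hz, hf] at h3
  exact (mul_right_cancel h3).symm

end Cfsg.Agent.H769
end

-- part: H769/NsMl
section
/-!
# The two local steps (helper769)

`P` `E`-centric and fully normalized in `F`, `x ∈ C_S(T)`. If the automorphisms in `E` of `Q₁ = P J(N_T(P))`
(`p` odd), or of `Q₁ = C_{N_T(P)}(Z(P))`, extend to maps of `F` fixing `x`, then so do those of `P`.
-/

set_option autoImplicit false

namespace Cfsg.Agent.H769

open Cfsg Cfsg.FusionSystem Cfsg.Agent.H752

section general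

variable {Ω : Type*} [Group Ω] {S T : Subgroup Ω} {p : ℕ} {F : FusionSystem S} {E : FusionSystem T}

/-- The elements of `Aut_E(P)` normalizing `Aut_{Q₁}(P)` fix `z`. -/
theorem fixed_of_normalizes [Finite S] [Fact p.Prime] (hS : IsPGroup p S) (hE : E.IsNormalIn F p)
    {P Q₁ : Subgroup Ω} (hPn : F.IsFullyNormalized P) (hPc : E.IsCentric P) (hPQ : P ≤ Q₁)
    (hQN : Q₁ ≤ normalizerIn T P) (hQn : normalizerIn T P ≤ Subgroup.normalizer (Q₁ : Set Ω))
    {x z : Ω} (hx : x ∈ centralizerIn S P) (hz : z ∈ P) (hzN : ∀ t ∈ normalizerIn T P, t * z = z * t)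
    (hgood : ∀ f, Mp E Q₁ f → (∀ y ∈ Q₁, f y ∈ Q₁) → Fx F x Q₁ f)
    (hfix : ∀ α ∈ E.autGroup P, Fx F (x * z) P (H770.ac α)) :
    ∀ α ∈ E.autGroup P, (∀ δ ∈ autInducedBy Q₁ P, α * δ * α⁻¹ ∈ autInducedBy Q₁ P) →
      H770.ac α z = z := by
  have hF : F.IsSaturated p := hE.1.2.1
  have hEs : E.IsSaturated p := hE.1.1
  have hinv : E.IsInvariantIn F := hE.1.2.2
  have hT : F.StronglyClosed T := hinv.2.1
  have hTS : T ≤ S := hT.1
  have hfinT : Finite T := H802.finite_of_le hTS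
  have hTp : IsPGroup p T := hS.to_le hTS
  have hPT : P ≤ T := hPc.1
  have hPS : P ≤ S := hPT.trans hTS
  have hfinP : Finite P := H802.finite_of_le hPS
  have hTC : H756.TC F T P := (H756.isCentric_iff_tc hinv).1 hPc
  have hPE : E.IsFullyNormalized P := H755.isFullyNormalized_sub hS hF hinv.1 hT hPT hPn
  have hPEa := H802.isFullyAutomized_of_isFullyNormalized hTp hEs hPE
  have hPEr := H802.isReceptive_of_isFullyNormalized hTp hEs hPE
  obtain ⟨R, hR⟩ := hPEa.2
  have hfinMP : Finite (MulAut P) := H758.finite_mulAut P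
  have hQT : Q₁ ≤ T := hQN.trans inf_le_left
  let D : Subgroup (E.autGroup P) := (autInducedBy Q₁ P).subgroupOf (E.autGroup P)
  let H : Subgroup (E.autGroup P) := Subgroup.normalizer (D : Set (E.autGroup P))
  have hHmem : ∀ α ∈ E.autGroup P, (∀ δ ∈ autInducedBy Q₁ P, α * δ * α⁻¹ ∈ autInducedBy Q₁ P) →
      ∀ hα : α ∈ E.autGroup P, (⟨α, hα⟩ : E.autGroup P) ∈ H := by
    intro α _ h hα
    exact H802.mem_normalizer_of_conj_mem (le_refl D) fun δ hδ => h δ hδ
  have hHmem' : ∀ a : E.autGroup P, a ∈ H → ∀ δ ∈ autInducedBy Q₁ P,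
      (a : MulAut P) * δ * (a : MulAut P)⁻¹ ∈ autInducedBy Q₁ P := by
    intro a ha δ hδ
    have hδE : δ ∈ E.autGroup P := by
      obtain ⟨q, hq, h1⟩ := (H802.mem_autInducedBy_iff _ _ _).1 hδ
      exact H802.autInducedBy_le_autGroup E hPT
        ((H802.mem_autInducedBy_iff _ _ _).2 ⟨q, hQT hq, h1⟩)
    exact (Subgroup.mem_normalizer_iff.1 ha ⟨δ, hδE⟩).1 hδ
  let M : Subgroup H :=
    { carrier := {a | H770.ac (((a : H) : E.autGroup P) : MulAut P) z = z}
      one_mem' := H770.ac_one hz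
      mul_mem' := by
        intro a b ha hb
        show H770.ac (_ * _) z = z
        have h1 : H770.ac (((b : H) : E.autGroup P) : MulAut P) z = z := hb
        have h2 : H770.ac (((a : H) : E.autGroup P) : MulAut P) z = z := ha
        have h3 := H770.ac_mul (((a : H) : E.autGroup P) : MulAut P)
          (((b : H) : E.autGroup P) : MulAut P) hz
        rw [h1, h2] at h3
        exact h3
      inv_mem' := by
        intro a ha
        have h2 : H770.ac (((a : H) : E.autGroup P) : MulAut P) z = z := ha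
        have h3 := H770.ac_inv_ac (((a : H) : E.autGroup P) : MulAut P) hz
        rw [h2] at h3
        exact h3 }
  have hRt : ∀ a ∈ (R : Subgroup (E.autGroup P)), ∃ t ∈ normalizerIn T P,
      ∀ y : P, (((a : MulAut P) y : P) : Ω) = t * y * t⁻¹ := by
    intro a ha
    rw [hR] at ha
    obtain ⟨t, ht, h1⟩ := (H802.mem_autInducedBy_iff T P _).1 ha
    exact ⟨t, ⟨ht, H802.mem_normalizer_of_aut h1⟩, h1⟩
  have hRH : (R : Subgroup (E.autGroup P)) ≤ H := by
    intro a ha
    obtain ⟨t, ht, h1⟩ := hRt a ha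
    refine hHmem a a.2 (fun δ hδ => ?_) a.2
    obtain ⟨q, hq, h2⟩ := (H802.mem_autInducedBy_iff _ _ _).1 hδ
    refine (H802.mem_autInducedBy_iff _ _ _).2
      ⟨t * q * t⁻¹, (Subgroup.mem_normalizer_iff.1 (hQn ht) q).1 hq, fun y => ?_⟩
    have h3 : (((a : MulAut P)⁻¹ y : P) : Ω) = t⁻¹ * y * t := by
      have h4 := h1 ((a : MulAut P)⁻¹ y)
      rw [MulAut.apply_inv_self] at h4
      rw [h4]
      group
    show (((a : MulAut P) (δ ((a : MulAut P)⁻¹ y)) : P) : Ω) = _
    rw [h1, h2, h3]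
    group
  have hMtop : M = ⊤ := by
    refine H792.gen_top_of_sylow (R.subtype hRH) M (fun a ha => ?_) (fun a ha => ?_)
    · -- `p'`-elements
      obtain ⟨α, hα⟩ : ∃ α : MulAut P, α = (((a : H) : E.autGroup P) : MulAut P) := ⟨_, rfl⟩
      have hαE : α ∈ E.autGroup P := by rw [hα]; exact ((a : H) : E.autGroup P).2
      have hnorm := hHmem' (a : H) (a : H).2
      rw [← hα] at hnorm
      have hcop : Nat.Coprime (orderOf α) p := by
        rw [hα, Subgroup.orderOf_coe, Subgroup.orderOf_coe]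
        exact ha
      show H770.ac (((a : H) : E.autGroup P) : MulAut P) z = z
      rw [← hα]
      have hαm : Mp E P (H770.ac α) := H770.mp_ac hPT hαE
      obtain ⟨M', L, hL, hPM, hLe, hLM⟩ := H753.mp_extend hPEr hαm (H770.im_ac α)
      have hq : ∀ q ∈ Q₁, ∃ q' ∈ Q₁, ∀ y ∈ P, H770.ac α (q * y * q⁻¹) = q' * H770.ac α y * q'⁻¹ := by
        intro q hq
        have hqn : q ∈ Subgroup.normalizer (P : Set Ω) := (hQN hq).2
        obtain ⟨δ, hδ⟩ := H802.exists_conjAut hqn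
        obtain ⟨q', hq', h1⟩ := (H802.mem_autInducedBy_iff _ _ _).1
          (hnorm δ ((H802.mem_autInducedBy_iff _ _ _).2 ⟨q, hq, hδ⟩))
        refine ⟨q', hq', fun y hy => ?_⟩
        have h2 := h1 (α ⟨y, hy⟩)
        have h3 : (α * δ * α⁻¹) (α ⟨y, hy⟩) = α (δ ⟨y, hy⟩) := by
          show α (δ (α⁻¹ (α ⟨y, hy⟩))) = _
          rw [MulAut.inv_apply_self]
        rw [h3] at h2
        have h4 : q * y * q⁻¹ ∈ P := (Subgroup.mem_normalizer_iff.1 hqn y).1 hy
        have h5 : δ ⟨y, hy⟩ = ⟨q * y * q⁻¹, h4⟩ := Subtype.ext (hδ ⟨y, hy⟩)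
        rw [H770.ac_apply _ h4, H770.ac_apply _ hy, ← h2, h5]
      have hQM : Q₁ ≤ M' := by
        intro q hq₁
        obtain ⟨q', hq', h1⟩ := hq q hq₁
        exact hLM q (hQT hq₁) (hQN hq₁).2 ⟨q', hQT hq', h1⟩
      have hLQ : ∀ q ∈ Q₁, L q ∈ Q₁ := by
        intro q hq₁
        obtain ⟨q', hq', h1⟩ := hq q hq₁
        have h2 : q'⁻¹ * L q ∈ P := by
          refine hTC.self hTS (T.mul_mem (T.inv_mem (hQT hq')) (hL.mem (hQM hq₁))) fun y hy => ?_
          obtain ⟨u, hu, rfl⟩ := ((H770.im_ac α) y).1 hy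
          have h3 := h1 u hu
          have h4 : q * u * q⁻¹ ∈ P := (Subgroup.mem_normalizer_iff.1 (hQN hq₁).2 u).1 hu
          rw [← hLe _ h4, hL.mul (mul_mem (hQM hq₁) (hPM hu)) (M'.inv_mem (hQM hq₁)),
            hL.mul (hQM hq₁) (hPM hu), hL.inv (hQM hq₁), hLe u hu] at h3
          calc H770.ac α u * (q'⁻¹ * L q)
              = q'⁻¹ * (q' * H770.ac α u * q'⁻¹) * L q := by group
            _ = q'⁻¹ * (L q * H770.ac α u * (L q)⁻¹) * L q := by rw [h3]
            _ = q'⁻¹ * L q * H770.ac α u := by group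
        have h3 := mul_mem hq' (hPQ h2)
        rwa [mul_inv_cancel_left] at h3
      have h1 : Fx F x P (H770.ac α) :=
        ((hgood L (hL.res hQM) hLQ).res hPQ).congr fun y hy => (hLe y hy).symm
      exact fix_of_two hS hE hPc hx hz hαE hcop h1 (hfix α hαE)
    · obtain ⟨t, ht, h1⟩ := hRt (a : H) ha
      show H770.ac (((a : H) : E.autGroup P) : MulAut P) z = z
      rw [H770.ac_apply _ hz, h1]
      show t * z * t⁻¹ = z
      rw [hzN t ht]
      group
  intro α hα hnorm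
  have h1 := hHmem α hα hnorm hα
  have h2 : (⟨⟨α, hα⟩, h1⟩ : H) ∈ M := by rw [hMtop]; trivial
  exact h2

/-- The intersection of a Sylow subgroup with a normal subgroup has index prime to `p` in it. -/
theorem not_dvd_relIndex {A : Type*} [Group A] [Finite A] [Fact p.Prime] (R : Sylow p A)
    (C : Subgroup A) [C.Normal] : ¬ p ∣ (R : Subgroup A).relIndex C := by
  have h1 : (R ⊓ C : Subgroup A).relIndex C * C.relIndex (R ⊔ C) = (R ⊓ C : Subgroup A).relIndex (R ⊔ C) :=
    Subgroup.relIndex_mul_relIndex _ _ _ inf_le_right le_sup_right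
  have h2 : (R ⊓ C : Subgroup A).relIndex R * (R : Subgroup A).relIndex (R ⊔ C) =
      (R ⊓ C : Subgroup A).relIndex (R ⊔ C) :=
    Subgroup.relIndex_mul_relIndex _ _ _ inf_le_left le_sup_left
  have h3 : (R ⊓ C : Subgroup A).relIndex R = C.relIndex (R ⊔ C) := by
    rw [Subgroup.inf_relIndex_left, Subgroup.relIndex_sup_right]
  rw [Subgroup.inf_relIndex_right] at h1
  have h4 : C.relIndex (R ⊔ C) ≠ 0 := by
    rw [Subgroup.relIndex]
    exact Subgroup.index_ne_zero_of_finite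
  have h5 : (R : Subgroup A).relIndex C = (R : Subgroup A).relIndex (R ⊔ C) := by
    apply Nat.eq_of_mul_eq_mul_left (Nat.pos_of_ne_zero h4)
    rw [mul_comm, h1, ← h2, h3]
  rw [h5]
  intro h6
  exact R.not_dvd_index (h6.trans (Subgroup.relIndex_dvd_index_of_le le_sup_left))

/-- **The central step**: `Q₁ = C_{N_T(P)}(Z(P))`. -/
theorem fx_of_central [Finite S] [Fact p.Prime] (hS : IsPGroup p S) (hE : E.IsNormalIn F p)
    {P : Subgroup Ω} (hPn : F.IsFullyNormalized P) (hPc : E.IsCentric P)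
    {x : Ω} (hx : x ∈ centralizerIn S T)
    (hgood : ∀ f, Mp E (normalizerIn T P ⊓ Subgroup.centralizer
        ((P ⊓ Subgroup.centralizer (P : Set Ω) : Subgroup Ω) : Set Ω)) f →
      (∀ y ∈ normalizerIn T P ⊓ Subgroup.centralizer
        ((P ⊓ Subgroup.centralizer (P : Set Ω) : Subgroup Ω) : Set Ω),
        f y ∈ normalizerIn T P ⊓ Subgroup.centralizer
          ((P ⊓ Subgroup.centralizer (P : Set Ω) : Subgroup Ω) : Set Ω)) →
      Fx F x (normalizerIn T P ⊓ Subgroup.centralizer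
        ((P ⊓ Subgroup.centralizer (P : Set Ω) : Subgroup Ω) : Set Ω)) f) :
    ∀ α ∈ E.autGroup P, Fx F x P (H770.ac α) := by
  have hF : F.IsSaturated p := hE.1.2.1
  have hEs : E.IsSaturated p := hE.1.1
  have hinv : E.IsInvariantIn F := hE.1.2.2
  have hT : F.StronglyClosed T := hinv.2.1
  have hTS : T ≤ S := hT.1
  have hfinT : Finite T := H802.finite_of_le hTS
  have hTp : IsPGroup p T := hS.to_le hTS
  have hPT : P ≤ T := hPc.1
  have hPS : P ≤ S := hPT.trans hTS
  have hfinP : Finite P := H802.finite_of_le hPS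
  have hPE : E.IsFullyNormalized P := H755.isFullyNormalized_sub hS hF hinv.1 hT hPT hPn
  have hPEa := H802.isFullyAutomized_of_isFullyNormalized hTp hEs hPE
  obtain ⟨R, hR⟩ := hPEa.2
  have hfinMP : Finite (MulAut P) := H758.finite_mulAut P
  have hPN : P ≤ normalizerIn T P := H802.le_normalizerIn hPT
  obtain ⟨Z, hZ⟩ : ∃ Z : Subgroup Ω, Z = P ⊓ Subgroup.centralizer (P : Set Ω) := ⟨_, rfl⟩
  obtain ⟨Q₁, hQ₁⟩ : ∃ Q₁, Q₁ = normalizerIn T P ⊓ Subgroup.centralizer (Z : Set Ω) := ⟨_, rfl⟩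
  rw [← hZ, ← hQ₁] at hgood
  have hPQ : P ≤ Q₁ := by
    rw [hQ₁]
    refine le_inf hPN fun y hy => Subgroup.mem_centralizer_iff.2 fun u hu => ?_
    rw [hZ] at hu
    exact (Subgroup.mem_centralizer_iff.1 hu.2 y hy).symm
  have hQN : Q₁ ≤ normalizerIn T P := by rw [hQ₁]; exact inf_le_left
  have hZn : ∀ t ∈ Subgroup.normalizer (P : Set Ω), ∀ u ∈ Z, t * u * t⁻¹ ∈ Z := by
    intro t ht u hu
    rw [hZ] at hu ⊢
    refine ⟨(Subgroup.mem_normalizer_iff.1 ht u).1 hu.1, Subgroup.mem_centralizer_iff.2 fun y hy => ?_⟩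
    have h1 : t⁻¹ * y * t ∈ P := by
      have := (Subgroup.mem_normalizer_iff.1 (Subgroup.inv_mem _ ht) y).1 hy
      rwa [inv_inv] at this
    have h2 := Subgroup.mem_centralizer_iff.1 hu.2 _ h1
    calc y * (t * u * t⁻¹) = t * ((t⁻¹ * y * t) * u) * t⁻¹ := by group
      _ = t * (u * (t⁻¹ * y * t)) * t⁻¹ := by rw [h2]
      _ = t * u * t⁻¹ * y := by group
  have hQn : normalizerIn T P ≤ Subgroup.normalizer (Q₁ : Set Ω) := by
    intro t ht
    have hQS : Q₁ ≤ S := (hQN.trans inf_le_left).trans hTS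
    have hfinS : Finite S := inferInstance
    refine H802.mem_normalizer_of_conj_mem hQS fun q hq => ?_
    rw [hQ₁] at hq ⊢
    refine ⟨mul_mem (mul_mem ht hq.1) ((normalizerIn T P).inv_mem ht),
      Subgroup.mem_centralizer_iff.2 fun u hu => ?_⟩
    have h1 : t⁻¹ * u * t ∈ Z := by
      have := hZn t⁻¹ (Subgroup.inv_mem _ ht.2) u hu
      rwa [inv_inv] at this
    have h2 := Subgroup.mem_centralizer_iff.1 hq.2 _ h1
    calc u * (t * q * t⁻¹) = t * ((t⁻¹ * u * t) * q) * t⁻¹ := by group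
      _ = t * (q * (t⁻¹ * u * t)) * t⁻¹ := by rw [h2]
      _ = t * q * t⁻¹ * u := by group
  have hxN : x ∈ centralizerIn S (normalizerIn T P) := centralizerIn_mono inf_le_left hx
  have hxP : x ∈ centralizerIn S P := centralizerIn_mono hPT hx
  obtain ⟨z, hz, hzN, hfix₀⟩ := exists_fix hS hE hPn hPc hxN
  have hxz : x * z ∈ P ⊔ centralizerIn S P :=
    mul_mem ((le_sup_right : centralizerIn S P ≤ _) hxP) ((le_sup_left : P ≤ _) hz)
  have hfix : ∀ α ∈ E.autGroup P, Fx F (x * z) P (H770.ac α) := by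
    intro α hα
    obtain ⟨g, hg, h1, h2, -⟩ := hfix₀ α hα
    refine ⟨g, hg.res (sup_le le_sup_left (by rw [Subgroup.zpowers_le]; exact hxz)),
      fun y hy => by rw [h1 y hy, H770.ac_apply _ hy], h2⟩
  have hzZ : z ∈ Z := by
    rw [hZ]
    exact ⟨hz, Subgroup.mem_centralizer_iff.2 fun y hy => hzN y (hPN hy)⟩
  have hmid := fixed_of_normalizes hS hE hPn hPc hPQ hQN hQn hxP hz hzN hgood hfix
  -- the subgroup acting trivially on `Z`
  have hacZ : ∀ (a : MulAut P) {u : Ω}, u ∈ Z → H770.ac a u ∈ Z := by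
    intro a u hu
    rw [hZ] at hu ⊢
    refine ⟨H770.ac_mem a hu.1, Subgroup.mem_centralizer_iff.2 fun y hy => ?_⟩
    obtain ⟨v, hv, rfl⟩ := ((H770.im_ac a) y).1 hy
    rw [H770.ac_apply _ hu.1, H770.ac_apply _ hv]
    have h1 : (⟨v, hv⟩ : P) * ⟨u, hu.1⟩ = ⟨u, hu.1⟩ * ⟨v, hv⟩ :=
      Subtype.ext (Subgroup.mem_centralizer_iff.1 hu.2 v hv)
    have h2 : a ⟨v, hv⟩ * a ⟨u, hu.1⟩ = a ⟨u, hu.1⟩ * a ⟨v, hv⟩ := by
      rw [← map_mul, h1, map_mul]
    exact congrArg Subtype.val h2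
  let C : Subgroup (E.autGroup P) :=
    { carrier := {a | ∀ u ∈ Z, H770.ac (a : MulAut P) u = u}
      one_mem' := fun u hu => H770.ac_one (by rw [hZ] at hu; exact hu.1)
      mul_mem' := by
        intro a b ha hb u hu
        have huP : u ∈ P := by rw [hZ] at hu; exact hu.1
        show H770.ac ((a : MulAut P) * (b : MulAut P)) u = u
        rw [H770.ac_mul _ _ huP, hb u hu, ha u hu]
      inv_mem' := by
        intro a ha u hu
        have huP : u ∈ P := by rw [hZ] at hu; exact hu.1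
        have h1 := H770.ac_inv_ac (a : MulAut P) huP
        rw [ha u hu] at h1
        exact h1 }
  have hCn : C.Normal := by
    refine ⟨fun a ha g u hu => ?_⟩
    have huP : u ∈ P := by rw [hZ] at hu; exact hu.1
    have h1 : H770.ac (g : MulAut P)⁻¹ u ∈ Z := hacZ _ hu
    have h1P : H770.ac (g : MulAut P)⁻¹ u ∈ P := H770.ac_mem _ huP
    have h2 : H770.ac ((g : MulAut P) * (a : MulAut P) * (g : MulAut P)⁻¹) u = u := by
      rw [H770.ac_mul _ _ huP, H770.ac_mul _ _ h1P, ha _ h1, H770.ac_ac_inv _ huP]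
    exact h2
  have hRC : ¬ p ∣ ((R : Subgroup (E.autGroup P)).subgroupOf C).index := not_dvd_relIndex R C
  have hRCp : IsPGroup p ((R : Subgroup (E.autGroup P)).subgroupOf C) :=
    (R.2.comap_of_injective C.subtype C.subtype_injective)
  let RC : Sylow p C := hRCp.toSylow hRC
  have hfrat := Sylow.normalizer_sup_eq_top RC
  -- `z` is fixed
  let M : Subgroup (E.autGroup P) :=
    { carrier := {a | H770.ac (a : MulAut P) z = z}
      one_mem' := H770.ac_one hz
      mul_mem' := by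
        intro a b ha hb
        have h1 : H770.ac (b : MulAut P) z = z := hb
        have h2 : H770.ac (a : MulAut P) z = z := ha
        show H770.ac ((a : MulAut P) * (b : MulAut P)) z = z
        rw [H770.ac_mul _ _ hz, h1, h2]
      inv_mem' := by
        intro a ha
        have h2 : H770.ac (a : MulAut P) z = z := ha
        have h3 := H770.ac_inv_ac (a : MulAut P) hz
        rw [h2] at h3
        exact h3 }
  have hMtop : M = ⊤ := by
    rw [eq_top_iff, ← hfrat]
    refine sup_le (fun a ha => ?_) (fun a ha => ha z hzZ)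
    refine hmid a a.2 fun δ hδ => ?_
    obtain ⟨q, hq, hδq⟩ := (H802.mem_autInducedBy_iff _ _ _).1 hδ
    have hqN := hQN hq
    have hδE : δ ∈ E.autGroup P := H802.autInducedBy_le_autGroup E hPT
      ((H802.mem_autInducedBy_iff _ _ _).2 ⟨q, hqN.1, hδq⟩)
    have hδC : (⟨δ, hδE⟩ : E.autGroup P) ∈ C := by
      intro u hu
      have huP : u ∈ P := by rw [hZ] at hu; exact hu.1
      rw [H770.ac_apply _ huP]
      show ((δ ⟨u, huP⟩ : P) : Ω) = u
      rw [hδq]
      have h1 : u * q = q * u := by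
        rw [hQ₁] at hq
        exact Subgroup.mem_centralizer_iff.1 hq.2 u hu
      show q * u * q⁻¹ = u
      rw [← h1]
      group
    have hδR : (⟨δ, hδE⟩ : E.autGroup P) ∈ (R : Subgroup (E.autGroup P)) := by
      rw [hR]
      exact (H802.mem_autInducedBy_iff _ _ _).2 ⟨q, hqN.1, hδq⟩
    have hδRC : (⟨δ, hδE⟩ : E.autGroup P) ∈ (RC : Subgroup C).map C.subtype :=
      ⟨⟨⟨δ, hδE⟩, hδC⟩, hδR, rfl⟩
    have h1 := (Subgroup.mem_normalizer_iff.1 ha ⟨δ, hδE⟩).1 hδRC
    obtain ⟨⟨c, hcC⟩, hcR, hc⟩ := h1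
    have hcR' : c ∈ (R : Subgroup (E.autGroup P)) := hcR
    have hc' : c = a * ⟨δ, hδE⟩ * a⁻¹ := hc
    rw [hR] at hcR'
    obtain ⟨t, ht, h2⟩ := (H802.mem_autInducedBy_iff T P _).1 hcR'
    have h3 : (c : MulAut P) = (a : MulAut P) * δ * (a : MulAut P)⁻¹ := by rw [hc']; rfl
    rw [← h3]
    refine (H802.mem_autInducedBy_iff _ _ _).2 ⟨t, ?_, h2⟩
    rw [hQ₁]
    refine ⟨⟨ht, H802.mem_normalizer_of_aut h2⟩, Subgroup.mem_centralizer_iff.2 fun u hu => ?_⟩
    have huP : u ∈ P := by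
      have hu' : u ∈ Z := hu
      rw [hZ] at hu'; exact hu'.1
    have h4 := hcC u hu
    rw [H770.ac_apply _ huP] at h4
    have h5 : (((c : MulAut P) ⟨u, huP⟩ : P) : Ω) = t * u * t⁻¹ := h2 ⟨u, huP⟩
    have h6 : u = t * u * t⁻¹ := by rw [← h5, h4]
    calc u * t = t * u * t⁻¹ * t := by rw [← h6]
      _ = t * u := by group
  intro α hα
  have h1 : (⟨α, hα⟩ : E.autGroup P) ∈ M := by rw [hMtop]; trivial
  exact fx_of_fix hz h1 (hfix α hα)

end general

end Cfsg.Agent.H769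
end

-- part: H769/NsTh
section
/-!
# The Thompson step (helper769)

`p` odd, `P` `E`-centric and fully normalized in `F`, `x ∈ C_S(T)`. If the automorphisms in `E` of
`Q₁ = P J(N_T(P))` extend to maps of `F` fixing `x`, then so do those of `P`.
-/

set_option autoImplicit false

namespace Cfsg.Agent.H769

open Cfsg Cfsg.FusionSystem Cfsg.Agent.H752 Cfsg.Agent.PLocal.ThompsonJA

universe u

variable {Ω : Type u} [Group Ω] {S T : Subgroup Ω} {p : ℕ} {F : FusionSystem S} {E : FusionSystem T}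

/-- **The Thompson step**: `Q₁ = P J(N_T(P))`, `p` odd. -/
theorem fx_of_thompson [Finite S] [Fact p.Prime] (hp : p ≠ 2) (hS : IsPGroup p S)
    (hE : E.IsNormalIn F p) {P : Subgroup Ω} (hPn : F.IsFullyNormalized P) (hPc : E.IsCentric P)
    {x : Ω} (hx : x ∈ centralizerIn S T)
    (hgood : ∀ f, Mp E (P ⊔ thompsonSubgroupAOf (normalizerIn T P)) f →
      (∀ y ∈ P ⊔ thompsonSubgroupAOf (normalizerIn T P),
        f y ∈ P ⊔ thompsonSubgroupAOf (normalizerIn T P)) →
      Fx F x (P ⊔ thompsonSubgroupAOf (normalizerIn T P)) f) :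
    ∀ α ∈ E.autGroup P, Fx F x P (H770.ac α) := by
  have hF : F.IsSaturated p := hE.1.2.1
  have hEs : E.IsSaturated p := hE.1.1
  have hinv : E.IsInvariantIn F := hE.1.2.2
  have hT : F.StronglyClosed T := hinv.2.1
  have hTS : T ≤ S := hT.1
  have hfinT : Finite T := H802.finite_of_le hTS
  have hTp : IsPGroup p T := hS.to_le hTS
  have hPT : P ≤ T := hPc.1
  have hPS : P ≤ S := hPT.trans hTS
  have hfinP : Finite P := H802.finite_of_le hPS
  have hPE : E.IsFullyNormalized P := H755.isFullyNormalized_sub hS hF hinv.1 hT hPT hPn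
  have hPN : P ≤ normalizerIn T P := H802.le_normalizerIn hPT
  have hNp : IsPGroup p (normalizerIn T P) := hTp.to_le inf_le_left
  have hfinN : Finite (normalizerIn T P) := H802.finite_of_le inf_le_left
  obtain ⟨J, hJ⟩ : ∃ J, J = thompsonSubgroupAOf (normalizerIn T P) := ⟨_, rfl⟩
  obtain ⟨Q₁, hQ₁⟩ : ∃ Q₁, Q₁ = P ⊔ J := ⟨_, rfl⟩
  rw [← hJ, ← hQ₁] at hgood
  have hJN : J ≤ normalizerIn T P := by rw [hJ]; exact thompsonSubgroupAOf_le _
  have hPQ : P ≤ Q₁ := by rw [hQ₁]; exact le_sup_left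
  have hJQ : J ≤ Q₁ := by rw [hQ₁]; exact le_sup_right
  have hQN : Q₁ ≤ normalizerIn T P := by rw [hQ₁]; exact sup_le hPN hJN
  have hfinQ : Finite Q₁ := H802.finite_of_le hQN
  have hNJ : normalizerIn T P ≤ Subgroup.normalizer (J : Set Ω) := by
    rw [hJ]
    exact Subgroup.le_normalizer.trans (normalizer_le_normalizer_thompsonSubgroupAOf _)
  have hQn : normalizerIn T P ≤ Subgroup.normalizer (Q₁ : Set Ω) := by
    intro t ht
    refine H802.mem_normalizer_of_conj_mem (le_refl Q₁) ?_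
    have h1 : Q₁ ≤ Q₁.comap (MulAut.conj t).toMonoidHom := by
      nth_rw 1 [hQ₁]
      refine sup_le (fun y hy => ?_) (fun y hy => ?_)
      · exact hPQ ((Subgroup.mem_normalizer_iff.1 ht.2 y).1 hy)
      · exact hJQ ((Subgroup.mem_normalizer_iff.1 (hNJ ht) y).1 hy)
    intro q hq
    exact h1 hq
  have hxN : x ∈ centralizerIn S (normalizerIn T P) := centralizerIn_mono inf_le_left hx
  have hxP : x ∈ centralizerIn S P := centralizerIn_mono hPT hx
  obtain ⟨z, hz, hzN, hfix₀⟩ := exists_fix hS hE hPn hPc hxN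
  have hxz : x * z ∈ P ⊔ centralizerIn S P :=
    mul_mem ((le_sup_right : centralizerIn S P ≤ _) hxP) ((le_sup_left : P ≤ _) hz)
  have hfix : ∀ α ∈ E.autGroup P, Fx F (x * z) P (H770.ac α) := by
    intro α hα
    obtain ⟨g, hg, h1, h2, -⟩ := hfix₀ α hα
    refine ⟨g, hg.res (sup_le le_sup_left (by rw [Subgroup.zpowers_le]; exact hxz)),
      fun y hy => by rw [h1 y hy, H770.ac_apply _ hy], h2⟩
  have hmid := fixed_of_normalizes hS hE hPn hPc hPQ hQN hQn hxP hz hzN hgood hfix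
  obtain ⟨N, hN⟩ := H802.exists_normalizerSystem E hPT
  have hNs : N.IsSaturated p := H802.normalizerSystem_isSaturated hTp hEs hPE hN
  have hzc : z ∈ N.center := by
    refine (H793.mem_center_iff_odd hp hNp hNs z).2
      ⟨⟨hPN hz, Subgroup.mem_centralizer_iff.2 fun t ht => hzN t ht⟩, ?_⟩
    rw [← hJ]
    intro f hf hfJ hzJ
    obtain ⟨-, -, k, hk, hkf, hkP⟩ := (H770.mp_normalizerSystem_iff hN).1 hf
    have hkP' : ∀ y ∈ P, k y ∈ P := fun y hy => hkP.apply hy
    obtain ⟨α, hα, hkα⟩ := (hk.res le_sup_right).exists_aut hkP'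
    have hkQ : ∀ y ∈ J ⊔ P, k y ∈ Q₁ := by
      refine H754.mp_sup_mem hk (fun y hy => ?_) (fun y hy => ?_)
      · rw [hkf y hy]
        exact hJQ (hfJ y hy)
      · exact hPQ (hkP' y hy)
    have h1 : H770.ac α z = z := by
      refine hmid α hα fun δ hδ => ?_
      obtain ⟨q, hq, hδq⟩ := (H802.mem_autInducedBy_iff _ _ _).1 hδ
      have hqJ : q ∈ J ⊔ P := by rw [sup_comm, ← hQ₁]; exact hq
      refine (H802.mem_autInducedBy_iff _ _ _).2 ⟨k q, hkQ q hqJ, fun y => ?_⟩
      obtain ⟨u, rfl⟩ : ∃ u, y = α u := ⟨α⁻¹ y, (MulAut.apply_inv_self _ _ _).symm⟩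
      have h2 : (α * δ * α⁻¹) (α u) = α (δ u) := by
        show α (δ (α⁻¹ (α u))) = _
        rw [MulAut.inv_apply_self]
      have hu : (u : Ω) ∈ J ⊔ P := (le_sup_right : P ≤ _) u.2
      rw [h2]
      have h3 : ((α (δ u) : P) : Ω) = k ((δ u : P) : Ω) := (hkα _ (δ u).2).symm
      have h4 : ((α u : P) : Ω) = k (u : Ω) := (hkα _ u.2).symm
      rw [h3, h4, hδq, hk.mul (mul_mem hqJ hu) ((J ⊔ P).inv_mem hqJ), hk.mul hqJ hu, hk.inv hqJ]
    rw [← hkf z hzJ]
    have h2 := hkα z hz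
    rw [h2, ← H770.ac_apply _ hz]
    exact h1
  intro α hα
  have h1 : Mp N P (H770.ac α) :=
    (H770.mp_normalizerSystem_iff' hN hPT le_rfl).2
      ⟨H770.mp_ac hPT hα, hPN, fun y hy => H770.ac_mem α hy⟩
  obtain ⟨φ, hφ, hφe⟩ := h1
  have h2 : φ ⟨z, hz⟩ = z := H757.center_apply_eq hφ (x := ⟨z, hz⟩) hzc
  have h3 : H770.ac α z = z := by
    rw [← hφe z hz]
    exact h2
  exact fx_of_fix hz h3 (hfix α hα)

end Cfsg.Agent.H769
end

-- part: H769/NsW
section
/-!
# The weight of a subgroup (helper769)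

`dA P` is the largest order of an abelian subgroup of `P`; `v` orders by `dA P` and after that by `|J(P)|`, and `w`
orders by `v` and after that by `|P|`.
-/

set_option autoImplicit false

namespace Cfsg.Agent.H769

open Cfsg Cfsg.FusionSystem Cfsg.Agent.H752 Cfsg.Agent.PLocal.ThompsonJA

section

variable {G : Type*} [Group G]

/-- The largest order of an abelian subgroup. -/
noncomputable def dA (P : Subgroup G) : ℕ :=
  sSup {n | ∃ A : Subgroup G, A ≤ P ∧ IsMulCommutative A ∧ Nat.card A = n}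

theorem dA_bdd (P : Subgroup G) [Finite P] :
    BddAbove {n | ∃ A : Subgroup G, A ≤ P ∧ IsMulCommutative A ∧ Nat.card A = n} :=
  ⟨Nat.card P, by rintro _ ⟨A, hA, -, rfl⟩; exact Subgroup.card_le_of_le hA⟩

theorem card_le_dA {P A : Subgroup G} [Finite P] (hA : A ≤ P) (hc : IsMulCommutative A) :
    Nat.card A ≤ dA P := le_csSup (dA_bdd P) ⟨A, hA, hc, rfl⟩

theorem exists_dA (P : Subgroup G) [Finite P] :
    ∃ A : Subgroup G, A ≤ P ∧ IsMulCommutative A ∧ Nat.card A = dA P :=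
  Nat.sSup_mem (s := {n | ∃ A : Subgroup G, A ≤ P ∧ IsMulCommutative A ∧ Nat.card A = n})
    ⟨_, ⊥, bot_le, (isMulCommutative_iff _).2 (by
      intro x hx y hy
      rw [Subgroup.mem_bot] at hx hy
      rw [hx, hy]), rfl⟩ (dA_bdd P)

theorem mem_maxAbelianIn_iff {P A : Subgroup G} [Finite P] :
    A ∈ maxAbelianIn P ↔ A ≤ P ∧ IsMulCommutative A ∧ Nat.card A = dA P := by
  constructor
  · rintro ⟨h1, h2, h3⟩
    obtain ⟨B, hB1, hB2, hB3⟩ := exists_dA P
    exact ⟨h1, h2, le_antisymm (card_le_dA h1 h2) (hB3 ▸ h3 B hB1 hB2)⟩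
  · rintro ⟨h1, h2, h3⟩
    exact ⟨h1, h2, fun B hB hBc => h3 ▸ card_le_dA hB hBc⟩

theorem exists_mem_maxAbelianIn (P : Subgroup G) [Finite P] : ∃ A, A ∈ maxAbelianIn P := by
  obtain ⟨A, hA⟩ := exists_dA P
  exact ⟨A, mem_maxAbelianIn_iff.2 hA⟩

theorem dA_mono {P Q : Subgroup G} [Finite Q] (h : P ≤ Q) : dA P ≤ dA Q := by
  have hfP : Finite P := H802.finite_of_le h
  obtain ⟨A, hA1, hA2, hA3⟩ := exists_dA P
  rw [← hA3]
  exact card_le_dA (hA1.trans h) hA2

theorem thompson_mono {P Q : Subgroup G} [Finite Q] (h : P ≤ Q) (hd : dA P = dA Q) :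
    thompsonSubgroupAOf P ≤ thompsonSubgroupAOf Q := by
  have hfP : Finite P := H802.finite_of_le h
  rw [thompsonSubgroupAOf_eq_sSup P]
  refine sSup_le fun A hA => ?_
  obtain ⟨h1, h2, h3⟩ := mem_maxAbelianIn_iff.1 hA
  exact le_thompsonSubgroupAOf (mem_maxAbelianIn_iff.2 ⟨h1.trans h, h2, h3.trans hd⟩)

/-- A subgroup centralizing an abelian subgroup of largest order lies in it. -/
theorem inf_centralizer_le {P A : Subgroup G} [Finite P] (hA : A ∈ maxAbelianIn P) :
    P ⊓ Subgroup.centralizer (A : Set G) ≤ A := by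
  obtain ⟨hAP, hAc, hAm⟩ := hA
  intro x hx
  have hxA : ∀ a ∈ A, a * x = x * a := Subgroup.mem_centralizer_iff.mp hx.2
  have hAc' := (isMulCommutative_iff A).mp hAc
  obtain ⟨B, hB⟩ : ∃ B, B = A ⊔ Subgroup.zpowers x := ⟨_, rfl⟩
  have hBP : B ≤ P := by rw [hB]; exact sup_le hAP (by rw [Subgroup.zpowers_le]; exact hx.1)
  have hfB : Finite B := H802.finite_of_le hBP
  have hBc : IsMulCommutative B := by
    rw [PLocal.ThompsonJA.isMulCommutative_iff]
    have h1 : B ≤ Subgroup.centralizer (A : Set G) := by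
      rw [hB]
      refine sup_le ?_ ?_
      · intro a ha
        exact Subgroup.mem_centralizer_iff.mpr fun b hb => hAc' b hb a ha
      · rw [Subgroup.zpowers_le]; exact hx.2
    have h2 : B ≤ Subgroup.centralizer (B : Set G) := by
      rw [Subgroup.le_centralizer_iff]
      nth_rw 1 [hB]
      refine sup_le (Subgroup.le_centralizer_iff.mp h1) ?_
      rw [Subgroup.zpowers_le, ← SetLike.mem_coe]
      refine Subgroup.mem_centralizer_iff.mpr ?_
      intro b hb
      have h3 : B ≤ Subgroup.centralizer ({x} : Set G) := by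
        rw [hB]
        refine sup_le ?_ ?_
        · intro a ha
          rw [Subgroup.mem_centralizer_singleton_iff]
          exact (hxA a ha)
        · rw [Subgroup.zpowers_le, Subgroup.mem_centralizer_singleton_iff]
      exact (Subgroup.mem_centralizer_singleton_iff.mp (h3 hb))
    intro y hy z hz
    exact (Subgroup.mem_centralizer_iff.mp (h2 hy) z hz).symm
  have hcard := hAm B hBP hBc
  have hAB : A = B := Subgroup.eq_of_le_of_card_ge (by rw [hB]; exact le_sup_left) hcard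
  rw [hAB, hB]
  exact (le_sup_right : Subgroup.zpowers x ≤ _) (Subgroup.mem_zpowers x)

/-- `C_P(J(P)) ≤ J(P)`. -/
theorem inf_centralizer_thompson_le (P : Subgroup G) [Finite P] :
    P ⊓ Subgroup.centralizer (thompsonSubgroupAOf P : Set G) ≤ thompsonSubgroupAOf P := by
  obtain ⟨A, hA⟩ := exists_mem_maxAbelianIn P
  refine le_trans ?_ ((inf_centralizer_le hA).trans (le_thompsonSubgroupAOf hA))
  exact inf_le_inf_left _ (Subgroup.centralizer_le (le_thompsonSubgroupAOf hA))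

/-- If `J(P) ≤ Q ≤ P` then `dA Q = dA P`. -/
theorem dA_eq_of_between {P Q : Subgroup G} [Finite P] (h1 : thompsonSubgroupAOf P ≤ Q)
    (h2 : Q ≤ P) : dA Q = dA P := by
  have hfQ : Finite Q := H802.finite_of_le h2
  refine le_antisymm (dA_mono h2) ?_
  obtain ⟨A, hA⟩ := exists_mem_maxAbelianIn P
  rw [← (mem_maxAbelianIn_iff.1 hA).2.2]
  exact card_le_dA ((le_thompsonSubgroupAOf hA).trans h1) hA.2.1

/-- If `J(P) ≤ Q ≤ P` then `J(Q) = J(P)`. -/
theorem thompson_eq_of_between {P Q : Subgroup G} [Finite P] (h1 : thompsonSubgroupAOf P ≤ Q)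
    (h2 : Q ≤ P) : thompsonSubgroupAOf Q = thompsonSubgroupAOf P := by
  have hfQ : Finite Q := H802.finite_of_le h2
  refine le_antisymm (thompson_mono h2 (dA_eq_of_between h1 h2)) ?_
  rw [thompsonSubgroupAOf_eq_sSup P]
  refine sSup_le fun A hA => le_thompsonSubgroupAOf (mem_maxAbelianIn_iff.2
    ⟨(le_thompsonSubgroupAOf hA).trans h1, hA.2.1, ?_⟩)
  rw [dA_eq_of_between h1 h2]
  exact (mem_maxAbelianIn_iff.1 hA).2.2

theorem thompson_thompson (P : Subgroup G) [Finite P] :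
    thompsonSubgroupAOf (thompsonSubgroupAOf P) = thompsonSubgroupAOf P :=
  thompson_eq_of_between le_rfl (thompsonSubgroupAOf_le P)

/-- The first weight. -/
noncomputable def vW (N : ℕ) (P : Subgroup G) : ℕ := dA P * (N + 1) + Nat.card (thompsonSubgroupAOf P)

/-- The second weight. -/
noncomputable def wW (N : ℕ) (P : Subgroup G) : ℕ := vW N P * (N + 1) + Nat.card P

theorem vW_mono {N : ℕ} {P Q : Subgroup G} [Finite Q] (h : P ≤ Q) (hN : Nat.card Q ≤ N) :
    vW N P ≤ vW N Q := by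
  have hfP : Finite P := H802.finite_of_le h
  have h1 : Nat.card (thompsonSubgroupAOf P) ≤ N :=
    (Subgroup.card_le_of_le ((thompsonSubgroupAOf_le P).trans h)).trans hN
  rcases (dA_mono h).eq_or_lt with h2 | h2
  · have hfJ : Finite (thompsonSubgroupAOf Q) := H802.finite_of_le (thompsonSubgroupAOf_le Q)
    have h3 := Subgroup.card_le_of_le (thompson_mono h h2)
    rw [vW, vW, h2]
    omega
  · rw [vW, vW]
    nlinarith [Nat.mul_le_mul_right (N + 1) (Nat.succ_le_of_lt h2)]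

theorem thompson_eq_of_vW_eq {N : ℕ} {P Q : Subgroup G} [Finite Q] (h : P ≤ Q)
    (hN : Nat.card Q ≤ N) (hv : vW N P = vW N Q) :
    thompsonSubgroupAOf P = thompsonSubgroupAOf Q := by
  have hfP : Finite P := H802.finite_of_le h
  have h1 : Nat.card (thompsonSubgroupAOf P) ≤ N :=
    (Subgroup.card_le_of_le ((thompsonSubgroupAOf_le P).trans h)).trans hN
  have hfJ : Finite (thompsonSubgroupAOf Q) := H802.finite_of_le (thompsonSubgroupAOf_le Q)
  rcases (dA_mono h).eq_or_lt with h2 | h2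
  · refine Subgroup.eq_of_le_of_card_ge (thompson_mono h h2) ?_
    rw [vW, vW, h2] at hv
    omega
  · exfalso
    rw [vW, vW] at hv
    nlinarith [Nat.mul_le_mul_right (N + 1) (Nat.succ_le_of_lt h2)]

theorem wW_lt_of_vW_lt {N : ℕ} {P Q : Subgroup G} (hN : Nat.card P ≤ N) (h : vW N P < vW N Q) :
    wW N P < wW N Q := by
  rw [wW, wW]
  nlinarith [Nat.mul_le_mul_right (N + 1) (Nat.succ_le_of_lt h)]

theorem wW_lt {N : ℕ} {P Q : Subgroup G} [Finite Q] (h : P < Q) (hN : Nat.card Q ≤ N) :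
    wW N P < wW N Q := by
  have h1 := vW_mono h.le hN
  have h2 : Nat.card P < Nat.card Q := by
    refine lt_of_le_of_ne (Subgroup.card_le_of_le h.le) fun h3 => ?_
    exact h.ne (Subgroup.eq_of_le_of_card_ge h.le h3.ge)
  rw [wW, wW]
  nlinarith [Nat.mul_le_mul_right (N + 1) h1]

theorem vW_eq_of_between {N : ℕ} {P Q : Subgroup G} [Finite P] (h1 : thompsonSubgroupAOf P ≤ Q)
    (h2 : Q ≤ P) : vW N Q = vW N P := by
  rw [vW, vW, dA_eq_of_between h1 h2, thompson_eq_of_between h1 h2]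

theorem vW_thompson {N : ℕ} (P : Subgroup G) [Finite P] :
    vW N (thompsonSubgroupAOf P) = vW N P :=
  vW_eq_of_between le_rfl (thompsonSubgroupAOf_le P)

end

section

variable {Ω : Type*} [Group Ω] {S : Subgroup Ω} {F : FusionSystem S}

theorem dA_le_of_im [Finite S] {P P' : Subgroup Ω} {f : Ω → Ω} (hf : Mp F P f)
    (hI : H770.Im f P P') : dA P ≤ dA P' := by
  have hfP : Finite P := H802.finite_of_le hf.le
  have hfP' : Finite P' := H802.finite_of_le (H770.Mp.im_le hf hI)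
  obtain ⟨A, hA1, hA2, hA3⟩ := exists_dA P
  obtain ⟨A', hA', -, hA'c⟩ := H770.Mp.exists_im hf hA1
  rw [← hA3, ← hA'c]
  refine card_le_dA (fun y hy => ?_) ((isMulCommutative_iff _).2 fun y hy z hz => ?_)
  · obtain ⟨x, hx, rfl⟩ := (hA' y).1 hy
    exact hI.apply (hA1 hx)
  · obtain ⟨x, hx, rfl⟩ := (hA' y).1 hy
    obtain ⟨u, hu, rfl⟩ := (hA' z).1 hz
    rw [← hf.mul (hA1 hx) (hA1 hu), ← hf.mul (hA1 hu) (hA1 hx),
      (isMulCommutative_iff A).1 hA2 x hx u hu]

theorem dA_of_im [Finite S] {P P' : Subgroup Ω} {f : Ω → Ω} (hf : Mp F P f)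
    (hI : H770.Im f P P') : dA P' = dA P := by
  refine le_antisymm ?_ (dA_le_of_im hf hI)
  obtain ⟨b, hb, hb1, hb2⟩ := hf.exists_symm le_rfl hI
  exact dA_le_of_im hb (hI.symm hb1)

theorem im_thompson_le [Finite S] {P P' : Subgroup Ω} {f : Ω → Ω} (hf : Mp F P f)
    (hI : H770.Im f P P') : ∀ y ∈ thompsonSubgroupAOf P, f y ∈ thompsonSubgroupAOf P' := by
  have hfP : Finite P := H802.finite_of_le hf.le
  have hfP' : Finite P' := H802.finite_of_le (H770.Mp.im_le hf hI)
  obtain ⟨φ, hφ, hφf⟩ := hf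
  have hf' : Mp F P f := ⟨φ, hφ, hφf⟩
  -- the preimage of `J(P')`
  let W : Subgroup Ω := ((thompsonSubgroupAOf P').comap φ).map P.subtype
  have hW : thompsonSubgroupAOf P ≤ W := by
    rw [thompsonSubgroupAOf_eq_sSup P]
    refine sSup_le fun A hA => ?_
    obtain ⟨A', hA', -, hA'c⟩ := H770.Mp.exists_im hf' hA.1
    have h1 : A' ∈ maxAbelianIn P' := by
      refine mem_maxAbelianIn_iff.2 ⟨fun y hy => ?_, (isMulCommutative_iff _).2 fun y hy z hz => ?_, ?_⟩
      · obtain ⟨x, hx, rfl⟩ := (hA' y).1 hy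
        exact hI.apply (hA.1 hx)
      · obtain ⟨x, hx, rfl⟩ := (hA' y).1 hy
        obtain ⟨u, hu, rfl⟩ := (hA' z).1 hz
        rw [← hf'.mul (hA.1 hx) (hA.1 hu), ← hf'.mul (hA.1 hu) (hA.1 hx),
          (isMulCommutative_iff A).1 hA.2.1 x hx u hu]
      · rw [hA'c, dA_of_im hf' hI]
        exact (mem_maxAbelianIn_iff.1 hA).2.2
    intro x hx
    refine ⟨⟨x, hA.1 hx⟩, ?_, rfl⟩
    show φ ⟨x, hA.1 hx⟩ ∈ thompsonSubgroupAOf P'
    rw [hφf x (hA.1 hx)]
    exact le_thompsonSubgroupAOf h1 (hA'.apply hx)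
  intro y hy
  obtain ⟨⟨u, hu⟩, h1, rfl⟩ := hW hy
  have h2 : φ ⟨u, hu⟩ ∈ thompsonSubgroupAOf P' := h1
  rw [hφf u hu] at h2
  exact h2

/-- `J` is preserved by the maps of a fusion system. -/
theorem im_thompson [Finite S] {P P' : Subgroup Ω} {f : Ω → Ω} (hf : Mp F P f)
    (hI : H770.Im f P P') : H770.Im f (thompsonSubgroupAOf P) (thompsonSubgroupAOf P') := by
  intro y
  constructor
  · intro hy
    obtain ⟨b, hb, hb1, hb2⟩ := hf.exists_symm le_rfl hI
    have h1 := im_thompson_le hb (hI.symm hb1) y hy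
    exact ⟨b y, h1, (hb2 y (thompsonSubgroupAOf_le P' hy)).2⟩
  · rintro ⟨x, hx, rfl⟩
    exact im_thompson_le hf hI x hx

theorem vW_of_im [Finite S] {N : ℕ} {P P' : Subgroup Ω} {f : Ω → Ω} (hf : Mp F P f)
    (hI : H770.Im f P P') : vW N P' = vW N P := by
  rw [vW, vW, dA_of_im hf hI,
    H770.Mp.im_card (hf.res (thompsonSubgroupAOf_le P)) (im_thompson hf hI)]

theorem wW_of_im [Finite S] {N : ℕ} {P P' : Subgroup Ω} {f : Ω → Ω} (hf : Mp F P f)
    (hI : H770.Im f P P') : wW N P' = wW N P := by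
  rw [wW, wW, vW_of_im hf hI, H770.Mp.im_card hf hI]

end

end Cfsg.Agent.H769
end

-- part: H769/NsInd
section
/-!
# Weighted downward induction and transport (helper769)
-/

set_option autoImplicit false

namespace Cfsg.Agent.H769

open Cfsg Cfsg.FusionSystem Cfsg.Agent.H752

variable {Ω : Type*} [Group Ω] {S T : Subgroup Ω} {p : ℕ} {F : FusionSystem S} {E : FusionSystem T}

/-- Downward induction with a weight, for the property "extends by the identity on `⟨x⟩` for all `x ∈ X`". -/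
theorem fx_induction [Finite S] [Fact p.Prime] (hS : IsPGroup p S) (hE : E.IsNormalIn F p)
    (X : Ω → Prop) (W : Subgroup Ω → ℕ)
    (hlt : ∀ P Q : Subgroup Ω, P < Q → Q ≤ T → W P < W Q)
    (hinv : ∀ (P P' : Subgroup Ω) (f : Ω → Ω), Mp E P f → H770.Im f P P' → W P' = W P)
    (h_aut : ∀ Q : Subgroup Ω, E.IsFullyNormalized Q →
      (∀ (R : Subgroup Ω) (f : Ω → Ω), Mp E R f → W Q < W R → ∀ x, X x → Fx F x R f) →
      ∀ α ∈ E.autGroup Q, ∀ x, X x → Fx F x Q (H770.ac α)) :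
    ∀ (P : Subgroup Ω) (f : Ω → Ω), Mp E P f → ∀ x, X x → Fx F x P f := by
  have hEs : E.IsSaturated p := hE.1.1
  have hinvE : E.IsInvariantIn F := hE.1.2.2
  have hTS : T ≤ S := hinvE.2.1.1
  have hfinT : Finite T := H802.finite_of_le hTS
  have hTp : IsPGroup p T := hS.to_le hTS
  have key : ∀ n : ℕ, ∀ (P : Subgroup Ω) (f : Ω → Ω), Mp E P f → W T - W P = n →
      ∀ x, X x → Fx F x P f := by
    intro n
    induction n using Nat.strong_induction_on with
    | _ n ih =>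
    intro P f hf hn x hx
    have hPT : P ≤ T := hf.le
    have hfP : Finite P := H802.finite_of_le hPT
    have big : ∀ (R : Subgroup Ω) (g : Ω → Ω), Mp E R g → W P < W R → ∀ x, X x → Fx F x R g := by
      intro R g hg hlt'
      have hRT : R ≤ T := hg.le
      have h1 : W R ≤ W T := by
        rcases hRT.eq_or_lt with h | h
        · rw [h]
        · exact (hlt R T h le_rfl).le
      exact ih (W T - W R) (by omega) R g hg rfl
    by_cases hPeq : P = T
    · subst hPeq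
      have hTn : E.IsFullyNormalized P := by
        refine ⟨le_rfl, fun R hR => ?_⟩
        have h1 : normalizerIn P P = P := inf_eq_left.2 Subgroup.le_normalizer
        rw [h1]
        exact Subgroup.card_le_of_le inf_le_left
      obtain ⟨α, hα, hfα⟩ := hf.exists_aut fun y hy => hf.mem hy
      exact (h_aut P hTn big α hα x hx).congr fun y hy => by rw [hfα y hy, H770.ac_apply _ hy]
    · obtain ⟨Q, hPQ, hQ⟩ := H802.exists_isFullyNormalized hTp hEs hPT
      obtain ⟨f₁, hf₁, hI₁⟩ := H770.exists_mp_of_isConj hPQ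
      obtain ⟨k₁, hk₁, hk₁I⟩ := H770.mp_normalizer hTp hEs hQ hf₁ hI₁
      obtain ⟨P', hP', hP'T, hP'c⟩ := H770.Mp.exists_im hf (le_refl P)
      have hfP' : Finite P' := H802.finite_of_le hP'T
      obtain ⟨b, hb, hb1, hb2⟩ := hf.exists_symm le_rfl hP'
      have hf₂ := hb.comp hf₁ fun y hy => (hb2 y hy).1
      have hI₂ : H770.Im (fun y => f₁ (b y)) P' Q := (hP'.symm hb1).comp hI₁
      obtain ⟨k₂, hk₂, hk₂I⟩ := H770.mp_normalizer hTp hEs hQ hf₂ hI₂
      have hWP' : W P' = W P := hinv P P' f hf hP'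
      have hWQ : W Q = W P := hinv P Q f₁ hf₁ hI₁
      have hnorm : ∀ R : Subgroup Ω, R < T → W R < W (normalizerIn T R) := by
        intro R hR
        have hfR : Finite R := H802.finite_of_le hR.le
        have h1 : R < normalizerIn T R := by
          refine lt_of_le_of_ne (H802.le_normalizerIn hR.le) fun h => ?_
          have := H802.card_lt_card_normalizerIn hTp hR.le hR.ne
          rw [← h] at this
          exact lt_irrefl _ this
        exact hlt R _ h1 inf_le_left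
      have hPlt : P < T := lt_of_le_of_ne hPT hPeq
      have hP'lt : P' < T := by
        refine lt_of_le_of_ne hP'T fun h => hPeq ?_
        exact Subgroup.eq_of_le_of_card_ge hPT (by rw [← hP'c, h])
      have hPN : P ≤ normalizerIn T P := H802.le_normalizerIn hPT
      have hP'N : P' ≤ normalizerIn T P' := H802.le_normalizerIn hP'T
      have hM₁ : Fx F x P k₁ := (big _ k₁ hk₁ (hnorm P hPlt) x hx).res hPN
      have hM₂ : Fx F x P' k₂ := (big _ k₂ hk₂ (by rw [← hWP']; exact hnorm P' hP'lt) x hx).res hP'N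
      obtain ⟨b₁, hb₁, hb₁1, hb₁2⟩ := (hk₁.res hPN).exists_symm le_rfl hk₁I
      obtain ⟨b₂, hb₂, hb₂1, hb₂2⟩ := (hk₂.res hP'N).exists_symm le_rfl hk₂I
      have hfQ : Finite Q := H802.finite_of_le hQ.1
      have hfb : ∀ y ∈ Q, f (b₁ y) ∈ P' := fun y hy => hP'.apply (hb₁2 y hy).1
      have hg := (hb₁.comp hf fun y hy => (hb₁2 y hy).1).comp (hk₂.res hP'N) hfb
      obtain ⟨α, hα, hgα⟩ := hg.exists_aut fun y hy => hk₂I.apply (hfb y hy)
      have hMα := h_aut Q hQ (by rw [hWQ]; exact big) α hα x hx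
      have hMb₂ : Fx F x Q b₂ := hM₂.symm fun y hy => by
        obtain ⟨z, hz, rfl⟩ := (hk₂I y).1 hy
        exact ⟨z, hz, rfl, hb₂1 z hz⟩
      have h1 : Fx F x P (fun y => b₂ (H770.ac α (k₁ y))) :=
        (hM₁.comp hMα fun y hy => hk₁I.apply hy).comp hMb₂ fun y hy =>
          H770.ac_mem α (hk₁I.apply hy)
      refine h1.congr fun y hy => ?_
      show f y = b₂ (H770.ac α (k₁ y))
      rw [H770.ac_apply _ (hk₁I.apply hy), ← hgα _ (hk₁I.apply hy)]
      show f y = b₂ (k₂ (f (b₁ (k₁ y))))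
      rw [hb₁1 y hy, hb₂1 _ (hP'.apply hy)]
  intro P f hf
  exact key _ P f hf rfl

/-- **Transport of the property** from `P = ψ(Q)` to `Q`, `ψ` a map of `F` on `N_T(Q)`. -/
theorem fx_transport [Finite S] [Fact p.Prime] (hE : E.IsNormalIn F p)
    {X : Ω → Prop} (hX : ∀ x, X x → x ∈ centralizerIn S T)
    (hXinv : ∀ a, Mp F (T ⊔ centralizerIn S T) a → ∀ x, X x → X (a x))
    {Q P : Subgroup Ω} (hQT : Q ≤ T) {ψ : Ω → Ω} (hψ : Mp F (normalizerIn T Q) ψ)
    (hI : H770.Im ψ Q P)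
    (hN : ∀ f, Mp E (normalizerIn T Q) f → ∀ x, X x → Fx F x (normalizerIn T Q) f)
    (hP : ∀ α ∈ E.autGroup P, ∀ x, X x → Fx F x P (H770.ac α)) :
    ∀ α ∈ E.autGroup Q, ∀ x, X x → Fx F x Q (H770.ac α) := by
  have hF : F.IsSaturated p := hE.1.2.1
  have hinv : E.IsInvariantIn F := hE.1.2.2
  have hT : F.StronglyClosed T := hinv.2.1
  have hTS : T ≤ S := hT.1
  have hfinT : Finite T := H802.finite_of_le hTS
  have hfinQ : Finite Q := H802.finite_of_le hQT
  have hQN : Q ≤ normalizerIn T Q := H802.le_normalizerIn hQT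
  obtain ⟨-, -, -, hFr⟩ := isInvariantIn_iff.1 hinv
  have hSI := H758.strongInvC_of_isInvariantIn hinv
  obtain ⟨a, ha, φ, hφ, haφ⟩ := hFr _ ψ (inf_le_left : normalizerIn T Q ≤ T) hψ
  have haT : ∀ y ∈ T, a y ∈ T := fun y hy => mp_mem_of_stronglyClosed hT ha hy hy
  -- extension of `a` to `T C_S(T)`
  obtain ⟨a', ha', haa'⟩ : ∃ a', Mp F (T ⊔ centralizerIn S T) a' ∧ ∀ y ∈ T, a' y = a y := by
    obtain ⟨α, hα, haα⟩ := ha.exists_aut haT
    obtain ⟨β, hβ, hαβ, -⟩ := exists_extension_centralizer hF hT hα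
    have hle : T ⊔ centralizerIn S T ≤ S := sup_le hTS inf_le_left
    refine ⟨H770.ac β, H770.mp_ac hle hβ, fun y hy => ?_⟩
    rw [H770.ac_apply _ ((le_sup_left : T ≤ _) hy), haα y hy]
    exact hαβ y hy
  intro α hα x hx
  have hxC := hX x hx
  have hxm : x ∈ T ⊔ centralizerIn S T := (le_sup_right : centralizerIn S T ≤ _) hxC
  have hTx : T ⊔ Subgroup.zpowers x ≤ T ⊔ centralizerIn S T :=
    sup_le le_sup_left (by rw [Subgroup.zpowers_le]; exact hxm)
  have hx' : X (a' x) := hXinv a' ha' x hx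
  -- `Q₂ = φ(Q)`
  obtain ⟨Q₂, hQ₂, hQ₂T, -⟩ := H770.Mp.exists_im hφ hQN
  obtain ⟨b, hb, hb1, hb2⟩ := (hφ.res hQN).exists_symm le_rfl hQ₂
  have hαm : Mp E Q (H770.ac α) := H770.mp_ac hQT hα
  -- `γ = φ α φ⁻¹` on `Q₂`
  have hαb : ∀ y ∈ Q₂, H770.ac α (b y) ∈ Q := fun y hy => H770.ac_mem α (hb2 y hy).1
  have hγ := (hb.comp hαm fun y hy => (hb2 y hy).1).comp (hφ.res hQN) hαb
  have hγm : ∀ y ∈ Q₂, φ (H770.ac α (b y)) ∈ Q₂ := fun y hy => hQ₂.apply (hαb y hy)
  -- `β = a γ a⁻¹` on `P`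
  have haQ₂ : H770.Im a Q₂ P := by
    intro y
    rw [hI y]
    constructor
    · rintro ⟨u, hu, rfl⟩
      exact ⟨φ u, hQ₂.apply hu, (haφ u (hQN hu)).symm⟩
    · rintro ⟨u, hu, rfl⟩
      obtain ⟨w, hw, rfl⟩ := (hQ₂ u).1 hu
      exact ⟨w, hw, haφ w (hQN hw)⟩
  obtain ⟨c, hc, hc1, hc2⟩ := (ha.res hQ₂T).exists_symm le_rfl haQ₂
  have hPT : P ≤ T := fun y hy => by
    obtain ⟨u, hu, rfl⟩ := (haQ₂ y).1 hy
    exact haT u (hQ₂T hu)
  have hfinP : Finite P := H802.finite_of_le hPT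
  have hβ : Mp E P (fun y => a (φ (H770.ac α (b (c y))))) := by
    refine hSI Q₂ T P _ a _ hQ₂T le_rfl hγ (fun y hy => hQ₂T (hγm y hy)) ha fun y hy => ?_
    exact ⟨c y, (hc2 y hy).1, (hc2 y hy).2, rfl⟩
  obtain ⟨β, hβm, hβe⟩ := hβ.exists_aut fun y hy =>
    haQ₂.apply (hγm (c y) (hc2 y hy).1)
  have h1 := hP β hβm (a' x) hx'
  -- back with `a'⁻¹`
  have hgood : Fx F x Q₂ (fun y => φ (H770.ac α (b y))) := by
    -- the inverse of `a'` on `T ⟨a' x⟩`
    have ha'T : Mp F (T ⊔ Subgroup.zpowers x) a' := ha'.res hTx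
    obtain ⟨W, hW, -, -⟩ := ha'T.exists_image le_rfl
    obtain ⟨d, hd, hd1, hd2⟩ := ha'T.exists_symm le_rfl hW
    have hTm : T ≤ T ⊔ Subgroup.zpowers x := le_sup_left
    have hTW : T ⊔ Subgroup.zpowers (a' x) ≤ W := by
      refine sup_le (fun y hy => ?_) ?_
      · obtain ⟨u, hu, rfl⟩ := (ha.surj haT hy)
        exact (hW _).2 ⟨u, hTm hu, haa' u hu⟩
      · rw [Subgroup.zpowers_le]
        exact (hW _).2 ⟨x, mem_sup_zpowers T x, rfl⟩
    have h2 : Fx F (d (a' x)) Q₂ (fun y => φ (H770.ac α (b y))) := by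
      refine Fx.transport (hd.res hTW) hPT h1 (fun y hy => hPT (H770.ac_mem β hy)) fun y hy => ?_
      refine ⟨a y, haQ₂.apply hy, ?_, ?_⟩
      · rw [← haa' y (hQ₂T hy)]
        exact hd1 y (hTm (hQ₂T hy))
      · have h3 : H770.ac β (a y) = a (φ (H770.ac α (b y))) := by
          rw [H770.ac_apply _ (haQ₂.apply hy), ← hβe _ (haQ₂.apply hy)]
          show a (φ (H770.ac α (b (c (a y))))) = _
          rw [hc1 y hy]
        rw [h3]
        show φ (H770.ac α (b y)) = _
        rw [← haa' _ (hQ₂T (hγm y hy)), hd1 _ (hTm (hQ₂T (hγm y hy)))]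
    rwa [hd1 x (mem_sup_zpowers T x)] at h2
  have hφx : Fx F x Q φ := (hN φ hφ x hx).res hQN
  have hbx : Fx F x Q₂ b := hφx.symm fun y hy => by
    obtain ⟨z, hz, rfl⟩ := (hQ₂ y).1 hy
    exact ⟨z, hz, rfl, hb1 z hz⟩
  have h2 : Fx F x Q (fun y => b (φ (H770.ac α (b (φ y))))) :=
    (hφx.comp hgood fun y hy => hQ₂.apply hy).comp hbx fun y hy => hγm _ (hQ₂.apply hy)
  refine h2.congr fun y hy => ?_
  show H770.ac α y = b (φ (H770.ac α (b (φ y))))
  rw [hb1 y hy, hb1 _ (H770.ac_mem α hy)]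

end Cfsg.Agent.H769
end

-- part: H769/NsC
section
/-!
# Elements of `C_S(T)` fixed by `Aut_E(J(T))` centralize `E`, `p` odd (helper769)
-/

set_option autoImplicit false

namespace Cfsg.Agent.H769

open Cfsg Cfsg.FusionSystem Cfsg.Agent.H752 Cfsg.Agent.PLocal.ThompsonJA

section basic

variable {Ω : Type*} [Group Ω] {S T : Subgroup Ω} {p : ℕ} {F : FusionSystem S} {E : FusionSystem T}

/-- The elements of `C_S(T)` fixed by the extensions of `Aut_E(J(T))`. -/
def XJ (F : FusionSystem S) (E : FusionSystem T) (x : Ω) : Prop :=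
  x ∈ centralizerIn S T ∧
    ∀ α ∈ E.autGroup (thompsonSubgroupAOf T), Fx F x (thompsonSubgroupAOf T) (H770.ac α)

theorem xj_map [Finite S] (hE : E.IsNormalIn F p) {a : Ω → Ω}
    (ha : Mp F (T ⊔ centralizerIn S T) a) {x : Ω} (hx : XJ F E x) : XJ F E (a x) := by
  have hinv : E.IsInvariantIn F := hE.1.2.2
  have hT : F.StronglyClosed T := hinv.2.1
  have hTS : T ≤ S := hT.1
  have hfinT : Finite T := H802.finite_of_le hTS
  have hTm : T ≤ T ⊔ centralizerIn S T := le_sup_left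
  have hxm : x ∈ T ⊔ centralizerIn S T := (le_sup_right : centralizerIn S T ≤ _) hx.1
  have haT : ∀ y ∈ T, a y ∈ T := fun y hy => mp_mem_of_stronglyClosed hT ha (hTm hy) hy
  have hIT : H770.Im a T T := H770.Mp.im_of_maps (ha.res hTm) haT
  refine ⟨⟨ha.mem hxm, H770.Mp.mem_centralizer ha hTm hIT hxm hx.1.2⟩, ?_⟩
  obtain ⟨J, hJ⟩ : ∃ J, J = thompsonSubgroupAOf T := ⟨_, rfl⟩
  have hx2 := hx.2
  rw [← hJ] at hx2 ⊢
  intro α hα
  have hJT : J ≤ T := by rw [hJ]; exact thompsonSubgroupAOf_le T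
  have hfinJ : Finite J := H802.finite_of_le hJT
  have hIJ : H770.Im a J J := by rw [hJ]; exact im_thompson (ha.res hTm) hIT
  obtain ⟨b, hb, hb1, hb2⟩ := (ha.res hTm).exists_symm le_rfl hIT
  have hbJ : ∀ y ∈ J, b y ∈ J := fun y hy => by
    obtain ⟨u, hu, rfl⟩ := (hIJ y).1 hy
    rw [hb1 u (hJT hu)]
    exact hu
  have hSI := H758.strongInvC_of_isInvariantIn hinv
  have hαm : Mp E J (H770.ac α) := H770.mp_ac hJT hα
  have hβ : Mp E J (fun y => b (H770.ac α (a y))) := by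
    refine hSI J T J _ b _ hJT le_rfl hαm (fun y hy => hJT (H770.ac_mem α hy)) hb fun y hy => ?_
    exact ⟨a y, hIJ.apply hy, hb1 y (hJT hy), rfl⟩
  obtain ⟨β, hβm, hβe⟩ := hβ.exists_aut fun y hy => hbJ _ (H770.ac_mem α (hIJ.apply hy))
  have hTx : T ⊔ Subgroup.zpowers x ≤ T ⊔ centralizerIn S T :=
    sup_le le_sup_left (by rw [Subgroup.zpowers_le]; exact hxm)
  refine Fx.transport (ha.res hTx) hJT (hx2 β hβm) (fun y hy => hJT (H770.ac_mem β hy))
    fun y hy => ⟨b y, hbJ y hy, (hb2 y (hJT hy)).2, ?_⟩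
  rw [H770.ac_apply _ (hbJ y hy), ← hβe _ (hbJ y hy)]
  show _ = a (b (H770.ac α (a (b y))))
  rw [(hb2 y (hJT hy)).2, (hb2 _ (hJT (H770.ac_mem α hy))).2]

/-- `P` is good. -/
def Gd (F : FusionSystem S) (E : FusionSystem T) (P : Subgroup Ω) : Prop :=
  ∀ α ∈ E.autGroup P, ∀ x, XJ F E x → Fx F x P (H770.ac α)

theorem restr_aut {J P : Subgroup Ω} [Finite J] (hJP : J ≤ P) {α : MulAut P} {β : MulAut J}
    (h : ∀ (y : Ω) (hy : y ∈ J), H770.ac α y = (β ⟨y, hy⟩ : J)) (n : ℕ) (y : J) :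
    (((β ^ n) y : J) : Ω) = ((α ^ n) ⟨y, hJP y.2⟩ : P) := by
  induction n generalizing y with
  | zero => simp
  | succ n ih =>
    rw [pow_succ, MulAut.mul_apply, pow_succ, MulAut.mul_apply, ih]
    congr 2
    apply Subtype.ext
    rw [← H770.ac_apply _ (hJP y.2)]
    exact (h y y.2).symm

end basic

section

universe u

variable {Ω : Type u} [Group Ω] {S T : Subgroup Ω} {p : ℕ} {F : FusionSystem S} {E : FusionSystem T}

/-- **First step**: `Y = J(Y)`. -/
theorem gd_one [Finite S] [Fact p.Prime] (hp : p ≠ 2) (hS : IsPGroup p S) (hE : E.IsNormalIn F p)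
    {Y : Subgroup Ω} (hYc : E.IsCentric Y) (hYJ : thompsonSubgroupAOf Y = Y) {N : ℕ}
    (hN : Nat.card T ≤ N)
    (big : ∀ (R : Subgroup Ω) (f : Ω → Ω), Mp E R f → vW N Y < vW N R → ∀ x, XJ F E x → Fx F x R f) :
    Gd F E Y := by
  have hF : F.IsSaturated p := hE.1.2.1
  have hEs : E.IsSaturated p := hE.1.1
  have hinv : E.IsInvariantIn F := hE.1.2.2
  have hT : F.StronglyClosed T := hinv.2.1
  have hTS : T ≤ S := hT.1
  have hfinT : Finite T := H802.finite_of_le hTS
  have hTp : IsPGroup p T := hS.to_le hTS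
  have hYT : Y ≤ T := hYc.1
  have hYS : Y ≤ S := hYT.trans hTS
  have hfinY : Finite Y := H802.finite_of_le hYS
  obtain ⟨M, hM⟩ : ∃ M, M = normalizerIn T Y := ⟨_, rfl⟩
  have hMT : M ≤ T := by rw [hM]; exact inf_le_left
  have hfinM : Finite M := H802.finite_of_le hMT
  have hMN : Nat.card M ≤ N := (Subgroup.card_le_of_le hMT).trans hN
  have hYM : Y ≤ M := by rw [hM]; exact H802.le_normalizerIn hYT
  rcases (vW_mono hYM hMN).eq_or_lt with hv | hv
  · have h1 : thompsonSubgroupAOf M = Y := by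
      rw [← thompson_eq_of_vW_eq hYM hMN hv, hYJ]
    have h2 : M = T := by
      by_contra hne
      have h3 := H802.card_lt_card_normalizerIn hTp hMT hne
      have h4 : normalizerIn T M ≤ M := by
        intro y hy
        rw [hM]
        refine ⟨hy.1, ?_⟩
        have h5 := normalizer_le_normalizer_thompsonSubgroupAOf M hy.2
        rwa [h1] at h5
      exact absurd (Subgroup.card_le_of_le h4) (not_le.2 h3)
    rw [h2] at h1
    intro α hα x hx
    have h5 := hx.2
    rw [h1] at h5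
    exact h5 α hα
  · obtain ⟨P, hYP, hP⟩ := H802.exists_isFullyNormalized hS hF hYS
    obtain ⟨f, hf, hfI⟩ := H770.exists_mp_of_isConj hYP
    obtain ⟨k, hk, hkI⟩ := H770.mp_normalizer hS hF hP hf hfI
    have hMS : M ≤ normalizerIn S Y := by rw [hM]; exact inf_le_inf_right _ hTS
    have hkM := hk.res hMS
    have hPT : P ≤ T := by
      intro y hy
      obtain ⟨u, hu, rfl⟩ := (hfI y).1 hy
      exact mp_mem_of_stronglyClosed hT hf hu (hYT hu)
    have hfinP : Finite P := H802.finite_of_le hPT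
    have hPc : E.IsCentric P := by
      obtain ⟨φ, hφ, hφr⟩ := hYP
      exact H792.isCentric_map_of_invariant hinv hYc hφ hφr
    have hvP : vW N P = vW N Y := vW_of_im hf hfI
    obtain ⟨M', hM', hM'S, -⟩ := H770.Mp.exists_im hkM (le_refl M)
    have hM'N : M' ≤ normalizerIn T P := by
      intro y hy
      obtain ⟨u, hu, rfl⟩ := (hM' y).1 hy
      refine ⟨mp_mem_of_stronglyClosed hT hkM hu (hMT hu), ?_⟩
      exact H770.Mp.mem_normalizer hk (H802.le_normalizerIn hYS) hkI (hMS hu) (hMS hu).2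
    have hfinN : Finite (normalizerIn T P) := H802.finite_of_le inf_le_left
    have hNN : Nat.card (normalizerIn T P) ≤ N := (Subgroup.card_le_of_le inf_le_left).trans hN
    have hvN : vW N Y < vW N (normalizerIn T P) := by
      refine lt_of_lt_of_le hv ?_
      rw [← vW_of_im hkM hM']
      exact vW_mono hM'N hNN
    have hPN : P ≤ normalizerIn T P := H802.le_normalizerIn hPT
    have hvQ : vW N (P ⊔ thompsonSubgroupAOf (normalizerIn T P)) = vW N (normalizerIn T P) :=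
      vW_eq_of_between le_sup_right (sup_le hPN (thompsonSubgroupAOf_le _))
    have hGP : ∀ α ∈ E.autGroup P, ∀ x, XJ F E x → Fx F x P (H770.ac α) := by
      intro α hα x hx
      refine fx_of_thompson hp hS hE hP hPc hx.1 (fun g hg _ => ?_) α hα
      exact big _ g hg (by rw [hvQ]; exact hvN) x hx
    refine fx_transport hE (fun x hx => hx.1) (fun a ha x hx => xj_map hE ha hx) hYT
      (ψ := k) (hk.res (inf_le_inf_right _ hTS)) hkI (fun g hg x hx => ?_) hGP
    exact big _ g hg (by rw [← hM]; exact hv) x hx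

/-- **Second step**: `P` and `J(P)` fully normalized in `F`. -/
theorem gd_local [Finite S] [Fact p.Prime] (hp : p ≠ 2) (hS : IsPGroup p S) (hE : E.IsNormalIn F p)
    {P : Subgroup Ω} (hPc : E.IsCentric P) (hPn : F.IsFullyNormalized P)
    (hJn : F.IsFullyNormalized (thompsonSubgroupAOf P)) {N : ℕ}
    (hN : Nat.card T ≤ N)
    (big : ∀ (R : Subgroup Ω) (f : Ω → Ω), Mp E R f → wW N P < wW N R → ∀ x, XJ F E x → Fx F x R f) :
    Gd F E P := by
  have hF : F.IsSaturated p := hE.1.2.1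
  have hEs : E.IsSaturated p := hE.1.1
  have hinv : E.IsInvariantIn F := hE.1.2.2
  have hT : F.StronglyClosed T := hinv.2.1
  have hTS : T ≤ S := hT.1
  have hfinT : Finite T := H802.finite_of_le hTS
  have hTp : IsPGroup p T := hS.to_le hTS
  have hPT : P ≤ T := hPc.1
  have hPS : P ≤ S := hPT.trans hTS
  have hfinP : Finite P := H802.finite_of_le hPS
  have hPN : P ≤ normalizerIn T P := H802.le_normalizerIn hPT
  obtain ⟨J, hJ⟩ : ∃ J, J = thompsonSubgroupAOf P := ⟨_, rfl⟩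
  rw [← hJ] at hJn
  have hJP : J ≤ P := by rw [hJ]; exact thompsonSubgroupAOf_le P
  have hJT : J ≤ T := hJP.trans hPT
  have hfinJ : Finite J := H802.finite_of_le hJT
  have hcP : Nat.card P ≤ N := (Subgroup.card_le_of_le hPT).trans hN
  have hZJ : ∀ u ∈ P, (∀ y ∈ P, y * u = u * y) → u ∈ J := by
    intro u hu h
    rw [hJ]
    exact inf_centralizer_thompson_le P ⟨hu, Subgroup.mem_centralizer_iff.2 fun y hy =>
      h y (thompsonSubgroupAOf_le P hy)⟩
  have hJE : E.IsFullyNormalized J := H755.isFullyNormalized_sub hS hF hinv.1 hT hJT hJn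
  by_cases hJc : E.IsCentric J
  · -- `J(P)` is centric
    have hGJ : Gd F E J := by
      refine gd_one hp hS hE hJc (by rw [hJ]; exact thompson_thompson P) hN fun R f hf hv => ?_
      refine big R f hf (wW_lt_of_vW_lt hcP ?_)
      rwa [hJ, vW_thompson] at hv
    intro α₀ hα₀ x hx
    have hxT := hx.1
    have hxN : x ∈ centralizerIn S (normalizerIn T P) := centralizerIn_mono inf_le_left hxT
    have hxP : x ∈ centralizerIn S P := centralizerIn_mono hPT hxT
    have hxJ : x ∈ centralizerIn S J := centralizerIn_mono hJT hxT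
    obtain ⟨z, hz, hzN, hfix₀⟩ := exists_fix hS hE hPn hPc hxN
    have hxz : x * z ∈ P ⊔ centralizerIn S P :=
      mul_mem ((le_sup_right : centralizerIn S P ≤ _) hxP) ((le_sup_left : P ≤ _) hz)
    have hfix : ∀ α ∈ E.autGroup P, Fx F (x * z) P (H770.ac α) := by
      intro α hα
      obtain ⟨g, hg, h1, h2, -⟩ := hfix₀ α hα
      refine ⟨g, hg.res (sup_le le_sup_left (by rw [Subgroup.zpowers_le]; exact hxz)),
        fun y hy => by rw [h1 y hy, H770.ac_apply _ hy], h2⟩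
    have hzJ : z ∈ J := hZJ z hz fun y hy => hzN y (hPN hy)
    have hPE : E.IsFullyNormalized P := H755.isFullyNormalized_sub hS hF hinv.1 hT hPT hPn
    have hPEa := H802.isFullyAutomized_of_isFullyNormalized hTp hEs hPE
    obtain ⟨R, hR⟩ := hPEa.2
    have hfinMP : Finite (MulAut P) := H758.finite_mulAut P
    let M : Subgroup (E.autGroup P) :=
      { carrier := {a | H770.ac (a : MulAut P) z = z}
        one_mem' := H770.ac_one hz
        mul_mem' := by
          intro a b ha hb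
          have h1 : H770.ac (b : MulAut P) z = z := hb
          have h2 : H770.ac (a : MulAut P) z = z := ha
          show H770.ac ((a : MulAut P) * (b : MulAut P)) z = z
          rw [H770.ac_mul _ _ hz, h1, h2]
        inv_mem' := by
          intro a ha
          have h2 : H770.ac (a : MulAut P) z = z := ha
          have h3 := H770.ac_inv_ac (a : MulAut P) hz
          rw [h2] at h3
          exact h3 }
    have hMtop : M = ⊤ := by
      refine H792.gen_top_of_sylow R M (fun a ha => ?_) (fun a ha => ?_)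
      · obtain ⟨α, hα⟩ : ∃ α : MulAut P, α = (a : MulAut P) := ⟨_, rfl⟩
        have hαE : α ∈ E.autGroup P := by rw [hα]; exact a.2
        have hcop : Nat.Coprime (orderOf α) p := by
          rw [hα, Subgroup.orderOf_coe]
          exact ha
        show H770.ac (a : MulAut P) z = z
        rw [← hα]
        have hαm : Mp E P (H770.ac α) := H770.mp_ac hPT hαE
        have hαJ : ∀ y ∈ J, H770.ac α y ∈ J := by
          rw [hJ]
          exact fun y hy => im_thompson_le hαm (H770.im_ac α) y hy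
        obtain ⟨β, hβ, hαβ⟩ := (hαm.res hJP).exists_aut hαJ
        have hord : orderOf β ∣ orderOf α := by
          rw [orderOf_dvd_iff_pow_eq_one]
          ext y
          rw [restr_aut hJP hαβ, pow_orderOf_eq_one]
          rfl
        have hcopβ : Nat.Coprime (orderOf β) p := Nat.Coprime.coprime_dvd_left hord hcop
        have h1 : Fx F x J (H770.ac β) := hGJ β hβ x hx
        have h2 : Fx F (x * z) J (H770.ac β) :=
          ((hfix α hαE).res hJP).congr fun y hy => by rw [H770.ac_apply _ hy, hαβ y hy]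
        have h3 := fix_of_two hS hE hJc hxJ hzJ hβ hcopβ h1 h2
        rw [hαβ z hzJ, ← H770.ac_apply _ hzJ]
        exact h3
      · have ha' : a ∈ (R : Subgroup (E.autGroup P)) := ha
        rw [hR] at ha'
        obtain ⟨t, ht, h1⟩ := (H802.mem_autInducedBy_iff T P _).1 ha'
        show H770.ac (a : MulAut P) z = z
        have h2 : (((a : MulAut P) ⟨z, hz⟩ : P) : Ω) = t * z * t⁻¹ := h1 ⟨z, hz⟩
        rw [H770.ac_apply _ hz, h2, hzN t ⟨ht, H802.mem_normalizer_of_aut h1⟩]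
        group
    have h1 : (⟨α₀, hα₀⟩ : E.autGroup P) ∈ M := by rw [hMtop]; trivial
    exact fx_of_fix hz h1 (hfix α₀ hα₀)
  · -- `J(P)` is not centric
    have hJr := H802.isReceptive_of_isFullyNormalized hTp hEs hJE
    obtain ⟨Z, hZ⟩ : ∃ Z : Subgroup Ω, Z = P ⊓ Subgroup.centralizer (P : Set Ω) := ⟨_, rfl⟩
    obtain ⟨Q₁, hQ₁⟩ : ∃ Q₁, Q₁ = normalizerIn T P ⊓ Subgroup.centralizer (Z : Set Ω) := ⟨_, rfl⟩
    have hPQ : P ≤ Q₁ := by
      rw [hQ₁]
      refine le_inf hPN fun y hy => Subgroup.mem_centralizer_iff.2 fun u hu => ?_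
      rw [hZ] at hu
      exact (Subgroup.mem_centralizer_iff.1 hu.2 y hy).symm
    have hQN : Q₁ ≤ normalizerIn T P := by rw [hQ₁]; exact inf_le_left
    have hQT : Q₁ ≤ T := hQN.trans inf_le_left
    have hfinQ : Finite Q₁ := H802.finite_of_le hQT
    have hne : P ≠ Q₁ := by
      intro heq
      apply hJc
      refine H802.isCentric_of_isFullyCentralized
        (H802.isFullyCentralized_of_isReceptive hJr) ?_
      -- `C = C_T(J)`
      obtain ⟨C, hC⟩ : ∃ C, C = centralizerIn T J := ⟨_, rfl⟩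
      have hCP : C ≤ P := by
        by_contra hCP
        obtain ⟨K, hK⟩ : ∃ K, K = P ⊔ C := ⟨_, rfl⟩
        have hKT : K ≤ T := by rw [hK, hC]; exact sup_le hPT inf_le_left
        have hfinK : Finite K := H802.finite_of_le hKT
        have hPK : P ≤ K := by rw [hK]; exact le_sup_left
        have hPK' : P ≠ K := by
          intro h
          apply hCP
          rw [h, hK]
          exact le_sup_right
        have h1 := H802.card_lt_card_normalizerIn (hTp.to_le hKT) hPK hPK'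
        obtain ⟨g, hg, hgP⟩ : ∃ g ∈ normalizerIn K P, g ∉ P := by
          by_contra hcon
          push Not at hcon
          exact absurd (Subgroup.card_le_of_le hcon) (not_le.2 h1)
        have hPJn : P ≤ Subgroup.normalizer (J : Set Ω) := by
          rw [hJ]
          exact Subgroup.le_normalizer.trans (normalizer_le_normalizer_thompsonSubgroupAOf P)
        have hPCn : P ≤ Subgroup.normalizer (C : Set Ω) := by
          intro y hy
          have hfinC : Finite C := by rw [hC]; exact H802.finite_of_le inf_le_left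
          refine H802.mem_normalizer_of_conj_mem (le_refl C) fun c hc => ?_
          rw [hC] at hc ⊢
          refine ⟨mul_mem (mul_mem (hPT hy) hc.1) (T.inv_mem (hPT hy)),
            Subgroup.mem_centralizer_iff.2 fun u hu => ?_⟩
          have h2 : y⁻¹ * u * y ∈ J := by
            have := (Subgroup.mem_normalizer_iff.1 (Subgroup.inv_mem _ (hPJn hy)) u).1 hu
            rwa [inv_inv] at this
          have h3 := Subgroup.mem_centralizer_iff.1 hc.2 _ h2
          calc u * (y * c * y⁻¹) = y * ((y⁻¹ * u * y) * c) * y⁻¹ := by group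
            _ = y * (c * (y⁻¹ * u * y)) * y⁻¹ := by rw [h3]
            _ = y * c * y⁻¹ * u := by group
        have hgK : g ∈ P ⊔ C := by rw [← hK]; exact hg.1
        obtain ⟨y, hy, c, hc, hyc⟩ := (H759.mem_sup_of_normalizes hPCn).1 hgK
        have hc' : c = y⁻¹ * g := by rw [← hyc]; group
        have hcn : c ∈ Subgroup.normalizer (P : Set Ω) := by
          rw [hc']
          exact Subgroup.mul_mem _ (Subgroup.inv_mem _ (Subgroup.le_normalizer hy)) hg.2
        have hc2 := hc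
        rw [hC] at hc2
        have hcQ : c ∈ Q₁ := by
          rw [hQ₁]
          refine ⟨⟨hc2.1, hcn⟩, Subgroup.mem_centralizer_iff.2 fun u hu => ?_⟩
          have hu' : u ∈ Z := hu
          rw [hZ] at hu'
          have huJ : u ∈ J := hZJ u hu'.1 fun w hw => Subgroup.mem_centralizer_iff.1 hu'.2 w hw
          exact Subgroup.mem_centralizer_iff.1 hc2.2 u huJ
        rw [← heq] at hcQ
        apply hgP
        rw [← hyc]
        exact mul_mem hy hcQ
      rw [← hC]
      intro c hc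
      have hc2 := hc
      rw [hC] at hc2
      rw [hJ]
      refine inf_centralizer_thompson_le P ⟨hCP hc, ?_⟩
      rw [← hJ]
      exact hc2.2
    have hlt : P < Q₁ := lt_of_le_of_ne hPQ hne
    have hw : wW N P < wW N Q₁ := wW_lt hlt ((Subgroup.card_le_of_le hQT).trans hN)
    intro α hα x hx
    refine fx_of_central hS hE hPn hPc hx.1 (fun g hg _ => ?_) α hα
    rw [← hZ, ← hQ₁] at hg ⊢
    exact big Q₁ g hg hw x hx

end

end Cfsg.Agent.H769
end

-- part: H769/NsMain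
section
/-!
# Small centralizers of normal subsystems (helper769)

`centralizer_le_odd` : for `p` odd, `C_S(T) ≤ T` if `C_S(E) ≤ T`.
`commutator_le` : `T C_S(T) / T` is abelian if `C_S(E) ≤ T`.
-/

set_option autoImplicit false

namespace Cfsg.Agent.H769

open Cfsg Cfsg.FusionSystem Cfsg.Agent.H752 Cfsg.Agent.PLocal.ThompsonJA

section

universe u

variable {Ω : Type u} [Group Ω] {S T : Subgroup Ω} {p : ℕ} {F : FusionSystem S} {E : FusionSystem T}

/-- `J(T)` is fully normalized in `F`. -/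
theorem thompson_isFullyNormalized [Finite S] (hT : F.StronglyClosed T) :
    F.IsFullyNormalized (thompsonSubgroupAOf T) := by
  have hJS : thompsonSubgroupAOf T ≤ S := (thompsonSubgroupAOf_le T).trans hT.1
  refine ⟨hJS, fun R hR => ?_⟩
  have h1 : normalizerIn S (thompsonSubgroupAOf T) = S := by
    refine inf_eq_left.2 fun s hs => ?_
    exact normalizer_le_normalizer_thompsonSubgroupAOf T (mem_normalizer_of_stronglyClosed hT hs)
  rw [h1]
  exact Subgroup.card_le_of_le inf_le_left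

/-- `J(T)` is centric. -/
theorem thompson_isCentric [Finite T] (E : FusionSystem T) :
    E.IsCentric (thompsonSubgroupAOf T) := by
  refine ⟨thompsonSubgroupAOf_le T, fun R hR => ?_⟩
  obtain ⟨f, hf, hfI⟩ := H770.exists_mp_of_isConj hR
  have hRT : R ≤ T := H770.Mp.im_le hf hfI
  have hfJ : Finite (thompsonSubgroupAOf T) := H802.finite_of_le (thompsonSubgroupAOf_le T)
  have hv : vW (Nat.card T) R = vW (Nat.card T) T := by
    rw [vW_of_im hf hfI, vW_thompson]
  have h1 := thompson_eq_of_vW_eq hRT le_rfl hv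
  have h2 : R = thompsonSubgroupAOf T := by
    have hfR : Finite R := H802.finite_of_le hRT
    symm
    refine Subgroup.eq_of_le_of_card_ge ?_ ?_
    · rw [← h1]
      exact thompsonSubgroupAOf_le R
    · rw [H770.Mp.im_card hf hfI]
  rw [h2]
  exact inf_centralizer_thompson_le T

/-- **All centric subgroups are good** if the larger ones are. -/
theorem gd_two [Finite S] [Fact p.Prime] (hp : p ≠ 2) (hS : IsPGroup p S) (hE : E.IsNormalIn F p)
    {Q : Subgroup Ω} (hQc : E.IsCentric Q) {N : ℕ} (hN : Nat.card T ≤ N)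
    (big : ∀ (R : Subgroup Ω) (f : Ω → Ω), Mp E R f → wW N Q < wW N R → ∀ x, XJ F E x → Fx F x R f) :
    Gd F E Q := by
  have hF : F.IsSaturated p := hE.1.2.1
  have hinv : E.IsInvariantIn F := hE.1.2.2
  have hT : F.StronglyClosed T := hinv.2.1
  have hTS : T ≤ S := hT.1
  have hfinT : Finite T := H802.finite_of_le hTS
  have hTp : IsPGroup p T := hS.to_le hTS
  have hQT : Q ≤ T := hQc.1
  have hQS : Q ≤ S := hQT.trans hTS
  have hfinQ : Finite Q := H802.finite_of_le hQS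
  by_cases hQeq : Q = T
  · rw [hQeq] at hQc big ⊢
    exact gd_local hp hS hE hQc (H792.stronglyClosed_isFullyNormalized hS hF hT)
      (thompson_isFullyNormalized hT) hN big
  · obtain ⟨P₁, hQP, hP₁⟩ := H802.exists_isFullyNormalized hS hF hQS
    obtain ⟨f₁, hf₁, hI₁⟩ := H770.exists_mp_of_isConj hQP
    obtain ⟨k₁, hk₁, hk₁I⟩ := H770.mp_normalizer hS hF hP₁ hf₁ hI₁
    have hQN : Q ≤ normalizerIn S Q := H802.le_normalizerIn hQS
    have hP₁N : P₁ ≤ normalizerIn S P₁ := H802.le_normalizerIn hP₁.1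
    have hfinP₁ : Finite P₁ := H802.finite_of_le hP₁.1
    have hkN : ∀ y ∈ normalizerIn S Q, k₁ y ∈ normalizerIn S P₁ := fun y hy =>
      ⟨hk₁.mem hy, H770.Mp.mem_normalizer hk₁ hQN hk₁I hy hy.2⟩
    have hNU : normalizerIn S P₁ ≤ normalizerIn S (thompsonSubgroupAOf P₁) :=
      inf_le_inf_left S (normalizer_le_normalizer_thompsonSubgroupAOf P₁)
    obtain ⟨f, U', P, hf, hfU, hU', hfP, hP, -⟩ :=
      conj_step hS hF hP₁ ((thompsonSubgroupAOf_le P₁).trans hP₁.1) hNU
    have hJP : thompsonSubgroupAOf P = U' := by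
      have h1 := im_thompson (hf.res (hP₁N.trans hNU)) hfP
      ext y
      rw [h1 y, hfU y]
    have hψ := (hk₁.comp hf fun y hy => hNU (hkN y hy))
    have hψI : H770.Im (fun y => f (k₁ y)) Q P := hk₁I.comp hfP
    have hPc : E.IsCentric P := by
      obtain ⟨φ, hφ, hφr⟩ := H770.Mp.isConj (hψ.res hQN) hψI
      exact H792.isCentric_map_of_invariant hinv hQc hφ hφr
    have hwP : wW N P = wW N Q := wW_of_im (hψ.res hQN) hψI
    have hGP : Gd F E P :=
      gd_local hp hS hE hPc hP (by rw [hJP]; exact hU') hN (by rw [hwP]; exact big)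
    have hlt : wW N Q < wW N (normalizerIn T Q) := by
      have h1 : Q < normalizerIn T Q := by
        refine lt_of_le_of_ne (H802.le_normalizerIn hQT) fun h => ?_
        have := H802.card_lt_card_normalizerIn hTp hQT hQeq
        rw [← h] at this
        exact lt_irrefl _ this
      have hfN : Finite (normalizerIn T Q) := H802.finite_of_le inf_le_left
      exact wW_lt h1 ((Subgroup.card_le_of_le inf_le_left).trans hN)
    exact fx_transport hE (fun x hx => hx.1) (fun a ha x hx => xj_map hE ha hx) hQT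
      (hψ.res (inf_le_inf_right _ hTS)) hψI (fun g hg x hx => big _ g hg hlt x hx) hGP

/-- **Elements of `C_S(T)` fixed by `Aut_E(J(T))` centralize `E`** (`p` odd). -/
theorem fx_all [Finite S] [Fact p.Prime] (hp : p ≠ 2) (hS : IsPGroup p S) (hE : E.IsNormalIn F p) :
    ∀ (P : Subgroup Ω) (f : Ω → Ω), Mp E P f → ∀ x, XJ F E x → Fx F x P f := by
  have hEs : E.IsSaturated p := hE.1.1
  have hTS : T ≤ S := hE.1.2.2.2.1.1
  have hfinT : Finite T := H802.finite_of_le hTS
  have hTp : IsPGroup p T := hS.to_le hTS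
  refine fx_induction hS hE (XJ F E) (wW (Nat.card T)) (fun P Q hPQ hQT => ?_)
    (fun P P' f hf hI => wW_of_im hf hI) (fun Q hQn big => ?_)
  · have hfQ : Finite Q := H802.finite_of_le hQT
    exact wW_lt hPQ (Subgroup.card_le_of_le hQT)
  · by_cases hQc : E.IsCentric Q
    · exact gd_two hp hS hE hQc le_rfl big
    · intro α hα x hx
      have hQr := H802.isReceptive_of_isFullyNormalized hTp hEs hQn
      obtain ⟨R, hQR, hcard, ψ, hψ, hψe⟩ := H802.exists_extension_of_not_centric hQr hQc hα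
      have hRT : R ≤ T := H802.hom_le hψ
      have hfR : Finite R := H802.finite_of_le hRT
      have hlt : Q < R := lt_of_le_of_ne hQR fun h => by
        rw [h] at hcard
        exact lt_irrefl _ hcard
      have h1 := big R (ex ψ) (mp_ex hψ) (wW_lt hlt (Subgroup.card_le_of_le hRT)) x hx
      refine (h1.res hQR).congr fun y hy => ?_
      rw [H770.ac_apply _ hy, ex_apply _ (hQR hy), hψe y hy (hQR hy)]

/-- **The odd case.** -/
theorem centralizer_le_odd [Finite S] [Fact p.Prime] (hp : p ≠ 2) (hS : IsPGroup p S)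
    (hE : E.IsNormalIn F p)
    (hCE : ∀ Y : Subgroup Ω, Y ≤ centralizerIn S T →
      (∀ C : FusionSystem (centralizerIn S Y), F.IsCentralizerSystem Y C → E.IsSubsystemOf C) →
      Y ≤ T) : centralizerIn S T ≤ T := by
  have hinv : E.IsInvariantIn F := hE.1.2.2
  have hT : F.StronglyClosed T := hinv.2.1
  have hTS : T ≤ S := hT.1
  have hfinT : Finite T := H802.finite_of_le hTS
  intro x hx
  obtain ⟨J, hJ⟩ : ∃ J, J = thompsonSubgroupAOf T := ⟨_, rfl⟩
  have hJT : J ≤ T := by rw [hJ]; exact thompsonSubgroupAOf_le T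
  have hJn : F.IsFullyNormalized J := by rw [hJ]; exact thompson_isFullyNormalized hT
  have hJc : E.IsCentric J := by rw [hJ]; exact thompson_isCentric E
  have hNT : normalizerIn T J = T := by
    refine inf_eq_left.2 ?_
    rw [hJ]
    exact Subgroup.le_normalizer.trans (normalizer_le_normalizer_thompsonSubgroupAOf T)
  obtain ⟨z, hz, hzN, hfix⟩ := exists_fix hS hE hJn hJc (x := x) (by rw [hNT]; exact hx)
  rw [hNT] at hzN
  have hzT : z ∈ T := hJT hz
  have hzC : z ∈ centralizerIn S T :=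
    ⟨hTS hzT, Subgroup.mem_centralizer_iff.2 fun t ht => hzN t ht⟩
  have hxz : x * z ∈ centralizerIn S T := mul_mem hx hzC
  have hXJ : XJ F E (x * z) := by
    refine ⟨hxz, ?_⟩
    rw [← hJ]
    intro α hα
    obtain ⟨g, hg, h1, h2, -⟩ := hfix α hα
    have hxzm : x * z ∈ J ⊔ centralizerIn S J :=
      (le_sup_right : centralizerIn S J ≤ _) (centralizerIn_mono hJT hxz)
    exact ⟨g, hg.res (sup_le le_sup_left (by rw [Subgroup.zpowers_le]; exact hxzm)),
      fun y hy => by rw [h1 y hy, H770.ac_apply _ hy], h2⟩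
  have hce : H753.CE E F (x * z) := ⟨hxz, fun P f hf => fx_all hp hS hE P f hf _ hXJ⟩
  have h1 : Subgroup.zpowers (x * z) ≤ T := by
    refine hCE _ ((Subgroup.zpowers_le).2 hxz) fun C hC P φ hφ => ?_
    rw [hC P]
    exact (H753.ce_iff hinv.1 hxz).1 hce P hφ
  have h2 : x * z ∈ T := h1 (Subgroup.mem_zpowers _)
  have h3 := T.mul_mem h2 (T.inv_mem hzT)
  rwa [mul_inv_cancel_right] at h3

/-- **The abelian quotient.** -/
theorem commutator_le_of_small [Finite S] [Fact p.Prime] (hS : IsPGroup p S)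
    (hE : E.IsNormalIn F p)
    (hCE : ∀ Y : Subgroup Ω, Y ≤ centralizerIn S T →
      (∀ C : FusionSystem (centralizerIn S Y), F.IsCentralizerSystem Y C → E.IsSubsystemOf C) →
      Y ≤ T) : ⁅T ⊔ centralizerIn S T, T ⊔ centralizerIn S T⁆ ≤ T := by
  have hF : F.IsSaturated p := hE.1.2.1
  have hinv : E.IsInvariantIn F := hE.1.2.2
  have hT : F.StronglyClosed T := hinv.2.1
  have hTS : T ≤ S := hT.1
  have hL : H792.centLargest F E p ≤ T := by
    refine hCE _ (H792.centLargest_le F E p) fun C hC P φ hφ => ?_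
    rw [hC P]
    exact H792.hom_subset_centralizerHom_centLargest hS hE P hφ
  -- commutators of elements of `C_S(T)`
  have hcomm : ∀ c ∈ centralizerIn S T, ∀ d ∈ centralizerIn S T, c⁻¹ * (d * c * d⁻¹) ∈ T := by
    intro c hc d hd
    have hφ : conjHom (centralizerIn S T) d ∈ F.centralizerHom T (centralizerIn S T) := by
      refine ⟨F.conj_mem inf_le_left hd.1, le_rfl, fun y => ?_, conjHom _ d,
        F.conj_mem (sup_le inf_le_left hTS) hd.1, fun y => rfl, fun t => ?_⟩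
      · exact mul_mem (mul_mem hd y.2) ((centralizerIn S T).inv_mem hd)
      · show d * (t : Ω) * d⁻¹ = t
        rw [← Subgroup.mem_centralizer_iff.1 hd.2 t t.2]
        group
    exact hL (H792.inv_mul_mem_centLargest hS hF hTS (E := E) hφ ⟨c, hc⟩)
  have hTn : T ≤ Subgroup.normalizer (centralizerIn S T : Set Ω) := by
    intro t ht
    have hfin : Finite (centralizerIn S T) := H802.finite_of_le inf_le_left
    refine H802.mem_normalizer_of_conj_mem (le_refl _) fun c hc => ?_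
    have h1 : t * c * t⁻¹ = c := by
      rw [Subgroup.mem_centralizer_iff.1 hc.2 t ht]
      group
    rw [h1]
    exact hc
  rw [Subgroup.commutator_le]
  intro g hg h hh
  obtain ⟨t, ht, c, hc, rfl⟩ := (H759.mem_sup_of_normalizes hTn).1 hg
  obtain ⟨t', ht', d, hd, rfl⟩ := (H759.mem_sup_of_normalizes hTn).1 hh
  have h1 : c * t' = t' * c := (Subgroup.mem_centralizer_iff.1 hc.2 t' ht').symm
  have h2 : d * t⁻¹ = t⁻¹ * d := (Subgroup.mem_centralizer_iff.1 hd.2 t⁻¹ (T.inv_mem ht)).symm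
  have h3 : c * d * c⁻¹ * d⁻¹ ∈ T := by
    have h4 := hcomm c⁻¹ ((centralizerIn S T).inv_mem hc) d hd
    have h5 : c⁻¹⁻¹ * (d * c⁻¹ * d⁻¹) = c * d * c⁻¹ * d⁻¹ := by group
    rwa [h5] at h4
  have h6 : t * c * (t' * d) * (t * c)⁻¹ * (t' * d)⁻¹ = t * t' * (c * d * c⁻¹ * d⁻¹) * t⁻¹ * t'⁻¹ := by
    have h7 : t * c * (t' * d) * (t * c)⁻¹ * (t' * d)⁻¹ =
        t * (c * t') * d * c⁻¹ * d⁻¹ * (d * t⁻¹) * d⁻¹ * t'⁻¹ := by group
    rw [h7, h1, h2]
    group
  rw [commutatorElement_def, h6]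
  exact T.mul_mem (T.mul_mem (T.mul_mem (T.mul_mem ht ht') h3) (T.inv_mem ht)) (T.inv_mem ht')

end

end Cfsg.Agent.H769
end
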